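import Cfsg.Agent.Lib.Helper93.Gl2Special

/-!
# Three special elements in a `p'`-subgroup of `GL₂(p)` (helper93)

Piece S3054/K2p for helper15.  `gl2_three_of_klein` takes the Klein class equation variant
(piece K1p, verbatim signature of `klein_comm`) as a hypothesis.
-/

set_option autoImplicit false

namespace Cfsg.Agent.Lib.Helper93.Gl2Three

open Matrix Cfsg.Agent.Lib.Helper93.Gl2Special

section Field

variable {F : Type*} [Field F]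

/-- two independent eigenvectors with the same eigenvalue force a scalar matrix -/
theorem isSc_of_two_eigen (M : Matrix (Fin 2) (Fin 2) F) (τ : F) (v w : Fin 2 → F)
    (hv : M.mulVec v = τ • v) (hw : M.mulVec w = τ • w) (hD : v 0 * w 1 - w 0 * v 1 ≠ 0) :
    IsSc M := by
  have e0 := congrFun hv 0
  have e1 := congrFun hv 1
  have f0 := congrFun hw 0
  have f1 := congrFun hw 1
  simp only [Matrix.mulVec, dotProduct, Fin.sum_univ_two, Pi.smul_apply, smul_eq_mul]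
    at e0 e1 f0 f1
  have hb : M 0 1 * (v 0 * w 1 - w 0 * v 1) = 0 := by linear_combination v 0 * f0 - w 0 * e0
  have hc : M 1 0 * (v 0 * w 1 - w 0 * v 1) = 0 := by linear_combination w 1 * e1 - v 1 * f1
  have ha : (M 0 0 - τ) * (v 0 * w 1 - w 0 * v 1) = 0 := by
    linear_combination w 1 * e0 - v 1 * f0
  have hd : (M 1 1 - τ) * (v 0 * w 1 - w 0 * v 1) = 0 := by
    linear_combination v 0 * f1 - w 0 * e1
  refine ⟨(mul_eq_zero.mp hb).resolve_right hD, (mul_eq_zero.mp hc).resolve_right hD, ?_⟩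
  have h1 := sub_eq_zero.mp ((mul_eq_zero.mp ha).resolve_right hD)
  have h2 := sub_eq_zero.mp ((mul_eq_zero.mp hd).resolve_right hD)
  rw [h1, h2]

/-- a matrix commuting with a non-scalar matrix keeps its eigen-directions -/
theorem cross_eq_zero (Mi Mj : Matrix (Fin 2) (Fin 2) F) (hMj : ¬ IsSc Mj) (τ : F)
    (v : Fin 2 → F) (hv : Mj.mulVec v = τ • v) (hc : Mi * Mj = Mj * Mi) :
    v 0 * (Mi.mulVec v) 1 - (Mi.mulVec v) 0 * v 1 = 0 := by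
  by_contra hD
  apply hMj
  refine isSc_of_two_eigen Mj τ v (Mi.mulVec v) hv ?_ hD
  rw [Matrix.mulVec_mulVec, ← hc, ← Matrix.mulVec_mulVec, hv, Matrix.mulVec_smul]

/-- three pairwise independent eigen-directions force a scalar matrix -/
theorem isSc_of_three (M : Matrix (Fin 2) (Fin 2) F) (v₁ v₂ v₃ : Fin 2 → F)
    (E1 : v₁ 0 * (M.mulVec v₁) 1 - (M.mulVec v₁) 0 * v₁ 1 = 0)
    (E2 : v₂ 0 * (M.mulVec v₂) 1 - (M.mulVec v₂) 0 * v₂ 1 = 0)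
    (E3 : v₃ 0 * (M.mulVec v₃) 1 - (M.mulVec v₃) 0 * v₃ 1 = 0)
    (D12 : v₁ 0 * v₂ 1 - v₂ 0 * v₁ 1 ≠ 0) (D13 : v₁ 0 * v₃ 1 - v₃ 0 * v₁ 1 ≠ 0)
    (D23 : v₂ 0 * v₃ 1 - v₃ 0 * v₂ 1 ≠ 0) : IsSc M := by
  simp only [Matrix.mulVec, dotProduct, Fin.sum_univ_two] at E1 E2 E3
  have hΔ : (v₁ 0 * v₂ 1 - v₂ 0 * v₁ 1) * (v₁ 0 * v₃ 1 - v₃ 0 * v₁ 1) *
      (v₂ 0 * v₃ 1 - v₃ 0 * v₂ 1) ≠ 0 := mul_ne_zero (mul_ne_zero D12 D13) D23
  have hc : M 1 0 * ((v₁ 0 * v₂ 1 - v₂ 0 * v₁ 1) * (v₁ 0 * v₃ 1 - v₃ 0 * v₁ 1) *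
      (v₂ 0 * v₃ 1 - v₃ 0 * v₂ 1)) = 0 := by
    linear_combination (v₂ 1 * v₃ 1 * (v₂ 0 * v₃ 1 - v₃ 0 * v₂ 1)) * E1
      - (v₁ 1 * v₃ 1 * (v₁ 0 * v₃ 1 - v₃ 0 * v₁ 1)) * E2
      + (v₁ 1 * v₂ 1 * (v₁ 0 * v₂ 1 - v₂ 0 * v₁ 1)) * E3
  have he : (M 1 1 - M 0 0) * ((v₁ 0 * v₂ 1 - v₂ 0 * v₁ 1) * (v₁ 0 * v₃ 1 - v₃ 0 * v₁ 1) *
      (v₂ 0 * v₃ 1 - v₃ 0 * v₂ 1)) = 0 := by
    linear_combination (-((v₂ 0 * v₃ 1 - v₃ 0 * v₂ 1) * (v₂ 0 * v₃ 1 + v₃ 0 * v₂ 1))) * E1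
      + ((v₁ 0 * v₃ 1 - v₃ 0 * v₁ 1) * (v₁ 0 * v₃ 1 + v₃ 0 * v₁ 1)) * E2
      - ((v₁ 0 * v₂ 1 - v₂ 0 * v₁ 1) * (v₁ 0 * v₂ 1 + v₂ 0 * v₁ 1)) * E3
  have hb : M 0 1 * ((v₁ 0 * v₂ 1 - v₂ 0 * v₁ 1) * (v₁ 0 * v₃ 1 - v₃ 0 * v₁ 1) *
      (v₂ 0 * v₃ 1 - v₃ 0 * v₂ 1)) = 0 := by
    linear_combination (-(v₂ 0 * v₃ 0 * (v₂ 0 * v₃ 1 - v₃ 0 * v₂ 1))) * E1
      + (v₁ 0 * v₃ 0 * (v₁ 0 * v₃ 1 - v₃ 0 * v₁ 1)) * E2
      - (v₁ 0 * v₂ 0 * (v₁ 0 * v₂ 1 - v₂ 0 * v₁ 1)) * E3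
  refine ⟨(mul_eq_zero.mp hb).resolve_right hΔ, (mul_eq_zero.mp hc).resolve_right hΔ, ?_⟩
  exact (sub_eq_zero.mp ((mul_eq_zero.mp he).resolve_right hΔ)).symm

/-- non-proportional vectors have non-zero cross product -/
theorem cross_ne_zero (v w : Fin 2 → F) (hv : v ≠ 0) (h : ∀ c : F, w ≠ c • v) :
    v 0 * w 1 - w 0 * v 1 ≠ 0 := by
  intro hD
  by_cases h0 : v 0 = 0
  · have h1 : v 1 ≠ 0 := by
      intro h1
      apply hv
      funext i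
      fin_cases i
      · exact h0
      · exact h1
    have hw0 : w 0 = 0 := by
      rw [h0, zero_mul, zero_sub, neg_eq_zero] at hD
      exact (mul_eq_zero.mp hD).resolve_right h1
    apply h (w 1 / v 1)
    funext i
    fin_cases i
    · show w 0 = w 1 / v 1 * v 0
      rw [hw0, h0, mul_zero]
    · show w 1 = w 1 / v 1 * v 1
      rw [div_mul_cancel₀ _ h1]
  · apply h (w 0 / v 0)
    funext i
    fin_cases i
    · show w 0 = w 0 / v 0 * v 0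
      rw [div_mul_cancel₀ _ h0]
    · show w 1 = w 0 / v 0 * v 1
      rw [div_mul_eq_mul_div, eq_div_iff h0]
      linear_combination hD

end Field

/-- **K2p**, with the Klein class equation variant (K1p) as a hypothesis. -/
theorem gl2_three_of_klein
    (K1p : ∀ (H' : Type) [Group H'] [Finite H'] (m : ℕ), 6 ≤ m →
      (∀ h : H', h ∉ Subgroup.center H' → ∀ a b : H', a * h = h * a → b * h = h * b →
        a * b = b * a) →
      (∀ h : H', h ∉ Subgroup.center H' → ∀ a b : H',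
        (a * h * a⁻¹) * h = h * (a * h * a⁻¹) → (b * h * b⁻¹) * h = h * (b * h * b⁻¹) →
        a * h ≠ h * a → b * h ≠ h * b → (a⁻¹ * b) * h = h * (a⁻¹ * b)) →
      ∀ (S : Set H'), (∀ s ∈ S, ∀ g : H', g * s * g⁻¹ ∈ S) →
      (∀ s ∈ S, ∀ k : ℕ, s ^ k ∈ Subgroup.center H' → m ∣ k) →
      ∀ (s₁ s₂ : H'), s₁ ∈ S → s₂ ∈ S → s₁ * s₂ = s₂ * s₁)
    (p : ℕ) [Fact p.Prime] (hp : 17 ≤ p) (H : Subgroup (GL (Fin 2) (ZMod p)))
    (hH : ∀ h ∈ H, ¬ p ∣ orderOf h)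
    (t : (ZMod p)ˣ) (ht : orderOf t = p - 1) (v₁ v₂ v₃ : Fin 2 → ZMod p) (h₁ : v₁ ≠ 0)
    (h₂ : v₂ ≠ 0) (h₃ : v₃ ≠ 0)
    (h12 : ∀ c : ZMod p, v₂ ≠ c • v₁) (h13 : ∀ c : ZMod p, v₃ ≠ c • v₁)
    (h23 : ∀ c : ZMod p, v₃ ≠ c • v₂)
    (hspec : ∀ v ∈ ({v₁, v₂, v₃} : Set (Fin 2 → ZMod p)), ∃ h ∈ H,
      (h : Matrix (Fin 2) (Fin 2) (ZMod p)).mulVec v = ((t⁻¹ : (ZMod p)ˣ) : ZMod p) • v ∧
      Matrix.det (h : Matrix (Fin 2) (Fin 2) (ZMod p)) = (t : ZMod p)) : False := by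
  classical
  have hpp : p.Prime := Fact.out
  have : NeZero p := ⟨hpp.ne_zero⟩
  -- the exponent `m`
  obtain ⟨m, hm6, hmdvd⟩ : ∃ m : ℕ, 6 ≤ m ∧ ∀ k : ℕ, p - 1 ∣ 3 * k → m ∣ k := by
    by_cases h3 : 3 ∣ p - 1
    · obtain ⟨c, hc⟩ := h3
      refine ⟨c, by omega, ?_⟩
      intro k hk
      rw [hc] at hk
      exact Nat.dvd_of_mul_dvd_mul_left (by norm_num) hk
    · refine ⟨p - 1, by omega, ?_⟩
      intro k hk
      have hcop : Nat.Coprime (p - 1) 3 :=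
        ((Nat.Prime.coprime_iff_not_dvd Nat.prime_three).mpr h3).symm
      exact hcop.dvd_of_dvd_mul_left hk
  -- scalars
  have h2 : (2 : ZMod p) ≠ 0 := by
    have h : ((2 : ℕ) : ZMod p) ≠ 0 := by
      rw [Ne, ZMod.natCast_eq_zero_iff]
      intro hd
      have := Nat.le_of_dvd (by norm_num) hd
      omega
    exact_mod_cast h
  obtain ⟨u, hu⟩ : ∃ u : ZMod p, u = (t : ZMod p) := ⟨_, rfl⟩
  obtain ⟨τ₀, hτ₀⟩ : ∃ τ₀ : ZMod p, τ₀ = ((t⁻¹ : (ZMod p)ˣ) : ZMod p) := ⟨_, rfl⟩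
  have hτu : τ₀ * u = 1 := by rw [hτ₀, hu]; exact Units.inv_mul t
  have u3 : ∀ k : ℕ, u ^ (3 * k) = 1 → p - 1 ∣ 3 * k := by
    intro k hk
    rw [← ht]
    apply orderOf_dvd_of_pow_eq_one
    apply Units.ext
    rw [Units.val_pow_eq_pow_val, ← hu, hk, Units.val_one]
  -- the matrix of an element
  obtain ⟨mat, hmat⟩ : ∃ mat : ↥H → Matrix (Fin 2) (Fin 2) (ZMod p), ∀ h : ↥H,
      mat h = ((h : GL (Fin 2) (ZMod p)) : Matrix (Fin 2) (Fin 2) (ZMod p)) := ⟨_, fun _ => rfl⟩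
  have mat_mul : ∀ a b : ↥H, mat (a * b) = mat a * mat b := by
    intro a b
    simp [hmat]
  have mat_one : mat 1 = 1 := by simp [hmat]
  have mat_inj : ∀ a b : ↥H, mat a = mat b → a = b := by
    intro a b h
    rw [hmat, hmat] at h
    exact Subtype.ext (Units.ext h)
  have mat_inv_mul : ∀ a : ↥H, mat a⁻¹ * mat a = 1 := by
    intro a
    rw [← mat_mul, inv_mul_cancel, mat_one]
  have mat_mul_inv : ∀ a : ↥H, mat a * mat a⁻¹ = 1 := by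
    intro a
    rw [← mat_mul, mul_inv_cancel, mat_one]
  have mat_pow : ∀ (a : ↥H) (k : ℕ), mat (a ^ k) = mat a ^ k := by
    intro a k
    induction k with
    | zero => simp [mat_one]
    | succ k ih => rw [pow_succ, mat_mul, ih, pow_succ]
  have nonsc : ∀ h : ↥H, h ∉ Subgroup.center ↥H → ¬ IsSc (mat h) := by
    intro h hh hsc
    apply hh
    rw [Subgroup.mem_center_iff]
    intro g
    apply mat_inj
    rw [mat_mul, mat_mul]
    exact (isSc_comm (mat h) (mat g) hsc).symm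
  have detne : ∀ h : ↥H, mat h 0 0 * mat h 1 1 - mat h 0 1 * mat h 1 0 ≠ 0 := by
    intro h
    rw [← Matrix.det_fin_two]
    have h1 := congrArg Matrix.det (mat_mul_inv h)
    rw [Matrix.det_mul, Matrix.det_one] at h1
    exact left_ne_zero_of_mul_eq_one h1
  have disc : ∀ h : ↥H, h ∉ Subgroup.center ↥H →
      (mat h 0 0 - mat h 1 1) ^ 2 + 4 * (mat h 0 1 * mat h 1 0) ≠ 0 := by
    intro h hh
    refine disc_ne_zero h2 (mat h) (nonsc h hh) (detne h) (orderOf h) ?_ ?_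
    · rw [Ne, ZMod.natCast_eq_zero_iff, ← Subgroup.orderOf_coe]
      exact hH _ h.2
    · rw [← mat_pow, pow_orderOf_eq_one, mat_one]
  -- the hypotheses of K1
  have hCA : ∀ h : ↥H, h ∉ Subgroup.center ↥H → ∀ a b : ↥H, a * h = h * a → b * h = h * b →
      a * b = b * a := by
    intro h hh a b ha hb
    apply mat_inj
    rw [mat_mul, mat_mul]
    refine comm_of_comm (mat h) (mat a) (mat b) (nonsc h hh) ?_ ?_
    · rw [← mat_mul, ← mat_mul, ha]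
    · rw [← mat_mul, ← mat_mul, hb]
  have hN2 : ∀ h : ↥H, h ∉ Subgroup.center ↥H → ∀ a b : ↥H,
      (a * h * a⁻¹) * h = h * (a * h * a⁻¹) → (b * h * b⁻¹) * h = h * (b * h * b⁻¹) →
      a * h ≠ h * a → b * h ≠ h * b → (a⁻¹ * b) * h = h * (a⁻¹ * b) := by
    intro h hh a b ha hb hna hnb
    have hA := conj_eq h2 (mat h) (mat a) (mat a⁻¹) (nonsc h hh) (disc h hh) (mat_mul_inv a)
      (mat_inv_mul a) (by have h' := congrArg mat ha; simpa only [mat_mul] using h')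
      (fun hc => hna (mat_inj _ _ (by rw [mat_mul, mat_mul, hc])))
    have hB := conj_eq h2 (mat h) (mat b) (mat b⁻¹) (nonsc h hh) (disc h hh) (mat_mul_inv b)
      (mat_inv_mul b) (by have h' := congrArg mat hb; simpa only [mat_mul] using h')
      (fun hc => hnb (mat_inj _ _ (by rw [mat_mul, mat_mul, hc])))
    have hab : a * h * a⁻¹ = b * h * b⁻¹ := by
      apply mat_inj
      rw [mat_mul, mat_mul, mat_mul, mat_mul, hA, hB]
    calc (a⁻¹ * b) * h = a⁻¹ * (b * h * b⁻¹) * b := by group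
      _ = a⁻¹ * (a * h * a⁻¹) * b := by rw [hab]
      _ = h * (a⁻¹ * b) := by group
  -- the special elements
  obtain ⟨S, hS⟩ : ∃ S : Set ↥H, ∀ s : ↥H, s ∈ S ↔ ∃ v : Fin 2 → ZMod p, v ≠ 0 ∧
      (mat s).mulVec v = τ₀ • v ∧ (mat s).det = u := ⟨{s | ∃ v : Fin 2 → ZMod p, v ≠ 0 ∧
      (mat s).mulVec v = τ₀ • v ∧ (mat s).det = u}, fun _ => Iff.rfl⟩
  have nonscS : ∀ s : ↥H, s ∈ S → ¬ IsSc (mat s) := by
    intro s hs hsc
    obtain ⟨v, hv, hev, hdet⟩ := (hS s).mp hs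
    have h3 := pow_three_of_isSc (mat s) v hv τ₀ u hτu hev hdet 1 (by rwa [pow_one])
    have h4 := Nat.le_of_dvd (by norm_num) (u3 1 h3)
    omega
  have spec : ∀ v : Fin 2 → ZMod p, v ≠ 0 → v ∈ ({v₁, v₂, v₃} : Set (Fin 2 → ZMod p)) →
      ∃ s : ↥H, s ∈ S ∧ (mat s).mulVec v = τ₀ • v := by
    intro v hne hv
    obtain ⟨h, hhH, hev, hdet⟩ := hspec v hv
    have hev' : (mat ⟨h, hhH⟩).mulVec v = τ₀ • v := by
      rw [hmat, hτ₀]
      exact hev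
    refine ⟨⟨h, hhH⟩, (hS _).mpr ⟨v, hne, hev', ?_⟩, hev'⟩
    rw [hmat, hu]
    exact hdet
  obtain ⟨s₁, hs₁, e₁⟩ := spec v₁ h₁ (by simp)
  obtain ⟨s₂, hs₂, e₂⟩ := spec v₂ h₂ (by simp)
  obtain ⟨s₃, hs₃, e₃⟩ := spec v₃ h₃ (by simp)
  have D12 := cross_ne_zero v₁ v₂ h₁ h12
  have D13 := cross_ne_zero v₁ v₃ h₁ h13
  have D23 := cross_ne_zero v₂ v₃ h₂ h23
  -- the linear algebra contradiction
  have fin : s₁ * s₂ = s₂ * s₁ → s₁ * s₃ = s₃ * s₁ → False := by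
    intro c12 c13
    apply nonscS s₁ hs₁
    have E1 : v₁ 0 * ((mat s₁).mulVec v₁) 1 - ((mat s₁).mulVec v₁) 0 * v₁ 1 = 0 := by
      rw [e₁]
      simp only [Pi.smul_apply, smul_eq_mul]
      ring
    have E2 := cross_eq_zero (mat s₁) (mat s₂) (nonscS s₂ hs₂) τ₀ v₂ e₂
      (by rw [← mat_mul, ← mat_mul, c12])
    have E3 := cross_eq_zero (mat s₁) (mat s₃) (nonscS s₃ hs₃) τ₀ v₃ e₃
      (by rw [← mat_mul, ← mat_mul, c13])
    exact isSc_of_three (mat s₁) v₁ v₂ v₃ E1 E2 E3 D12 D13 D23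
  by_cases hab : ∀ a b : ↥H, a * b = b * a
  · exact fin (hab _ _) (hab _ _)
  · have hab' : ∃ a b : ↥H, a * b ≠ b * a := by
      by_contra hcon
      apply hab
      intro a b
      by_contra hne
      exact hcon ⟨a, b, hne⟩
    obtain ⟨a, b, hne⟩ := hab'
    have hSconj : ∀ s ∈ S, ∀ g : ↥H, g * s * g⁻¹ ∈ S := by
      intro s hs g
      obtain ⟨v, hv, hev, hdet⟩ := (hS s).mp hs
      refine (hS _).mpr ⟨(mat g).mulVec v, ?_, ?_, ?_⟩
      · intro h0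
        apply hv
        have h1 : (mat g⁻¹).mulVec ((mat g).mulVec v) = v := by
          rw [Matrix.mulVec_mulVec, mat_inv_mul, Matrix.one_mulVec]
        rw [← h1, h0, Matrix.mulVec_zero]
      · rw [mat_mul, mat_mul, Matrix.mulVec_mulVec, mul_assoc (mat g * mat s), mat_inv_mul,
          mul_one, ← Matrix.mulVec_mulVec, hev, Matrix.mulVec_smul]
      · rw [mat_mul, mat_mul, Matrix.det_mul, Matrix.det_mul, mul_right_comm, ← Matrix.det_mul,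
          mat_mul_inv, Matrix.det_one, one_mul]
        exact hdet
    have hSord : ∀ s ∈ S, ∀ k : ℕ, s ^ k ∈ Subgroup.center ↥H → m ∣ k := by
      intro s hs k hk
      obtain ⟨v, hv, hev, hdet⟩ := (hS s).mp hs
      have hsc : IsSc (mat s ^ k) := by
        by_contra hns
        apply hne
        apply mat_inj
        rw [mat_mul, mat_mul]
        refine comm_of_comm (mat s ^ k) (mat a) (mat b) hns ?_ ?_
        · have h' := congrArg mat (Subgroup.mem_center_iff.mp hk a)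
          rwa [mat_mul, mat_mul, mat_pow] at h'
        · have h' := congrArg mat (Subgroup.mem_center_iff.mp hk b)
          rwa [mat_mul, mat_mul, mat_pow] at h'
      exact hmdvd k (u3 k (pow_three_of_isSc (mat s) v hv τ₀ u hτu hev hdet k hsc))
    exact fin (K1p ↥H m hm6 hCA hN2 S hSconj hSord s₁ s₂ hs₁ hs₂)
      (K1p ↥H m hm6 hCA hN2 S hSconj hSord s₁ s₃ hs₁ hs₃)

end Cfsg.Agent.Lib.Helper93.Gl2Three
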