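import Mathlib
import Cfsg.Agent.Lib.Helper93.BrauerB0
import Cfsg.Agent.Lib.Helper76.BrRBStmt

/-!
# S4504, piece B0X: the block of the trivial root, with the vanishing of the other characters

The statement of `Helper93.BrauerB0.b0_structure` together with one more conjunct: a character
outside `X ∪ Y` has vanishing sums over the `p`-regular elements of `u C_G(P)`, `u ∈ P ∖ 1`
(second main theorem, `Helper80.DefOneCol.sec_eq_zero_of_not_mem`).  The proof repeats the one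
of `b0_structure`.
-/

set_option autoImplicit false
set_option linter.unusedSectionVars false
set_option linter.style.haveILetI false
set_option maxHeartbeats 4000000

namespace Cfsg.Agent.Lib.Helper93.BrRBB0X

open Cfsg Cfsg.Agent.Lib.CT Cfsg.Agent.Lib.CT.Wedderburn
  Cfsg.Agent.Lib.Helper80.DefOneLoc Cfsg.Agent.Lib.Helper80.DefOneCol
  Cfsg.Agent.Lib.Helper80.DefOneGram Cfsg.Agent.Lib.Helper80.DefOneRow
  Cfsg.Agent.Lib.Helper80.AbSylowCh Cfsg.Agent.Lib.Helper93.BrauerB0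
open scoped ComplexConjugate

universe u

/-- The sum over the `p`-regular elements of `C_G(P)` in terms of the section coefficient. -/
theorem finsum_reg_eq {G : Type u} [Group G] [Fintype G] {p : ℕ} (C : Subgroup G) [Fintype ↥C]
    (F : G → ℂ) :
    ∑ᶠ k ∈ {k : G | k ∈ C ∧ ¬ p ∣ orderOf k}, F k =
      ∑ r : ↥C, (if p ∣ orderOf r then 0 else F (r : G)) := by
  classical
  rw [ColumnId.finsum_mem_eq_sum]
  have h1 : ∀ r : ↥C, (if p ∣ orderOf r then (0 : ℂ) else F (r : G)) =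
      (fun g : G => if ¬ p ∣ orderOf g then F g else 0) (r : G) := by
    intro r
    show _ = if ¬ p ∣ orderOf (r : G) then _ else _
    rw [Subgroup.orderOf_coe]
    by_cases hr : p ∣ orderOf r
    · rw [if_pos hr, if_neg (not_not.mpr hr)]
    · rw [if_neg hr, if_pos hr]
  rw [Finset.sum_congr rfl (fun r _ => h1 r),
    ← Finset.sum_subtype (Finset.univ.filter (fun g : G => g ∈ C)) (fun g => by simp)
      (fun g : G => if ¬ p ∣ orderOf g then F g else 0),
    Finset.sum_filter]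
  refine Finset.sum_congr rfl fun g _ => ?_
  by_cases hg : g ∈ C
  · rw [if_pos hg]
    by_cases h2 : p ∣ orderOf g
    · rw [if_neg (not_not.mpr h2), if_neg (fun h : g ∈ {k : G | k ∈ C ∧ ¬ p ∣ orderOf k} => h.2 h2)]
    · rw [if_pos h2, if_pos (show g ∈ {k : G | k ∈ C ∧ ¬ p ∣ orderOf k} from ⟨hg, h2⟩)]
  · rw [if_neg hg, if_neg (fun h : g ∈ {k : G | k ∈ C ∧ ¬ p ∣ orderOf k} => hg h.1)]

/-- **Piece B0X of S4504.** -/
theorem main : Cfsg.Agent.Lib.Helper76.BrRB.B0X.{u} := by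
  intro G _ _ p _ hodd P hP
  classical
  have hp : p.Prime := Fact.out
  obtain ⟨M, hM⟩ := Cfsg.Agent.Lib.CT.Knorr.exists_isPModular p hp
  have hMp := Cfsg.Agent.Lib.Helper77.LocalRing.isPrime_of_isPModular hM
  obtain ⟨θ, hθ1⟩ : ∃ θ : IrrCharacter ↥(Subgroup.centralizer ((P : Subgroup G) : Set G)),
      ∀ c, (θ : ↥(Subgroup.centralizer ((P : Subgroup G) : Set G)) → ℂ) c = 1 :=
    ⟨⟨fun _ => 1, Ops.isIrrCharacter_one⟩, fun _ => rfl⟩
  obtain ⟨B, hind, hBP⟩ := Cfsg.Agent.Lib.Helper79.McKayCD.exists_induced p M hM P hP θ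
  have hB : IsPBlock M B := hind.2.1
  have hθb : θ ∈ blockOf M (θ : ↥(Subgroup.centralizer ((P : Subgroup G) : Set G)) → ℂ) :=
    Cfsg.Agent.Lib.Helper77.DefectClass.self_mem_blockOf hMp θ
  have hθP : ∀ x : ↥(Subgroup.centralizer ((P : Subgroup G) : Set G)),
      (x : G) ∈ (P : Subgroup G) →
      (θ : ↥(Subgroup.centralizer ((P : Subgroup G) : Set G)) → ℂ) x =
        (θ : ↥(Subgroup.centralizer ((P : Subgroup G) : Set G)) → ℂ) 1 :=
    fun x _ => by rw [hθ1, hθ1]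
  have hT : ∀ g : G, g ∈ Subgroup.normalizer ((P : Subgroup G) : Set G) ↔
      (g ∈ Subgroup.normalizer ((P : Subgroup G) : Set G) ∧
        ∀ c c' : Subgroup.centralizer ((P : Subgroup G) : Set G), (c' : G) = g * c * g⁻¹ →
          (θ : Subgroup.centralizer ((P : Subgroup G) : Set G) → ℂ) c' =
            (θ : Subgroup.centralizer ((P : Subgroup G) : Set G) → ℂ) c) :=
    fun g => ⟨fun h => ⟨h, fun c c' _ => by rw [hθ1, hθ1]⟩, fun h => h.1⟩
  have hlow := Cfsg.Agent.Lib.Helper17.BqTop2.lower_bound' p M hM P hP B hB _ hind θ hθb hθP _ hT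
    _ rfl
  haveI : Fintype G := Fintype.ofFinite G
  have := finite_irrCharacter G
  haveI : Fintype (IrrCharacter G) := Fintype.ofFinite _
  have := finite_irrCharacter ↥(Subgroup.centralizer ((P : Subgroup G) : Set G))
  haveI : Fintype (IrrCharacter ↥(Subgroup.centralizer ((P : Subgroup G) : Set G))) :=
    Fintype.ofFinite _
  have hPab : ∀ a ∈ (P : Subgroup G), ∀ b ∈ (P : Subgroup G), a * b = b * a :=
    fun a ha b hb => comm_of_mem P hP ha hb
  have := finite_hom (P : Subgroup G) hPab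
  haveI : Fintype (↥(P : Subgroup G) →* ℂˣ) := Fintype.ofFinite _
  haveI : Fintype ↥(Subgroup.centralizer ((P : Subgroup G) : Set G)) := Fintype.ofFinite _
  haveI : Fintype ↥(P : Subgroup G) := Fintype.ofFinite _
  haveI : Fintype ↥(Subgroup.normalizer ((P : Subgroup G) : Set G)) := Fintype.ofFinite _
  obtain ⟨π, hπP, hπreg⟩ := exists_proj P hP
  obtain ⟨D, X, Y, Γ, δs, hD, hv0, hnv, hdvd, hcardB, hBXY, hdisj, hX, hY, hXΓ, hcase, -, -,
      hagree⟩ :=
    Cfsg.Agent.Lib.Helper80.DefOneFull.structure_full P hP M hM π hπP hπreg B hB hBP _ hind θ hθb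
      hθP _ hT _ rfl hlow
      (fun χ u hu => Cfsg.Agent.Lib.Helper74.DefOneRow1.value_eq_sum P hP π hπP hπreg
        (χ : G → ℂ) (Orth.irr_isClassFunction χ) u hu)
  have hXY : ∀ χ, χ ∈ X → χ ∉ Y := fun χ hx hy => Set.disjoint_left.mp hdisj hx hy
  have hXB : ∀ χ, χ ∈ X → χ ∈ B := fun χ h => by rw [hBXY]; exact Or.inl h
  have hYB : ∀ χ, χ ∈ Y → χ ∈ B := fun χ h => by rw [hBXY]; exact Or.inr h
  have hD1 : ∀ χ : IrrCharacter G, D 1 χ = 0 := by
    intro χ
    have h := hD 1 χ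
    rw [col_one] at h
    exact_mod_cast h.symm
  have hone : ¬ p ∣ orderOf (1 : G) := by
    rw [orderOf_one]
    exact fun h => hp.one_lt.ne' (Nat.dvd_one.mp h)
  have hcardΨ : Fintype.card (↥(P : Subgroup G) →* ℂˣ) = p := by
    rw [← Nat.card_eq_fintype_card, Cfsg.Agent.S1507.card_hom_sub (P : Subgroup G) hPab]
    exact hP
  -- values at `u * k`
  have hval : ∀ χ ∈ B, ∀ (u : G) (hu : u ∈ (P : Subgroup G)), u ≠ 1 →
      ∀ k : ↥(Subgroup.centralizer ((P : Subgroup G) : Set G)), ¬ p ∣ orderOf k →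
      (χ : G → ℂ) (u * (k : G)) = ∑ ψ : ↥(P : Subgroup G) →* ℂˣ,
        (D ψ χ : ℂ) * ((ψ ⟨u, hu⟩ : ℂˣ) : ℂ) := by
    intro χ hχ u hu hu1 k hk
    rw [value_triv P hP π hπP hπreg M hM B hB hBP _ hind θ hθb hθ1 χ hχ u hu hu1 k hk]
    exact Finset.sum_congr rfl fun ψ _ => by rw [hD]
  have hsing : ∀ g : G, p ∣ orderOf g → ∃ (u : G) (hu : u ∈ (P : Subgroup G)), u ≠ 1 ∧
      ∀ χ ∈ B, (χ : G → ℂ) g = ∑ ψ : ↥(P : Subgroup G) →* ℂˣ,
        (D ψ χ : ℂ) * ((ψ ⟨u, hu⟩ : ℂˣ) : ℂ) := by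
    intro g hg
    obtain ⟨x, u, k, hu, hu1, hk, hx⟩ :=
      Cfsg.Agent.Lib.Helper80.DefOneRat.exists_conj_mul P hP g hg
    refine ⟨u, hu, hu1, fun χ hχ => ?_⟩
    rw [← hval χ hχ u hu hu1 k hk, ← hx]
    exact (Orth.irr_isClassFunction χ g x).symm
  have hsumΨ : ∀ w : ↥(P : Subgroup G), w ≠ 1 →
      ∑ ψ : ↥(P : Subgroup G) →* ℂˣ, ((ψ w : ℂˣ) : ℂ) = 0 := by
    intro w hw
    rw [Cfsg.Agent.Lib.Helper25.CyclicTI.sum_hom_sub (P : Subgroup G) hPab, if_neg hw]
  -- sums over `P`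
  have hrow : ∀ χ ∈ B, ∀ k : ↥(Subgroup.centralizer ((P : Subgroup G) : Set G)),
      ¬ p ∣ orderOf k →
      ∑ w : ↥(P : Subgroup G), (χ : G → ℂ) ((w : G) * (k : G)) =
        (χ : G → ℂ) (k : G) - ((∑ ψ : ↥(P : Subgroup G) →* ℂˣ, D ψ χ : ℤ) : ℂ) := by
    intro χ hχ k hk
    have e1 : ∀ w : ↥(P : Subgroup G), (χ : G → ℂ) ((w : G) * (k : G)) =
        (∑ ψ : ↥(P : Subgroup G) →* ℂˣ, (D ψ χ : ℂ) * ((ψ w : ℂˣ) : ℂ)) +
          (if w = 1 then (χ : G → ℂ) (k : G) -
            ((∑ ψ : ↥(P : Subgroup G) →* ℂˣ, D ψ χ : ℤ) : ℂ) else 0) := by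
      intro w
      by_cases hw : w = 1
      · rw [if_pos hw, hw, Subgroup.coe_one, one_mul]
        push_cast
        simp
      · rw [if_neg hw, add_zero]
        exact hval χ hχ (w : G) w.2 (fun h => hw (Subtype.ext h)) k hk
    have e2 : ∀ ψ : ↥(P : Subgroup G) →* ℂˣ,
        ∑ w : ↥(P : Subgroup G), (D ψ χ : ℂ) * ((ψ w : ℂˣ) : ℂ) = 0 := by
      intro ψ
      by_cases hψ : ψ = 1
      · rw [hψ, hD1]
        simp
      · rw [← Finset.mul_sum, sum_elt_ne ψ hψ, mul_zero]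
    rw [Finset.sum_congr rfl (fun w _ => e1 w), Finset.sum_add_distrib, Finset.sum_comm,
      Finset.sum_eq_zero (fun ψ _ => e2 ψ), zero_add,
      Finset.sum_eq_single (1 : ↥(P : Subgroup G)) (fun w _ hw => if_neg hw)
        (fun h => absurd (Finset.mem_univ _) h), if_pos rfl]
  have hS : ∃ ε' : ℤ, (ε' = 1 ∨ ε' = -1) ∧
      (∀ ψ : ↥(P : Subgroup G) →* ℂˣ, ψ ≠ 1 →
        ∑ χ : IrrCharacter G, (if χ ∈ Y then D ψ χ else 0) = ε') ∧
      (∀ η ∈ Y, ∀ η' ∈ Y, ∑ ψ : ↥(P : Subgroup G) →* ℂˣ, D ψ η =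
        ∑ ψ : ↥(P : Subgroup G) →* ℂˣ, D ψ η') := by
    rcases hcase with ⟨δ, γ, ζ, hδ, hε, hζY, hYζ, hform⟩ | ⟨he1, η₀, hYη, hΓη, hconstη⟩
    · refine ⟨_, hε, ?_, ?_⟩
      · intro ψ hψ
        have e1 : ∀ χ : IrrCharacter G, (if χ ∈ Y then D ψ χ else 0) =
            (if χ ∈ Y then γ else 0) + δ * (if χ = ζ ψ then 1 else 0) := by
          intro χ
          by_cases hy : χ ∈ Y
          · have hx : χ ∉ X := fun h => hXY χ h hy
            rw [if_pos hy, if_pos hy, hform ψ hψ χ, Set.indicator_of_notMem hx,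
              Set.indicator_of_mem hy, zero_add]
          · have hne : χ ≠ ζ ψ := fun h => hy (h ▸ hζY ψ hψ)
            rw [if_neg hy, if_neg hy, if_neg hne, mul_zero, add_zero]
        rw [Finset.sum_congr rfl (fun χ _ => e1 χ), Finset.sum_add_distrib, ← Finset.mul_sum,
          Cfsg.Agent.Lib.Helper80.DefOneMain.sum_ite_mem_const Y, hY,
          Finset.sum_eq_single (ζ ψ) (fun χ _ hχ => if_neg hχ)
            (fun h => absurd (Finset.mem_univ _) h), if_pos rfl, mul_one]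
      · -- the row sums
        have hRform : ∀ η ∈ Y, ∑ ψ : ↥(P : Subgroup G) →* ℂˣ, D ψ η =
            ∑ ψ : ↥(P : Subgroup G) →* ℂˣ, (if ψ = 1 then 0 else γ) +
              δ * ((Finset.univ.filter
                (fun ψ : ↥(P : Subgroup G) →* ℂˣ => ψ ≠ 1 ∧ ζ ψ = η)).card : ℤ) := by
          intro η hη
          have hηX : η ∉ X := fun h => hXY η h hη
          have e1 : ∀ ψ : ↥(P : Subgroup G) →* ℂˣ, D ψ η = (if ψ = 1 then 0 else γ) +
              δ * (if ψ ≠ 1 ∧ ζ ψ = η then 1 else 0) := by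
            intro ψ
            by_cases hψ : ψ = 1
            · rw [if_pos hψ, if_neg (fun h => h.1 hψ), hψ, hD1]
              ring
            · rw [hform ψ hψ η, Set.indicator_of_notMem hηX, Set.indicator_of_mem hη, if_neg hψ]
              by_cases hz : η = ζ ψ
              · rw [if_pos hz, if_pos ⟨hψ, hz.symm⟩]
                ring
              · rw [if_neg hz, if_neg (fun h => hz h.2.symm)]
                ring
          rw [Finset.sum_congr rfl (fun ψ _ => e1 ψ), Finset.sum_add_distrib, ← Finset.mul_sum,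
            Finset.sum_boole]
        have hn1 : ∀ η ∈ Y, 1 ≤ (Finset.univ.filter
            (fun ψ : ↥(P : Subgroup G) →* ℂˣ => ψ ≠ 1 ∧ ζ ψ = η)).card := by
          intro η hη
          obtain ⟨ψ, hψ, hz⟩ := hYζ η hη
          exact Finset.card_pos.mpr ⟨ψ, Finset.mem_filter.mpr ⟨Finset.mem_univ _, hψ, hz⟩⟩
        have hn2 : ∀ η : IrrCharacter G, (Finset.univ.filter
            (fun ψ : ↥(P : Subgroup G) →* ℂˣ => ψ ≠ 1 ∧ ζ ψ = η)).card ≤ p - 1 := by
          intro η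
          have hsub : Finset.univ.filter
              (fun ψ : ↥(P : Subgroup G) →* ℂˣ => ψ ≠ 1 ∧ ζ ψ = η) ⊆ Finset.univ.erase 1 := by
            intro ψ hψ
            rw [Finset.mem_filter] at hψ
            exact Finset.mem_erase.mpr ⟨hψ.2.1, Finset.mem_univ _⟩
          have h := Finset.card_le_card hsub
          rw [Finset.card_erase_of_mem (Finset.mem_univ _), Finset.card_univ, hcardΨ] at h
          exact h
        have hmod : ∀ χ : IrrCharacter G, ∃ m : ℕ,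
            ∑ w : ↥(P : Subgroup G), (χ : G → ℂ) (w : G) = (p : ℂ) * m := by
          intro χ
          obtain ⟨m, hm⟩ := Clifford.classInner_char_nat
            (Ops.isCharacter_restrict (P : Subgroup G) (isCharacter_of_irr χ.2))
            (isCharacter_of_irr (Ops.isIrrCharacter_one (G := ↥(P : Subgroup G))))
          refine ⟨m, ?_⟩
          unfold classInner at hm
          have hP' : (Nat.card ↥(P : Subgroup G) : ℂ) = (p : ℂ) := by
            have : Nat.card ↥(P : Subgroup G) = p := hP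
            rw [this]
          have hp0 : (p : ℂ) ≠ 0 := Nat.cast_ne_zero.mpr hp.ne_zero
          rw [hP'] at hm
          simp only [map_one, mul_one] at hm
          rw [← hm]
          field_simp
        have hk1 : ¬ p ∣ orderOf
            (1 : ↥(Subgroup.centralizer ((P : Subgroup G) : Set G))) := by
          rw [orderOf_one]
          exact fun h => hp.one_lt.ne' (Nat.dvd_one.mp h)
        have hRmod : ∀ η ∈ Y, ∃ m : ℕ, (charDegree (η : G → ℂ) : ℤ) -
            ∑ ψ : ↥(P : Subgroup G) →* ℂˣ, D ψ η = (p : ℤ) * m := by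
          intro η hη
          obtain ⟨m, hm⟩ := hmod η
          refine ⟨m, ?_⟩
          have h1 := hrow η (hYB η hη) 1 hk1
          simp only [Subgroup.coe_one, mul_one] at h1
          rw [hm, ← char_natCast_charDegree (isCharacter_of_irr η.2)] at h1
          exact_mod_cast h1.symm
        intro η hη η' hη'
        obtain ⟨m, hm⟩ := hRmod η hη
        obtain ⟨m', hm'⟩ := hRmod η' hη'
        have hdeg : (charDegree (η : G → ℂ) : ℤ) = (charDegree (η' : G → ℂ) : ℤ) := by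
          have h := hagree η hη η' hη' 1 hone
          rw [← char_natCast_charDegree (isCharacter_of_irr η.2),
            ← char_natCast_charDegree (isCharacter_of_irr η'.2)] at h
          exact_mod_cast h
        have h1 := hRform η hη
        have h2 := hRform η' hη'
        have ha := hn1 η hη
        have ha' := hn1 η' hη'
        have hb := hn2 η
        have hb' := hn2 η'
        obtain ⟨a, hadef⟩ : ∃ a : ℕ, a = (Finset.univ.filter
            (fun ψ : ↥(P : Subgroup G) →* ℂˣ => ψ ≠ 1 ∧ ζ ψ = η)).card := ⟨_, rfl⟩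
        obtain ⟨a', hadef'⟩ : ∃ a' : ℕ, a' = (Finset.univ.filter
            (fun ψ : ↥(P : Subgroup G) →* ℂˣ => ψ ≠ 1 ∧ ζ ψ = η')).card := ⟨_, rfl⟩
        rw [← hadef] at h1 ha hb
        rw [← hadef'] at h2 ha' hb'
        have hdvd1 : (p : ℤ) ∣ δ * ((a : ℤ) - (a' : ℤ)) := ⟨(m' : ℤ) - m, by linarith⟩
        have hδδ : δ * (δ * ((a : ℤ) - (a' : ℤ))) = (a : ℤ) - (a' : ℤ) := by
          rcases hδ with h | h <;> rw [h] <;> ring
        have hdvd2 : (p : ℤ) ∣ (a : ℤ) - (a' : ℤ) := by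
          rw [← hδδ]
          exact Dvd.dvd.mul_left hdvd1 δ
        have hp1 : 1 ≤ p := hp.one_lt.le
        have h0 : (a : ℤ) - (a' : ℤ) = 0 := by
          apply Int.eq_zero_of_abs_lt_dvd hdvd2
          rw [abs_lt]
          constructor <;> omega
        have haa : a = a' := by omega
        rw [h1, h2, haa]
    · refine ⟨Γ η₀, hΓη, ?_, ?_⟩
      · intro ψ hψ
        have hη₀ : η₀ ∈ Y := by rw [hYη]; exact Set.mem_singleton _
        rw [Finset.sum_eq_single η₀, if_pos hη₀, hconstη ψ hψ]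
        · intro χ _ hχ
          apply if_neg
          rw [hYη]
          exact hχ
        · intro h
          exact absurd (Finset.mem_univ _) h
      · intro η hη η' hη'
        rw [hYη] at hη hη'
        rw [Set.mem_singleton_iff.mp hη, Set.mem_singleton_iff.mp hη']
  obtain ⟨ε', hε', hSY, hRow⟩ := hS
  have hSY1 : ∑ χ : IrrCharacter G, (if χ ∈ Y then D 1 χ else 0) = 0 := by
    apply Finset.sum_eq_zero
    intro χ _
    rw [hD1, ite_self]
  refine ⟨X, Y, fun ξ => -Γ ξ, ε', hX, ?_, ?_, hε', ?_, ?_, ?_, ?_, ?_⟩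
  · rw [hX, hY]
    exact Nat.mul_div_cancel' hdvd
  · intro ξ hξ
    rcases (hXΓ ξ hξ).1 with h | h
    · right
      show -Γ ξ = -1
      rw [h]
    · left
      show -Γ ξ = 1
      rw [h]
      norm_num
  · intro ξ hξ g hg
    show (ξ : G → ℂ) g = ((-Γ ξ : ℤ) : ℂ)
    obtain ⟨u, hu, hu1, hv⟩ := hsing g hg
    rw [hv ξ (hXB ξ hξ)]
    have e1 : ∀ ψ : ↥(P : Subgroup G) →* ℂˣ, (D ψ ξ : ℂ) * ((ψ ⟨u, hu⟩ : ℂˣ) : ℂ) =
        (Γ ξ : ℂ) * ((ψ ⟨u, hu⟩ : ℂˣ) : ℂ) - (if ψ = 1 then (Γ ξ : ℂ) else 0) := by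
      intro ψ
      by_cases hψ : ψ = 1
      · rw [if_pos hψ, hψ, hD1]
        simp
      · rw [if_neg hψ, (hXΓ ξ hξ).2 ψ hψ, sub_zero]
    rw [Finset.sum_congr rfl (fun ψ _ => e1 ψ), Finset.sum_sub_distrib, ← Finset.mul_sum,
      hsumΨ ⟨u, hu⟩ (fun h => hu1 (congrArg Subtype.val h)), mul_zero,
      Finset.sum_eq_single (1 : ↥(P : Subgroup G) →* ℂˣ) (fun ψ _ hψ => if_neg hψ)
        (fun h => absurd (Finset.mem_univ _) h), if_pos rfl]
    push_cast
    ring
  · intro g hg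
    obtain ⟨u, hu, hu1, hv⟩ := hsing g hg
    rw [ColumnId.finsum_mem_eq_sum Y]
    have e1 : ∀ χ : IrrCharacter G, (if χ ∈ Y then (χ : G → ℂ) g else 0) =
        ∑ ψ : ↥(P : Subgroup G) →* ℂˣ,
          (((if χ ∈ Y then D ψ χ else 0 : ℤ)) : ℂ) * ((ψ ⟨u, hu⟩ : ℂˣ) : ℂ) := by
      intro χ
      by_cases hy : χ ∈ Y
      · rw [if_pos hy, hv χ (hYB χ hy)]
        refine Finset.sum_congr rfl fun ψ _ => ?_
        rw [if_pos hy]
      · rw [if_neg hy]
        symm
        apply Finset.sum_eq_zero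
        intro ψ _
        rw [if_neg hy, Int.cast_zero, zero_mul]
    rw [Finset.sum_congr rfl (fun χ _ => e1 χ), Finset.sum_comm]
    have e2 : ∀ ψ : ↥(P : Subgroup G) →* ℂˣ,
        ∑ χ : IrrCharacter G,
          (((if χ ∈ Y then D ψ χ else 0 : ℤ)) : ℂ) * ((ψ ⟨u, hu⟩ : ℂˣ) : ℂ) =
        (ε' : ℂ) * ((ψ ⟨u, hu⟩ : ℂˣ) : ℂ) - (if ψ = 1 then (ε' : ℂ) else 0) := by
      intro ψ
      rw [← Finset.sum_mul, ← Int.cast_sum]
      by_cases hψ : ψ = 1
      · rw [if_pos hψ, hψ, hSY1]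
        simp
      · rw [if_neg hψ, hSY ψ hψ, sub_zero]
    rw [Finset.sum_congr rfl (fun ψ _ => e2 ψ), Finset.sum_sub_distrib, ← Finset.mul_sum,
      hsumΨ ⟨u, hu⟩ (fun h => hu1 (congrArg Subtype.val h)), mul_zero,
      Finset.sum_eq_single (1 : ↥(P : Subgroup G) →* ℂˣ) (fun ψ _ hψ => if_neg hψ)
        (fun h => absurd (Finset.mem_univ _) h), if_pos rfl]
    ring
  · intro g hg η hη
    show ∑ᶠ ξ ∈ X, ((-Γ ξ : ℤ) : ℂ) * (ξ : G → ℂ) g = (ε' : ℂ) * (η : G → ℂ) g
    obtain ⟨ψ₀, hψ₀⟩ : ∃ ψ₀ : ↥(P : Subgroup G) →* ℂˣ, ψ₀ ≠ 1 := by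
      have : Nontrivial (↥(P : Subgroup G) →* ℂˣ) :=
        Fintype.one_lt_card_iff_nontrivial.mp (by rw [hcardΨ]; exact hp.one_lt)
      exact exists_ne 1
    have h1 : ∑ χ : IrrCharacter G, (D ψ₀ χ : ℂ) * (χ : G → ℂ) g = 0 := by
      rw [← sum_col_mul_reg P π hπreg θ.2 ψ₀ g hg]
      refine Finset.sum_congr rfl fun χ _ => ?_
      rw [hD]
    have hterm : ∀ χ : IrrCharacter G, (D ψ₀ χ : ℂ) * (χ : G → ℂ) g =
        (if χ ∈ X then (Γ χ : ℂ) * (χ : G → ℂ) g else 0) +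
          (((if χ ∈ Y then D ψ₀ χ else 0 : ℤ)) : ℂ) * (η : G → ℂ) g := by
      intro χ
      by_cases hx : χ ∈ X
      · rw [if_pos hx, if_neg (hXY χ hx), (hXΓ χ hx).2 ψ₀ hψ₀, Int.cast_zero, zero_mul, add_zero]
      · by_cases hy : χ ∈ Y
        · rw [if_neg hx, if_pos hy, hagree χ hy η hη g hg, zero_add]
        · have hχB : χ ∉ B := by
            rw [hBXY]
            rintro (h | h)
            · exact hx h
            · exact hy h
          rw [if_neg hx, if_neg hy, hv0 ψ₀ χ hχB, Int.cast_zero, zero_mul, zero_mul, add_zero]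
    rw [Finset.sum_congr rfl (fun χ _ => hterm χ), Finset.sum_add_distrib, ← Finset.sum_mul,
      ← Int.cast_sum, hSY ψ₀ hψ₀] at h1
    rw [ColumnId.finsum_mem_eq_sum X]
    have e3 : ∀ χ : IrrCharacter G,
        (if χ ∈ X then ((-Γ χ : ℤ) : ℂ) * (χ : G → ℂ) g else 0) =
        -(if χ ∈ X then (Γ χ : ℂ) * (χ : G → ℂ) g else 0) := by
      intro χ
      by_cases hx : χ ∈ X
      · rw [if_pos hx, if_pos hx]
        push_cast
        ring
      · rw [if_neg hx, if_neg hx, neg_zero]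
    rw [Finset.sum_congr rfl (fun χ _ => e3 χ), Finset.sum_neg_distrib]
    linear_combination -h1
  · intro η hη η' hη' c hc
    obtain ⟨c', hc'⟩ : ∃ c' : ↥(Subgroup.centralizer ((P : Subgroup G) : Set G)),
        (c' : G) = c := ⟨⟨c, hc⟩, rfl⟩
    obtain ⟨k, hkdef⟩ : ∃ k : ↥(Subgroup.centralizer ((P : Subgroup G) : Set G)),
        k = (inc P hP (π c'))⁻¹ * c' := ⟨_, rfl⟩
    have hπk : π k = 1 := by
      rw [hkdef, map_mul, map_inv, proj_inc P hP π hπP, inv_mul_cancel]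
    have hk : ¬ p ∣ orderOf k := (hπreg k).mp hπk
    have hkG : ¬ p ∣ orderOf (k : G) := by
      rw [Subgroup.orderOf_coe]
      exact hk
    have hck : c = ((π c' : ↥(P : Subgroup G)) : G) * (k : G) := by
      rw [hkdef, ← hc', Subgroup.coe_mul, Subgroup.coe_inv, inc_coe P hP, mul_inv_cancel_left]
    have hsum : ∀ χ ∈ B, ∑ᶠ u ∈ ((P : Subgroup G) : Set G), (χ : G → ℂ) (u * c) =
        (χ : G → ℂ) (k : G) - ((∑ ψ : ↥(P : Subgroup G) →* ℂˣ, D ψ χ : ℤ) : ℂ) := by
      intro χ hχ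
      rw [← hrow χ hχ k hk]
      have e1 : ∑ᶠ u ∈ ((P : Subgroup G) : Set G), (χ : G → ℂ) (u * c) =
          ∑ w : ↥(P : Subgroup G), (χ : G → ℂ) ((w : G) * c) := by
        rw [← finsum_set_coe_eq_finsum_mem, ← finsum_eq_sum_of_fintype]
        rfl
      rw [e1]
      refine Fintype.sum_equiv (Equiv.mulRight (π c')) _ _ fun w => ?_
      rw [hck]
      simp [mul_assoc]
    rw [hsum η (hYB η hη), hsum η' (hYB η' hη'), hagree η hη η' hη' (k : G) hkG, hRow η hη η' hη']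
  · intro χ hχX hχY u hu hu1
    have hχB : χ ∉ B := by
      rw [hBXY]
      rintro (h | h)
      · exact hχX h
      · exact hχY h
    have hsec := sec_eq_zero_of_not_mem P hP M hM B _ hind θ hθb χ hχB hu hu1
    unfold sec at hsec
    have hpos : (Nat.card ↥(Subgroup.centralizer ((P : Subgroup G) : Set G)) : ℂ) ≠ 0 := by
      exact_mod_cast (Nat.card_pos (α := ↥(Subgroup.centralizer ((P : Subgroup G) : Set G)))).ne'
    have hsum := (mul_eq_zero.mp hsec).resolve_left (inv_ne_zero hpos)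
    rw [finsum_reg_eq (Subgroup.centralizer ((P : Subgroup G) : Set G))
      (fun k => (χ : G → ℂ) (u * k))]
    refine Eq.trans (Finset.sum_congr rfl fun r _ => ?_) hsum
    rw [hθ1, map_one, mul_one]

end Cfsg.Agent.Lib.Helper93.BrRBB0X
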