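import Cfsg.Agent.Lib.Helper27.Fast

/-!
Families of subsets of the 24 points given by lists of bit masks (on top of the mask framework
of `Cfsg.Agent.Lib.Helper27`): setwise stabilisers in `M24` of such families, word certificates,
a numerical invariant of pairs of families, enumerations and counting, orbits of stabilisers.
-/

set_option autoImplicit false

namespace Cfsg.Agent.Lib.Helper93.Fam

open Cfsg Cfsg.Agent.Lib.Helper27.Bits Cfsg.Agent.Lib.Helper27.Golay Cfsg.Agent.Lib.Helper27.M24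
  Cfsg.Agent.Lib.Helper27.Cert Cfsg.Agent.Lib.Helper27.Trans Cfsg.Agent.Lib.Helper27.Fast
open scoped Pointwise

/-! ### families of sets given by lists of masks -/

/-- the family of the sets of the masks of a list -/
def fam (l : List ℕ) : Finset (Finset GolayPt) := (l.map fsOf).toFinset

theorem mem_fam {l : List ℕ} {s : Finset GolayPt} : s ∈ fam l ↔ ∃ m ∈ l, fsOf m = s := by
  simp [fam]

theorem fsOf_mem_fam {l : List ℕ} {m : ℕ} (h : m ∈ l) : fsOf m ∈ fam l := mem_fam.mpr ⟨m, h, rfl⟩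

theorem fam_singleton (m : ℕ) : fam [m] = {fsOf m} := by
  simp [fam]

theorem smul_fam (g : Equiv.Perm GolayPt) (act : ℕ → ℕ) (h : ∀ m, g • fsOf m = fsOf (act m))
    (l : List ℕ) : g • fam l = fam (l.map act) := by
  ext s
  rw [Finset.mem_smul_finset, mem_fam]
  constructor
  · rintro ⟨y, hy, rfl⟩
    obtain ⟨m, hm, rfl⟩ := mem_fam.mp hy
    exact ⟨act m, List.mem_map_of_mem hm, (h m).symm⟩
  · rintro ⟨m', hm', rfl⟩
    obtain ⟨m, hm, rfl⟩ := List.mem_map.mp hm'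
    exact ⟨fsOf m, mem_fam.mpr ⟨m, hm, rfl⟩, h m⟩

/-! ### Boolean list tests -/

/-- membership test -/
def memB (a : ℕ) (l : List ℕ) : Bool := l.any (fun b => Nat.beq a b)

/-- inclusion test -/
def subL (l1 l2 : List ℕ) : Bool := l1.all (fun a => memB a l2)

/-- equality of the underlying sets -/
def sameL (l1 l2 : List ℕ) : Bool := subL l1 l2 && subL l2 l1

/-- pairwise distinct -/
def nodupB : List ℕ → Bool
  | [] => true
  | a :: l => !memB a l && nodupB l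

/-- all entries are 24-bit masks -/
def ltAll (l : List ℕ) : Bool := l.all (fun a => Nat.blt a 16777216)

theorem memB_iff {a : ℕ} {l : List ℕ} : memB a l = true ↔ a ∈ l := by
  unfold memB
  rw [List.any_eq_true]
  constructor
  · rintro ⟨b, hb, h⟩
    rw [Nat.eq_of_beq_eq_true h]
    exact hb
  · intro h
    exact ⟨a, h, Nat.beq_refl a⟩

theorem subL_iff {l1 l2 : List ℕ} : subL l1 l2 = true ↔ ∀ a ∈ l1, a ∈ l2 := by
  unfold subL
  rw [List.all_eq_true]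
  exact forall₂_congr fun a _ => memB_iff

theorem fam_subset_of_subL {l1 l2 : List ℕ} (h : subL l1 l2 = true) : fam l1 ⊆ fam l2 := by
  intro s hs
  obtain ⟨m, hm, rfl⟩ := mem_fam.mp hs
  exact fsOf_mem_fam (subL_iff.mp h m hm)

theorem fam_eq_of_sameL {l1 l2 : List ℕ} (h : sameL l1 l2 = true) : fam l1 = fam l2 := by
  unfold sameL at h
  rw [Bool.and_eq_true] at h
  exact Finset.Subset.antisymm (fam_subset_of_subL h.1) (fam_subset_of_subL h.2)

theorem nodupB_nodup {l : List ℕ} (h : nodupB l = true) : l.Nodup := by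
  induction l with
  | nil => exact List.nodup_nil
  | cons a l ih =>
    simp only [nodupB, Bool.and_eq_true, Bool.not_eq_true'] at h
    refine List.nodup_cons.mpr ⟨?_, ih h.2⟩
    intro ha
    have := memB_iff.mpr ha
    rw [h.1] at this
    exact Bool.false_ne_true this

theorem ltAll_lt {l : List ℕ} (h : ltAll l = true) {a : ℕ} (ha : a ∈ l) : a < 2 ^ 24 := by
  unfold ltAll at h
  rw [List.all_eq_true] at h
  have := h a ha
  have h2 : a < 16777216 := by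
    simpa [Nat.blt] using this
  exact h2

theorem nodup_map_fsOf {l : List ℕ} (h1 : nodupB l = true) (h2 : ltAll l = true) :
    (l.map fsOf).Nodup :=
  List.Nodup.map_on (fun _ hx _ hy hxy => setOf_injOn (ltAll_lt h2 hx) (ltAll_lt h2 hy) hxy)
    (nodupB_nodup h1)

/-! ### fast code word test -/

/-- the mask is a code word (table lookup) -/
def isCw (m : ℕ) : Bool := Nat.beq m (cw (m % 4096))

theorem isCw_supports {m : ℕ} (h : isCw m = true) :
    fsOf m ∈ supports (golayCode : Set (GolayPt → ZMod 2)) := by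
  rw [mem_supports_cw]
  exact ⟨m % 4096, Nat.mod_lt _ (by norm_num), by rw [← Nat.eq_of_beq_eq_true h]⟩

theorem isCw_octad {m : ℕ} (h : isCw m = true) (h8 : pcF m = 8) : fsOf m ∈ octads :=
  ⟨isCw_supports h, by rw [card_setOf_F, h8]⟩

/-! ### setwise stabilisers of families -/

/-- the subgroup of the group of the code mapping the family of the list `l` onto itself -/
def stabF (l : List ℕ) : Subgroup (Equiv.Perm GolayPt) where
  carrier := {g | g ∈ M24 ∧ g • fam l = fam l}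
  one_mem' := ⟨M24.one_mem, one_smul _ _⟩
  mul_mem' := by
    rintro a b ⟨ha, ha'⟩ ⟨hb, hb'⟩
    exact ⟨M24.mul_mem ha hb, by rw [mul_smul, hb', ha']⟩
  inv_mem' := by
    rintro a ⟨ha, ha'⟩
    exact ⟨M24.inv_mem ha, by rw [inv_smul_eq_iff, ha']⟩

theorem mem_stabF (l : List ℕ) (g : Equiv.Perm GolayPt) :
    g ∈ stabF l ↔ g ∈ M24 ∧ g • fam l = fam l := Iff.rfl

/-! ### fast application of tables -/

/-- bit `k` of the pull-back of `m` along `T`, where `s = 5 * k` -/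
def bitU (T m s k : ℕ) : ℕ :=
  Nat.shiftLeft (Nat.land (Nat.shiftRight m (Nat.land (Nat.shiftRight T s) 31)) 1) k

theorem bitU_eq (T m k : ℕ) : bitU T m (5 * k) k = ((m >>> tget T 5 k) % 2) <<< k := by
  unfold bitU tget
  show ((m >>> ((T >>> (5 * k)) &&& 31)) &&& 1) <<< k = ((m >>> ((T >>> (5 * k)) % 2 ^ 5)) % 2) <<< k
  rw [Nat.and_one_is_mod]
  have h : ∀ x : ℕ, x &&& 31 = x % 2 ^ 5 := fun x => Nat.and_two_pow_sub_one_eq_mod x 5
  rw [h]

/-- pull back a mask along a table (unrolled version of `pull`) -/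
def pullU (T m : ℕ) : ℕ :=
  (Nat.lor (Nat.lor (Nat.lor (Nat.lor (Nat.lor (Nat.lor (Nat.lor (Nat.lor (Nat.lor (Nat.lor (Nat.lor (Nat.lor (Nat.lor (Nat.lor (Nat.lor (Nat.lor (Nat.lor (Nat.lor (Nat.lor (Nat.lor (Nat.lor (Nat.lor (Nat.lor (Nat.lor 0 (bitU T m 0 0)) (bitU T m 5 1)) (bitU T m 10 2)) (bitU T m 15 3)) (bitU T m 20 4)) (bitU T m 25 5)) (bitU T m 30 6)) (bitU T m 35 7)) (bitU T m 40 8)) (bitU T m 45 9)) (bitU T m 50 10)) (bitU T m 55 11)) (bitU T m 60 12)) (bitU T m 65 13)) (bitU T m 70 14)) (bitU T m 75 15)) (bitU T m 80 16)) (bitU T m 85 17)) (bitU T m 90 18)) (bitU T m 95 19)) (bitU T m 100 20)) (bitU T m 105 21)) (bitU T m 110 22)) (bitU T m 115 23))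

theorem pullU_eq (T m : ℕ) : pullU T m = pull T m := by
  have e0 : bitU T m 0 0 = ((m >>> tget T 5 0) % 2) <<< 0 := bitU_eq T m 0
  have e1 : bitU T m 5 1 = ((m >>> tget T 5 1) % 2) <<< 1 := bitU_eq T m 1
  have e2 : bitU T m 10 2 = ((m >>> tget T 5 2) % 2) <<< 2 := bitU_eq T m 2
  have e3 : bitU T m 15 3 = ((m >>> tget T 5 3) % 2) <<< 3 := bitU_eq T m 3
  have e4 : bitU T m 20 4 = ((m >>> tget T 5 4) % 2) <<< 4 := bitU_eq T m 4
  have e5 : bitU T m 25 5 = ((m >>> tget T 5 5) % 2) <<< 5 := bitU_eq T m 5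
  have e6 : bitU T m 30 6 = ((m >>> tget T 5 6) % 2) <<< 6 := bitU_eq T m 6
  have e7 : bitU T m 35 7 = ((m >>> tget T 5 7) % 2) <<< 7 := bitU_eq T m 7
  have e8 : bitU T m 40 8 = ((m >>> tget T 5 8) % 2) <<< 8 := bitU_eq T m 8
  have e9 : bitU T m 45 9 = ((m >>> tget T 5 9) % 2) <<< 9 := bitU_eq T m 9
  have e10 : bitU T m 50 10 = ((m >>> tget T 5 10) % 2) <<< 10 := bitU_eq T m 10
  have e11 : bitU T m 55 11 = ((m >>> tget T 5 11) % 2) <<< 11 := bitU_eq T m 11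
  have e12 : bitU T m 60 12 = ((m >>> tget T 5 12) % 2) <<< 12 := bitU_eq T m 12
  have e13 : bitU T m 65 13 = ((m >>> tget T 5 13) % 2) <<< 13 := bitU_eq T m 13
  have e14 : bitU T m 70 14 = ((m >>> tget T 5 14) % 2) <<< 14 := bitU_eq T m 14
  have e15 : bitU T m 75 15 = ((m >>> tget T 5 15) % 2) <<< 15 := bitU_eq T m 15
  have e16 : bitU T m 80 16 = ((m >>> tget T 5 16) % 2) <<< 16 := bitU_eq T m 16
  have e17 : bitU T m 85 17 = ((m >>> tget T 5 17) % 2) <<< 17 := bitU_eq T m 17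
  have e18 : bitU T m 90 18 = ((m >>> tget T 5 18) % 2) <<< 18 := bitU_eq T m 18
  have e19 : bitU T m 95 19 = ((m >>> tget T 5 19) % 2) <<< 19 := bitU_eq T m 19
  have e20 : bitU T m 100 20 = ((m >>> tget T 5 20) % 2) <<< 20 := bitU_eq T m 20
  have e21 : bitU T m 105 21 = ((m >>> tget T 5 21) % 2) <<< 21 := bitU_eq T m 21
  have e22 : bitU T m 110 22 = ((m >>> tget T 5 22) % 2) <<< 22 := bitU_eq T m 22
  have e23 : bitU T m 115 23 = ((m >>> tget T 5 23) % 2) <<< 23 := bitU_eq T m 23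
  unfold pullU
  rw [e0, e1, e2, e3, e4, e5, e6, e7, e8, e9, e10, e11, e12, e13, e14, e15, e16, e17, e18, e19, e20, e21, e22, e23]
  rfl

/-- act on a mask by a word (as `wact`, with the unrolled pull-back) -/
noncomputable def wactU (G : ℕ) (n : ℕ) : ℕ → ℕ → ℕ :=
  Nat.rec (fun _ m => m)
    (fun _ ih w m => cond (Nat.beq w 0) m (pullU (tget G 120 (w % 16)) (ih (w / 16) m))) n

theorem wactU_eq (G n w m : ℕ) : wactU G n w m = wact G n w m := by
  induction n generalizing w m with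
  | zero => rfl
  | succ n ih =>
    show cond (Nat.beq w 0) m (pullU (tget G 120 (w % 16)) (wactU G n (w / 16) m)) =
      cond (Nat.beq w 0) m (pull (tget G 120 (w % 16)) (wact G n (w / 16) m))
    rw [ih, pullU_eq]

theorem wactU_spec (H : Subgroup (Equiv.Perm GolayPt)) (G : ℕ)
    (hG : ∀ d < 16, validT (tget G 120 d) = true ∧ gperm (tget G 120 d) ∈ H) (n w : ℕ) :
    ∃ g ∈ H, ∀ m, g • fsOf m = fsOf (wactU G n w m) := by
  obtain ⟨g, hg, h⟩ := wact_spec H G hG n w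
  exact ⟨g, hg, fun m => by rw [wactU_eq]; exact h m⟩

/-- the table maps the family of `l` onto itself -/
noncomputable def fixesF (T : ℕ) (l : List ℕ) : Bool := sameL (l.map (pullU T)) l

theorem gperm_mem_stabF {T : ℕ} {l : List ℕ} (h1 : inM24 T = true) (h2 : fixesF T l = true) :
    gperm T ∈ stabF l := by
  refine ⟨gperm_mem_M24 h1, ?_⟩
  rw [smul_fam (gperm T) (pullU T) (fun m => by rw [pullU_eq]; exact gperm_smul (inM24_valid h1) m) l]
  exact fam_eq_of_sameL h2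

/-- all 16 lanes of `G` are tables of elements of `stabF l` -/
noncomputable def gensF (G : ℕ) (l : List ℕ) : Bool :=
  allB 16 (fun d => inM24 (tget G 120 d) && fixesF (tget G 120 d) l)

theorem gensF_spec {G : ℕ} {l : List ℕ} (h : gensF G l = true) :
    ∀ d < 16, validT (tget G 120 d) = true ∧ gperm (tget G 120 d) ∈ stabF l := by
  intro d hd
  have h1 := (allB_iff _ _).mp h d hd
  rw [Bool.and_eq_true] at h1
  exact ⟨inM24_valid h1.1, gperm_mem_stabF h1.1 h1.2⟩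

/-- all 16 lanes of `G` are tables of elements of the group of the code -/
noncomputable def gensM (G : ℕ) : Bool := allB 16 (fun d => inM24 (tget G 120 d))

theorem gensM_spec {G : ℕ} (h : gensM G = true) :
    ∀ d < 16, validT (tget G 120 d) = true ∧ gperm (tget G 120 d) ∈ M24 := by
  intro d hd
  have h1 := (allB_iff _ _).mp h d hd
  exact ⟨inM24_valid h1, gperm_mem_M24 h1⟩

/-! ### word certificates -/

/-- every valid `c < N` has a word (lane `widx c` of `W`, lanes of `ww` bits) carrying the family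
of `root c` onto the family of `target c` -/
noncomputable def certF (G n N W ww : ℕ) (widx : ℕ → ℕ) (root target : ℕ → List ℕ)
    (cond : ℕ → Bool) : Bool :=
  allB N (fun c => !cond c ||
    sameL ((root c).map (wactU G n (tget W ww (widx c)))) (target c))

theorem certF_spec {H : Subgroup (Equiv.Perm GolayPt)} {G : ℕ}
    (hG : ∀ d < 16, validT (tget G 120 d) = true ∧ gperm (tget G 120 d) ∈ H)
    {n N W ww : ℕ} {widx : ℕ → ℕ} {root target : ℕ → List ℕ} {cond : ℕ → Bool}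
    (h : certF G n N W ww widx root target cond = true) (c : ℕ) (hc : c < N)
    (hcond : cond c = true) : ∃ g ∈ H, g • fam (root c) = fam (target c) := by
  have h1 := (allB_iff _ _).mp h c hc
  rw [hcond] at h1
  simp only [Bool.not_true, Bool.false_or] at h1
  obtain ⟨g, hg, hg'⟩ := wactU_spec H G hG n (tget W ww (widx c))
  exact ⟨g, hg, by rw [smul_fam g _ hg']; exact fam_eq_of_sameL h1⟩

/-- every valid `c < N` has a word carrying the sets of `root c` to members of the family of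
`target c` -/
noncomputable def certS (G n N W ww : ℕ) (widx : ℕ → ℕ) (root target : ℕ → List ℕ)
    (cond : ℕ → Bool) : Bool :=
  allB N (fun c => !cond c ||
    subL ((root c).map (wactU G n (tget W ww (widx c)))) (target c))

theorem certS_spec {H : Subgroup (Equiv.Perm GolayPt)} {G : ℕ}
    (hG : ∀ d < 16, validT (tget G 120 d) = true ∧ gperm (tget G 120 d) ∈ H)
    {n N W ww : ℕ} {widx : ℕ → ℕ} {root target : ℕ → List ℕ} {cond : ℕ → Bool}
    (h : certS G n N W ww widx root target cond = true) (c : ℕ) (hc : c < N)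
    (hcond : cond c = true) : ∃ g ∈ H, ∀ m ∈ root c, g • fsOf m ∈ fam (target c) := by
  have h1 := (allB_iff _ _).mp h c hc
  rw [hcond] at h1
  simp only [Bool.not_true, Bool.false_or] at h1
  obtain ⟨g, hg, hg'⟩ := wactU_spec H G hG n (tget W ww (widx c))
  refine ⟨g, hg, fun m hm => ?_⟩
  rw [hg']
  exact fsOf_mem_fam (subL_iff.mp h1 _ (List.mem_map_of_mem hm))

/-- every valid `c < N` has a word carrying the mask `root c` to the mask `target c` -/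
noncomputable def certM (G n N W ww : ℕ) (widx : ℕ → ℕ) (root target : ℕ → ℕ)
    (cond : ℕ → Bool) : Bool :=
  allB N (fun c => !cond c || Nat.beq (wactU G n (tget W ww (widx c)) (root c)) (target c))

theorem certM_spec {H : Subgroup (Equiv.Perm GolayPt)} {G : ℕ}
    (hG : ∀ d < 16, validT (tget G 120 d) = true ∧ gperm (tget G 120 d) ∈ H)
    {n N W ww : ℕ} {widx : ℕ → ℕ} {root target : ℕ → ℕ} {cond : ℕ → Bool}
    (h : certM G n N W ww widx root target cond = true) (c : ℕ) (hc : c < N)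
    (hcond : cond c = true) : ∃ g ∈ H, g • fsOf (root c) = fsOf (target c) := by
  have h1 := (allB_iff _ _).mp h c hc
  rw [hcond] at h1
  simp only [Bool.not_true, Bool.false_or] at h1
  obtain ⟨g, hg, hg'⟩ := wactU_spec H G hG n (tget W ww (widx c))
  exact ⟨g, hg, by rw [hg', Nat.eq_of_beq_eq_true h1]⟩

/-! ### an invariant of pairs of families -/

/-- the sum of the squares of the sizes of the intersections of the members of two families -/
def inv2 (X ω : Finset (Finset GolayPt)) : ℕ := ∑ x ∈ X, ∑ a ∈ ω, (x ∩ a).card ^ 2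

theorem inv2_smul (g : Equiv.Perm GolayPt) (X ω : Finset (Finset GolayPt)) :
    inv2 (g • X) (g • ω) = inv2 X ω := by
  unfold inv2
  have hX : g • X = X.image (fun x => g • x) := rfl
  have hω : g • ω = ω.image (fun x => g • x) := rfl
  rw [hX, hω, Finset.sum_image (fun x _ y _ h => MulAction.injective g h)]
  apply Finset.sum_congr rfl
  intro x _
  rw [Finset.sum_image (fun x _ y _ h => MulAction.injective g h)]
  apply Finset.sum_congr rfl
  intro a _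
  rw [← Finset.smul_finset_inter, Finset.card_smul_finset]

/-- the invariant computed on masks -/
def invL (lX l : List ℕ) : ℕ :=
  (lX.map (fun x => (l.map (fun a => pcF (x &&& a) ^ 2)).sum)).sum

theorem sum_fam {M : Type*} [AddCommMonoid M] (l : List ℕ) (hl : (l.map fsOf).Nodup)
    (f : Finset GolayPt → M) : ∑ a ∈ fam l, f a = (l.map (fun m => f (fsOf m))).sum := by
  unfold fam
  rw [List.sum_toFinset f hl, List.map_map]
  rfl

theorem inv2_fam (lX l : List ℕ) (hX : (lX.map fsOf).Nodup) (hl : (l.map fsOf).Nodup) :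
    inv2 (fam lX) (fam l) = invL lX l := by
  unfold inv2 invL
  rw [sum_fam lX hX]
  congr 1
  apply List.map_congr_left
  intro x _
  rw [sum_fam l hl]
  congr 1
  apply List.map_congr_left
  intro a _
  rw [← setOf_and, card_setOf_F]

/-! ### enumerations -/

/-- `c ↦ fam (rep c)` enumerates `Ω` bijectively over the valid indices `c < N` -/
structure IsEnum (Ω : Set (Finset (Finset GolayPt))) (N : ℕ) (cond : ℕ → Bool)
    (rep : ℕ → List ℕ) : Prop where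
  sound : ∀ c < N, cond c = true → fam (rep c) ∈ Ω
  nd : ∀ c < N, cond c = true → ((rep c).map fsOf).Nodup
  surj : ∀ ω ∈ Ω, ∃ c < N, cond c = true ∧ fam (rep c) = ω
  inj : ∀ c < N, ∀ c' < N, cond c = true → cond c' = true → fam (rep c) = fam (rep c') → c = c'

theorem IsEnum.ncard_filter {Ω : Set (Finset (Finset GolayPt))} {N : ℕ} {cond : ℕ → Bool}
    {rep : ℕ → List ℕ} (hE : IsEnum Ω N cond rep) (Q : Finset (Finset GolayPt) → Prop)
    (q : ℕ → Bool) (hq : ∀ c < N, cond c = true → (Q (fam (rep c)) ↔ q c = true)) :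
    {ω | ω ∈ Ω ∧ Q ω}.ncard = countB N (fun c => cond c && q c) := by
  have h1 : {ω | ω ∈ Ω ∧ Q ω} = (fun c => fam (rep c)) ''
      (((Finset.range N).filter (fun c => (cond c && q c) = true) : Finset ℕ) : Set ℕ) := by
    ext ω
    simp only [Set.mem_setOf_eq, Set.mem_image, Finset.coe_filter, Finset.mem_range,
      Bool.and_eq_true]
    constructor
    · rintro ⟨hω, hQ⟩
      obtain ⟨c, hc, hcond, rfl⟩ := hE.surj ω hω
      exact ⟨c, ⟨hc, hcond, (hq c hc hcond).mp hQ⟩, rfl⟩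
    · rintro ⟨c, ⟨hc, hcond, hqc⟩, rfl⟩
      exact ⟨hE.sound c hc hcond, (hq c hc hcond).mpr hqc⟩
  rw [h1, Set.ncard_image_of_injOn, Set.ncard_coe_finset, countB_eq]
  intro c hc d hd h
  simp only [Finset.coe_filter, Finset.mem_range, Set.mem_setOf_eq, Bool.and_eq_true] at hc hd
  exact hE.inj c hc.1 d hd.1 hc.2.1 hd.2.1 h

/-! ### orbits of stabilisers -/

section Orbits

variable {A B : Type*} [MulAction (Equiv.Perm GolayPt) A] [MulAction (Equiv.Perm GolayPt) B]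

/-- the orbit of `X` under the stabiliser of `o` in the group of the code -/
def Orb (o : A) (X : B) : Set B := {Y | ∃ g ∈ M24, g • o = o ∧ g • X = Y}

theorem orbit_eq_Orb (o : A) (X : B) :
    MulAction.orbit ↥(MulAction.stabilizer ↥M24 o) X = Orb o X := by
  ext Y
  constructor
  · rintro ⟨⟨⟨g, hg⟩, hs⟩, rfl⟩
    exact ⟨g, hg, hs, rfl⟩
  · rintro ⟨g, hg, hs, rfl⟩
    exact ⟨⟨⟨g, hg⟩, hs⟩, rfl⟩

theorem Orb_smul {g : Equiv.Perm GolayPt} (hg : g ∈ M24) (o : A) (X : B) :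
    Orb (g • o) (g • X) = (fun Y => g • Y) '' Orb o X := by
  ext Y
  constructor
  · rintro ⟨h, hh, ho, rfl⟩
    refine ⟨(g⁻¹ * h * g) • X, ⟨g⁻¹ * h * g, M24.mul_mem (M24.mul_mem (M24.inv_mem hg) hh) hg,
      ?_, rfl⟩, ?_⟩
    · rw [mul_smul, mul_smul, ho, inv_smul_smul]
    · show g • (g⁻¹ * h * g) • X = h • g • X
      rw [mul_smul, mul_smul, smul_inv_smul]
  · rintro ⟨Z, ⟨k, hk, ho, rfl⟩, rfl⟩
    refine ⟨g * k * g⁻¹, M24.mul_mem (M24.mul_mem hg hk) (M24.inv_mem hg), ?_, ?_⟩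
    · rw [mul_smul, mul_smul, inv_smul_smul, ho]
    · rw [mul_smul, mul_smul, inv_smul_smul]

theorem ncard_Orb_smul {g : Equiv.Perm GolayPt} (hg : g ∈ M24) (o : A) (X : B) :
    (Orb (g • o) (g • X)).ncard = (Orb o X).ncard := by
  rw [Orb_smul hg, Set.ncard_image_of_injective _ (MulAction.injective g)]

/-- a class of the invariant on which the stabiliser is transitive is an orbit -/
theorem exists_orbit_class (o : A) (Ω : Set B) (inv : B → ℕ)
    (hinv : ∀ g ∈ M24, g • o = o → ∀ ω, inv (g • ω) = inv ω)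
    (hΩ : ∀ g ∈ M24, ∀ ω ∈ Ω, g • ω ∈ Ω)
    (htr : ∀ ω ∈ Ω, ∀ ω' ∈ Ω, inv ω = inv ω' → ∃ g ∈ M24, g • o = o ∧ g • ω = ω')
    (v n : ℕ) (hn : {ω | ω ∈ Ω ∧ inv ω = v}.ncard = n) (hpos : 0 < n) :
    ∃ X ∈ Ω, Orb o X = {ω | ω ∈ Ω ∧ inv ω = v} := by
  have hne : {ω | ω ∈ Ω ∧ inv ω = v}.Nonempty := by
    apply Set.nonempty_of_ncard_ne_zero
    omega
  obtain ⟨X, hX, hXv⟩ := hne
  refine ⟨X, hX, ?_⟩
  ext Y
  constructor
  · rintro ⟨g, hg, ho, rfl⟩
    exact ⟨hΩ g hg X hX, by rw [hinv g hg ho, hXv]⟩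
  · rintro ⟨hY, hYv⟩
    obtain ⟨g, hg, ho, h⟩ := htr X hX Y hY (by rw [hXv, hYv])
    exact ⟨g, hg, ho, h⟩

/-- three orbits -/
theorem three_orbits (o : A) (Ω : Set B) (inv : B → ℕ)
    (hinv : ∀ g ∈ M24, g • o = o → ∀ ω, inv (g • ω) = inv ω)
    (hΩ : ∀ g ∈ M24, ∀ ω ∈ Ω, g • ω ∈ Ω)
    (htr : ∀ ω ∈ Ω, ∀ ω' ∈ Ω, inv ω = inv ω' → ∃ g ∈ M24, g • o = o ∧ g • ω = ω')
    (v1 v2 v3 n1 n2 n3 : ℕ)
    (h1 : {ω | ω ∈ Ω ∧ inv ω = v1}.ncard = n1) (p1 : 0 < n1)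
    (h2 : {ω | ω ∈ Ω ∧ inv ω = v2}.ncard = n2) (p2 : 0 < n2)
    (h3 : {ω | ω ∈ Ω ∧ inv ω = v3}.ncard = n3) (p3 : 0 < n3)
    (hall : ∀ ω ∈ Ω, inv ω = v1 ∨ inv ω = v2 ∨ inv ω = v3) :
    ∃ X₁ ∈ Ω, ∃ X₂ ∈ Ω, ∃ X₃ ∈ Ω, (Orb o X₁).ncard = n1 ∧ (Orb o X₂).ncard = n2 ∧
      (Orb o X₃).ncard = n3 ∧ Ω = Orb o X₁ ∪ Orb o X₂ ∪ Orb o X₃ := by
  obtain ⟨X₁, hX₁, e1⟩ := exists_orbit_class o Ω inv hinv hΩ htr v1 n1 h1 p1
  obtain ⟨X₂, hX₂, e2⟩ := exists_orbit_class o Ω inv hinv hΩ htr v2 n2 h2 p2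
  obtain ⟨X₃, hX₃, e3⟩ := exists_orbit_class o Ω inv hinv hΩ htr v3 n3 h3 p3
  refine ⟨X₁, hX₁, X₂, hX₂, X₃, hX₃, by rw [e1, h1], by rw [e2, h2], by rw [e3, h3], ?_⟩
  rw [e1, e2, e3]
  ext ω
  simp only [Set.mem_union, Set.mem_setOf_eq]
  constructor
  · intro hω
    rcases hall ω hω with h | h | h
    · exact Or.inl (Or.inl ⟨hω, h⟩)
    · exact Or.inl (Or.inr ⟨hω, h⟩)
    · exact Or.inr ⟨hω, h⟩
  · rintro ((h | h) | h) <;> exact h.1

/-- four orbits -/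
theorem four_orbits (o : A) (Ω : Set B) (inv : B → ℕ)
    (hinv : ∀ g ∈ M24, g • o = o → ∀ ω, inv (g • ω) = inv ω)
    (hΩ : ∀ g ∈ M24, ∀ ω ∈ Ω, g • ω ∈ Ω)
    (htr : ∀ ω ∈ Ω, ∀ ω' ∈ Ω, inv ω = inv ω' → ∃ g ∈ M24, g • o = o ∧ g • ω = ω')
    (v1 v2 v3 v4 n1 n2 n3 n4 : ℕ)
    (h1 : {ω | ω ∈ Ω ∧ inv ω = v1}.ncard = n1) (p1 : 0 < n1)
    (h2 : {ω | ω ∈ Ω ∧ inv ω = v2}.ncard = n2) (p2 : 0 < n2)
    (h3 : {ω | ω ∈ Ω ∧ inv ω = v3}.ncard = n3) (p3 : 0 < n3)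
    (h4 : {ω | ω ∈ Ω ∧ inv ω = v4}.ncard = n4) (p4 : 0 < n4)
    (hall : ∀ ω ∈ Ω, inv ω = v1 ∨ inv ω = v2 ∨ inv ω = v3 ∨ inv ω = v4) :
    ∃ X₁ ∈ Ω, ∃ X₂ ∈ Ω, ∃ X₃ ∈ Ω, ∃ X₄ ∈ Ω, (Orb o X₁).ncard = n1 ∧ (Orb o X₂).ncard = n2 ∧
      (Orb o X₃).ncard = n3 ∧ (Orb o X₄).ncard = n4 ∧
      Ω = Orb o X₁ ∪ Orb o X₂ ∪ Orb o X₃ ∪ Orb o X₄ := by
  obtain ⟨X₁, hX₁, e1⟩ := exists_orbit_class o Ω inv hinv hΩ htr v1 n1 h1 p1
  obtain ⟨X₂, hX₂, e2⟩ := exists_orbit_class o Ω inv hinv hΩ htr v2 n2 h2 p2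
  obtain ⟨X₃, hX₃, e3⟩ := exists_orbit_class o Ω inv hinv hΩ htr v3 n3 h3 p3
  obtain ⟨X₄, hX₄, e4⟩ := exists_orbit_class o Ω inv hinv hΩ htr v4 n4 h4 p4
  refine ⟨X₁, hX₁, X₂, hX₂, X₃, hX₃, X₄, hX₄, by rw [e1, h1], by rw [e2, h2], by rw [e3, h3],
    by rw [e4, h4], ?_⟩
  rw [e1, e2, e3, e4]
  ext ω
  simp only [Set.mem_union, Set.mem_setOf_eq]
  constructor
  · intro hω
    rcases hall ω hω with h | h | h | h
    · exact Or.inl (Or.inl (Or.inl ⟨hω, h⟩))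
    · exact Or.inl (Or.inl (Or.inr ⟨hω, h⟩))
    · exact Or.inl (Or.inr ⟨hω, h⟩)
    · exact Or.inr ⟨hω, h⟩
  · rintro (((h | h) | h) | h) <;> exact h.1

/-- transport of a three-orbit statement along an element of the group -/
theorem three_orbits_smul {g : Equiv.Perm GolayPt} (hg : g ∈ M24) (o : A) (Ω : Set B)
    (hΩ : ∀ h ∈ M24, ∀ ω ∈ Ω, h • ω ∈ Ω) (n1 n2 n3 : ℕ)
    (h : ∃ X₁ ∈ Ω, ∃ X₂ ∈ Ω, ∃ X₃ ∈ Ω, (Orb o X₁).ncard = n1 ∧ (Orb o X₂).ncard = n2 ∧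
      (Orb o X₃).ncard = n3 ∧ Ω = Orb o X₁ ∪ Orb o X₂ ∪ Orb o X₃) :
    ∃ X₁ ∈ Ω, ∃ X₂ ∈ Ω, ∃ X₃ ∈ Ω, (Orb (g • o) X₁).ncard = n1 ∧ (Orb (g • o) X₂).ncard = n2 ∧
      (Orb (g • o) X₃).ncard = n3 ∧ Ω = Orb (g • o) X₁ ∪ Orb (g • o) X₂ ∪ Orb (g • o) X₃ := by
  obtain ⟨X₁, hX₁, X₂, hX₂, X₃, hX₃, c1, c2, c3, hU⟩ := h
  refine ⟨g • X₁, hΩ g hg _ hX₁, g • X₂, hΩ g hg _ hX₂, g • X₃, hΩ g hg _ hX₃,
    by rw [ncard_Orb_smul hg, c1], by rw [ncard_Orb_smul hg, c2], by rw [ncard_Orb_smul hg, c3], ?_⟩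
  rw [Orb_smul hg, Orb_smul hg, Orb_smul hg, ← Set.image_union, ← Set.image_union, ← hU]
  ext ω
  constructor
  · intro hω
    exact ⟨g⁻¹ • ω, hΩ _ (M24.inv_mem hg) _ hω, smul_inv_smul g ω⟩
  · rintro ⟨ω', hω', rfl⟩
    exact hΩ g hg _ hω'

/-- transport of a four-orbit statement along an element of the group -/
theorem four_orbits_smul {g : Equiv.Perm GolayPt} (hg : g ∈ M24) (o : A) (Ω : Set B)
    (hΩ : ∀ h ∈ M24, ∀ ω ∈ Ω, h • ω ∈ Ω) (n1 n2 n3 n4 : ℕ)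
    (h : ∃ X₁ ∈ Ω, ∃ X₂ ∈ Ω, ∃ X₃ ∈ Ω, ∃ X₄ ∈ Ω, (Orb o X₁).ncard = n1 ∧ (Orb o X₂).ncard = n2 ∧
      (Orb o X₃).ncard = n3 ∧ (Orb o X₄).ncard = n4 ∧
      Ω = Orb o X₁ ∪ Orb o X₂ ∪ Orb o X₃ ∪ Orb o X₄) :
    ∃ X₁ ∈ Ω, ∃ X₂ ∈ Ω, ∃ X₃ ∈ Ω, ∃ X₄ ∈ Ω, (Orb (g • o) X₁).ncard = n1 ∧
      (Orb (g • o) X₂).ncard = n2 ∧ (Orb (g • o) X₃).ncard = n3 ∧ (Orb (g • o) X₄).ncard = n4 ∧
      Ω = Orb (g • o) X₁ ∪ Orb (g • o) X₂ ∪ Orb (g • o) X₃ ∪ Orb (g • o) X₄ := by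
  obtain ⟨X₁, hX₁, X₂, hX₂, X₃, hX₃, X₄, hX₄, c1, c2, c3, c4, hU⟩ := h
  refine ⟨g • X₁, hΩ g hg _ hX₁, g • X₂, hΩ g hg _ hX₂, g • X₃, hΩ g hg _ hX₃,
    g • X₄, hΩ g hg _ hX₄,
    by rw [ncard_Orb_smul hg, c1], by rw [ncard_Orb_smul hg, c2], by rw [ncard_Orb_smul hg, c3],
    by rw [ncard_Orb_smul hg, c4], ?_⟩
  rw [Orb_smul hg, Orb_smul hg, Orb_smul hg, Orb_smul hg, ← Set.image_union, ← Set.image_union,
    ← Set.image_union, ← hU]
  ext ω
  constructor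
  · intro hω
    exact ⟨g⁻¹ • ω, hΩ _ (M24.inv_mem hg) _ hω, smul_inv_smul g ω⟩
  · rintro ⟨ω', hω', rfl⟩
    exact hΩ g hg _ hω'

end Orbits

end Cfsg.Agent.Lib.Helper93.Fam
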