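import Mathlib
import Cfsg.Agent.Lib.Helper40.GFStmt

/-!
# S5886 / K2A (helper93): conjugation by a `diag(p, p⁻¹)`-type `L`-linear map of determinant `1`
turns `E(ν)` into `E(m_p ∘ ν ∘ m_p)`; applied to the rank-one differences
`nu b e d c₀ - m_(d c₀)`.
-/

set_option autoImplicit false

namespace Cfsg.Agent.Lib.Helper93.GFK2A

open Cfsg.Agent.Lib.Helper40.GFStmt

universe u

section lemmas
variable {F L : Type u} [Field F] [Field L] [Algebra F L]

/-- `nu b e d c₀ - m_(d c₀)` is a difference of two rank one maps. -/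
theorem nu_sub_mul (b : L →ₗ[F] F) (e d c₀ : L) :
    nu b e d c₀ - LinearMap.mulLeft F (d * c₀)
      = rk1 b e (d * c₀) - rk1 b ((d + algebraMap F L (b (d * e))) * e) c₀ := by
  ext x
  rw [LinearMap.sub_apply, LinearMap.sub_apply, nu_apply, rk1_apply, rk1_apply,
    LinearMap.mulLeft_apply]
  have h1 : b (d * (c₀ * x - b (c₀ * x) • e)) = b (d * c₀ * x) - b (c₀ * x) * b (d * e) := by
    rw [mul_sub, mul_smul_comm, map_sub, map_smul, smul_eq_mul, mul_assoc]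
  rw [h1]
  simp only [Algebra.smul_def, map_sub, map_mul]
  ring

variable {k : ℕ}

/-- conjugation: from `E(ν) ∈ c.M` to `E(m_p ∘ ν ∘ m_p) ∈ c.M`, `p ≠ 0`. -/
theorem inSig_conj (c : Ctx F L k) (v : V k L) (ψ : V k L →ₗ[L] L) (hv : v ≠ 0) (hψ0 : ψ ≠ 0)
    (hψ : ψ v = 0) (p : L) (hp : p ≠ 0) (ν : L →ₗ[F] L) (h : InSig c v ψ ν) :
    InSig c v ψ (LinearMap.mulLeft F p ∘ₗ ν ∘ₗ LinearMap.mulLeft F p) := by
  classical
  obtain ⟨E, hE, hEx⟩ := h
  -- `v₂` with `ψ v₂ = 1`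
  obtain ⟨y, hy⟩ : ∃ y, ψ y ≠ 0 := by
    by_contra hcon
    push Not at hcon
    exact hψ0 (LinearMap.ext hcon)
  obtain ⟨v₂, hv₂⟩ : ∃ v₂ : V k L, ψ v₂ = 1 :=
    ⟨(ψ y)⁻¹ • y, by rw [map_smul, smul_eq_mul, inv_mul_cancel₀ hy]⟩
  -- `φ₁` with `φ₁ v = 1`
  obtain ⟨i, hi⟩ : ∃ i, v i ≠ 0 := by
    by_contra hcon
    push Not at hcon
    exact hv (funext hcon)
  obtain ⟨φ₁, hφ₁⟩ : ∃ φ₁ : V k L →ₗ[L] L, φ₁ v = 1 :=
    ⟨(v i)⁻¹ • LinearMap.proj i, by
      rw [LinearMap.smul_apply, LinearMap.proj_apply, smul_eq_mul, inv_mul_cancel₀ hi]⟩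
  have hu1 : IsUnit (1 + ((p - 1) • φ₁) v) := by
    rw [LinearMap.smul_apply, hφ₁, smul_eq_mul, mul_one, add_sub_cancel]
    exact isUnit_iff_ne_zero.mpr hp
  have hu2 : IsUnit (1 + ((p⁻¹ - 1) • ψ) v₂) := by
    rw [LinearMap.smul_apply, hv₂, smul_eq_mul, mul_one, add_sub_cancel]
    exact isUnit_iff_ne_zero.mpr (inv_ne_zero hp)
  obtain ⟨δ₁, hδ₁⟩ : ∃ δ₁ : V k L ≃ₗ[L] V k L, δ₁ = LinearEquiv.dilatransvection hu1 := ⟨_, rfl⟩
  obtain ⟨δ₂, hδ₂⟩ : ∃ δ₂ : V k L ≃ₗ[L] V k L, δ₂ = LinearEquiv.dilatransvection hu2 := ⟨_, rfl⟩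
  have hδ₁x : ∀ x, δ₁ x = x + ((p - 1) * φ₁ x) • v := by
    intro x
    rw [hδ₁, LinearEquiv.dilatransvection.apply, LinearMap.smul_apply, smul_eq_mul]
  have hδ₂x : ∀ x, δ₂ x = x + ((p⁻¹ - 1) * ψ x) • v₂ := by
    intro x
    rw [hδ₂, LinearEquiv.dilatransvection.apply, LinearMap.smul_apply, smul_eq_mul]
  have hdet1 : LinearMap.det (δ₁ : V k L →ₗ[L] V k L) = p := by
    rw [hδ₁, LinearEquiv.dilatransvection.coe_toLinearMap, LinearMap.transvection.det,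
      LinearMap.smul_apply, hφ₁, smul_eq_mul, mul_one, add_sub_cancel]
  have hdet2 : LinearMap.det (δ₂ : V k L →ₗ[L] V k L) = p⁻¹ := by
    rw [hδ₂, LinearEquiv.dilatransvection.coe_toLinearMap, LinearMap.transvection.det,
      LinearMap.smul_apply, hv₂, smul_eq_mul, mul_one, add_sub_cancel]
  obtain ⟨s, hs⟩ : ∃ s : V k L ≃ₗ[L] V k L, s = δ₁.trans δ₂ := ⟨_, rfl⟩
  have hsx : ∀ x, s x = δ₂ (δ₁ x) := by
    intro x; rw [hs]; rfl
  have hsdet : LinearMap.det (s : V k L →ₗ[L] V k L) = 1 := by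
    have h1 : (s : V k L →ₗ[L] V k L)
        = (δ₂ : V k L →ₗ[L] V k L) ∘ₗ (δ₁ : V k L →ₗ[L] V k L) := by
      ext x; rw [hs]; rfl
    rw [h1, LinearMap.det_comp, hdet1, hdet2, inv_mul_cancel₀ hp]
  obtain ⟨S, hS⟩ : ∃ S : V k L ≃ₗ[F] V k L, S = s.restrictScalars F := ⟨_, rfl⟩
  have hSM : S ∈ c.M := by
    rw [hS]
    exact c.hsub s (by rw [hsdet, map_one])
  have hSx : ∀ x, S x = s x := by
    intro x; rw [hS]; rfl
  have hsv : s v = p • v := by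
    rw [hsx, hδ₁x, hφ₁, mul_one, hδ₂x, map_add, map_smul, hψ, smul_zero, add_zero, mul_zero,
      zero_smul, add_zero, sub_smul, one_smul, add_sub_cancel]
  have hψs : ∀ x, ψ (s x) = p⁻¹ * ψ x := by
    intro x
    rw [hsx, hδ₂x, hδ₁x, map_add, map_smul, map_add, map_smul, hψ, hv₂, smul_zero, add_zero,
      smul_eq_mul, mul_one]
    ring
  have hψinv : ∀ x, ψ (S⁻¹ x) = p * ψ x := by
    intro x
    have h1 : S (S⁻¹ x) = x := by
      rw [← LinearEquiv.mul_apply, mul_inv_cancel]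
      rfl
    have h2 := hψs (S⁻¹ x)
    rw [← hSx, h1] at h2
    rw [h2, ← mul_assoc, mul_inv_cancel₀ hp, one_mul]
  refine ⟨S * E * S⁻¹, c.M.mul_mem (c.M.mul_mem hSM hE) (c.M.inv_mem hSM), fun x => ?_⟩
  have h1 : S (S⁻¹ x) = x := by
    rw [← LinearEquiv.mul_apply, mul_inv_cancel]
    rfl
  have e3 : (LinearMap.mulLeft F p ∘ₗ ν ∘ₗ LinearMap.mulLeft F p) (ψ x) = ν (p * ψ x) * p := by
    rw [LinearMap.comp_apply, LinearMap.comp_apply, LinearMap.mulLeft_apply,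
      LinearMap.mulLeft_apply]
    exact mul_comm _ _
  rw [LinearEquiv.mul_apply, LinearEquiv.mul_apply, hEx, map_add, h1, hψinv, hSx, map_smul, hsv,
    smul_smul, e3]

end lemmas

theorem main : K2A.{u} := by
  intro F L _ _ _ _ k c v ψ e b hk hv hψ0 hψ hbe hN p d c₀
  by_cases hp : p = 0
  · have h0 : rk1 b (p * e) (d * c₀) - rk1 b (p * (d + algebraMap F L (b (d * e))) * e) c₀
        = 0 := by
      ext x
      rw [LinearMap.sub_apply, rk1_apply, rk1_apply, hp, zero_mul, zero_mul, zero_mul, smul_zero,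
        smul_zero, sub_zero, LinearMap.zero_apply]
    rw [h0]
    exact inSig_zero c v ψ
  · have h1 : InSig c v ψ (nu b e d (c₀ / p) - LinearMap.mulLeft F (d * (c₀ / p))) :=
      inSig_sub c v ψ hψ (hN d (c₀ / p)) (inSig_mulLeft c v ψ hψ _)
    rw [nu_sub_mul b e d (c₀ / p)] at h1
    have h2 := inSig_conj c v ψ hv hψ0 hψ p hp _ h1
    have h3 : LinearMap.mulLeft F p ∘ₗ
        (rk1 b e (d * (c₀ / p)) - rk1 b ((d + algebraMap F L (b (d * e))) * e) (c₀ / p)) ∘ₗ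
          LinearMap.mulLeft F p
        = rk1 b (p * e) (d * c₀) - rk1 b (p * (d + algebraMap F L (b (d * e))) * e) c₀ := by
      ext x
      rw [LinearMap.comp_apply, LinearMap.comp_apply, LinearMap.mulLeft_apply,
        LinearMap.mulLeft_apply, LinearMap.sub_apply, LinearMap.sub_apply, rk1_apply, rk1_apply,
        rk1_apply, rk1_apply]
      have e1 : d * (c₀ / p) * (p * x) = d * c₀ * x := by
        field_simp
      have e2 : c₀ / p * (p * x) = c₀ * x := by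
        field_simp
      rw [e1, e2, mul_sub, mul_smul_comm, mul_smul_comm, ← mul_assoc p]
    rw [h3] at h2
    exact h2

end Cfsg.Agent.Lib.Helper93.GFK2A
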