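import Mathlib
import Cfsg.Agent.Lib.Helper40.GFStmt

/-!
# S5886 / K2EXT (helper93): from the norm-one elements to all `d` by span induction.
-/

set_option autoImplicit false

namespace Cfsg.Agent.Lib.Helper93.GFK2EXT

open Cfsg.Agent.Lib.Helper40.GFStmt

universe u

section lemmas
variable {F L : Type u} [Field F] [Field L] [Algebra F L]

theorem nu_zero (b : L →ₗ[F] F) (e c₀ : L) : nu b e 0 c₀ = 0 := by
  ext x
  rw [nu_apply]
  simp

theorem nu_add (b : L →ₗ[F] F) (e d d' c₀ : L) :
    nu b e (d + d') c₀ = nu b e d c₀ + nu b e d' c₀ := by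
  ext x
  rw [LinearMap.add_apply, nu_apply, nu_apply, nu_apply, add_mul, map_add, add_smul]
  abel

theorem nu_smul (b : L →ₗ[F] F) (e d c₀ : L) (s : F) :
    nu b e (s • d) c₀ = nu b e d (s • c₀) := by
  ext x
  rw [nu_apply, nu_apply]
  have h1 : (s • c₀) * x - b ((s • c₀) * x) • e = s • (c₀ * x - b (c₀ * x) • e) := by
    rw [smul_mul_assoc, map_smul, smul_sub, smul_eq_mul, mul_smul]
  rw [h1, smul_mul_assoc, mul_smul_comm]

end lemmas

theorem main (h : SpanNorm.{u}) : K2Ext.{u} := by
  intro F L _ _ _ _ k c v ψ e b hr hψ hN d c₀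
  have hspan := h F L hr
  have hd : d ∈ Submodule.span F {d : L | Algebra.norm F d = 1} := by
    rw [hspan]; exact Submodule.mem_top
  revert c₀
  induction hd using Submodule.span_induction with
  | mem d hd => intro c₀; exact hN d c₀ hd
  | zero => intro c₀; rw [nu_zero]; exact inSig_zero c v ψ
  | add d d' _ _ ihd ihd' =>
    intro c₀; rw [nu_add]; exact inSig_add c v ψ hψ (ihd c₀) (ihd' c₀)
  | smul s d _ ihd => intro c₀; rw [nu_smul]; exact ihd (s • c₀)

end Cfsg.Agent.Lib.Helper93.GFK2EXT
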