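import Mathlib
import Cfsg.Agent.Lib.Helper26.J3Stmt
import Cfsg.Agent.Lib.Helper5.SpCard

/-! S3366 piece SYL: the element `c` lies in, and centralizes, a Sylow 3-subgroup of
`PSp(4,3)`. -/

set_option autoImplicit false

namespace Cfsg.Agent.Lib.Helper93.J3SYL

open Cfsg.Agent.Lib.Helper26.J3Stmt

/-- an element of order three of `SL(2,3)` -/
def g3 : SL := ⟨!![1, 1; 0, 1], by decide⟩

lemma three_dvd_card_SL : 3 ∣ Nat.card SL := by
  have h : orderOf g3 = 3 := by
    apply orderOf_eq_prime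
    · decide
    · decide
  rw [← h]
  exact orderOf_dvd_natCard g3

lemma card_of_coord (X : Type) [Group X] (h : Coord X) : 81 ∣ Nat.card X := by
  obtain ⟨ι, z, κ, hbij, -⟩ := h
  rw [← Nat.card_congr (Equiv.ofBijective _ hbij), Nat.card_prod, Nat.card_prod]
  have h1 : Nat.card V = 9 := by
    rw [Nat.card_eq_fintype_card, Fintype.card_fun, ZMod.card, Fintype.card_fin]
    norm_num
  have h2 : Nat.card (ZMod 3) = 3 := by rw [Nat.card_eq_fintype_card, ZMod.card]
  rw [h1, h2]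
  obtain ⟨m, hm⟩ := three_dvd_card_SL
  rw [hm]
  exact ⟨m, by ring⟩

theorem main : SYL := by
  intro c hc hcoord
  have hp3 : Fact (Nat.Prime 3) := ⟨Nat.prime_three⟩
  have h81 : 81 ∣ Nat.card ↥(Subgroup.centralizer ({c} : Set PG)) := card_of_coord _ hcoord
  have hcC : c ∈ Subgroup.centralizer ({c} : Set PG) := by
    rw [Subgroup.mem_centralizer_iff]
    intro y hy
    rw [Set.mem_singleton_iff.mp hy]
  have hpz : IsPGroup 3
      ↥(Subgroup.zpowers (⟨c, hcC⟩ : ↥(Subgroup.centralizer ({c} : Set PG)))) := by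
    apply IsPGroup.of_card (n := 1)
    rw [Nat.card_zpowers, pow_one]
    exact (Subgroup.orderOf_mk c hcC).trans hc
  obtain ⟨P0, hP0⟩ := hpz.exists_le_sylow
  have hcP0 : (⟨c, hcC⟩ : ↥(Subgroup.centralizer ({c} : Set PG))) ∈
      (P0 : Subgroup ↥(Subgroup.centralizer ({c} : Set PG))) := hP0 (Subgroup.mem_zpowers _)
  have hP0card : 3 ^ 4 ∣ Nat.card ↥(P0 : Subgroup ↥(Subgroup.centralizer ({c} : Set PG))) :=
    P0.pow_dvd_card_of_pow_dvd_card (by norm_num; exact h81)
  have hS0p : IsPGroup 3 ↥((P0 : Subgroup ↥(Subgroup.centralizer ({c} : Set PG))).map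
      (Subgroup.centralizer ({c} : Set PG)).subtype) := P0.isPGroup'.map _
  obtain ⟨S, hS⟩ := hS0p.exists_le_sylow
  have hS0card : Nat.card ↥((P0 : Subgroup ↥(Subgroup.centralizer ({c} : Set PG))).map
      (Subgroup.centralizer ({c} : Set PG)).subtype) =
      Nat.card ↥(P0 : Subgroup ↥(Subgroup.centralizer ({c} : Set PG))) :=
    Subgroup.card_subtype _ _
  obtain ⟨j, hj⟩ := IsPGroup.iff_card.mp S.isPGroup'
  have hPG : Nat.card PG ∣ 51840 := by
    have hc1 := Cfsg.Agent.Lib.Helper5.SpCard.card_symplectic (F := ZMod 3) 2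
    rw [ZMod.card] at hc1
    have hc' : Nat.card (Matrix.symplecticGroup (Fin 2) (ZMod 3)) = 51840 := by
      rw [hc1]; decide
    have hq := Subgroup.card_eq_card_quotient_mul_card_subgroup
      (Subgroup.center (Matrix.symplecticGroup (Fin 2) (ZMod 3)))
    rw [hc'] at hq
    exact Dvd.intro _ hq.symm
  have hSdvd : Nat.card ↥(S : Subgroup PG) ∣ 51840 :=
    (Subgroup.card_subgroup_dvd_card _).trans hPG
  have hj4 : j ≤ 4 := by
    by_contra hcon
    have h5 : 3 ^ 5 ∣ 3 ^ j := pow_dvd_pow 3 (by omega)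
    rw [← hj] at h5
    have h6 := h5.trans hSdvd
    revert h6
    decide
  have hSle : Nat.card ↥(S : Subgroup PG) ≤ 81 := by
    rw [hj]
    calc 3 ^ j ≤ 3 ^ 4 := Nat.pow_le_pow_right (by norm_num) hj4
      _ = 81 := by norm_num
  have hS0ge : 81 ≤ Nat.card ↥((P0 : Subgroup ↥(Subgroup.centralizer ({c} : Set PG))).map
      (Subgroup.centralizer ({c} : Set PG)).subtype) := by
    rw [hS0card]
    exact Nat.le_of_dvd Nat.card_pos hP0card
  have hEq : (P0 : Subgroup ↥(Subgroup.centralizer ({c} : Set PG))).map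
      (Subgroup.centralizer ({c} : Set PG)).subtype = (S : Subgroup PG) :=
    Subgroup.eq_of_le_of_card_ge hS (by omega)
  refine ⟨S, ?_, ?_⟩
  · rw [← hEq]
    exact Subgroup.mem_map.mpr ⟨⟨c, hcC⟩, hcP0, rfl⟩
  · rw [Subgroup.mem_centralizer_iff]
    intro s hs
    have hs' : s ∈ (P0 : Subgroup ↥(Subgroup.centralizer ({c} : Set PG))).map
        (Subgroup.centralizer ({c} : Set PG)).subtype := by
      rw [hEq]
      exact hs
    obtain ⟨x, -, rfl⟩ := Subgroup.mem_map.mp hs'
    have h7 := Subgroup.mem_centralizer_iff.mp x.2 c (Set.mem_singleton c)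
    exact h7.symm

end Cfsg.Agent.Lib.Helper93.J3SYL
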