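import Cfsg.Agent.Lib.Helper93.OrbTools

/-!
Word certificates and counting for the action of stabilisers on the octads (indexed by the
information bits `c < 4096` of their code words).
-/

set_option autoImplicit false

namespace Cfsg.Agent.Lib.Helper93.OrbOct

open Cfsg Cfsg.Agent.Lib.Helper27.Bits Cfsg.Agent.Lib.Helper27.Golay Cfsg.Agent.Lib.Helper27.M24
  Cfsg.Agent.Lib.Helper27.Cert Cfsg.Agent.Lib.Helper27.Trans Cfsg.Agent.Lib.Helper27.Fast
  Cfsg.Agent.Lib.Helper93.Fam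
open scoped Pointwise

/-- the invariant of an octad against a family -/
def invO (X : Finset (Finset GolayPt)) (o : Finset GolayPt) : ℕ := inv2 X {o}

theorem invO_stab {g : Equiv.Perm GolayPt} {X : Finset (Finset GolayPt)} (hX : g • X = X)
    (o : Finset GolayPt) : invO X (g • o) = invO X o := by
  unfold invO
  rw [← Finset.smul_finset_singleton]
  conv_lhs => rw [← hX]
  exact inv2_smul g X {o}

theorem invO_fam (lX : List ℕ) (hX : (lX.map fsOf).Nodup) (m : ℕ) :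
    invO (fam lX) (fsOf m) = invL lX [m] := by
  unfold invO
  rw [← fam_singleton]
  exact inv2_fam lX [m] hX (List.nodup_singleton _)

theorem smul_mem_octads {g : Equiv.Perm GolayPt} (hg : g ∈ M24) {o : Finset GolayPt}
    (ho : o ∈ octads) : g • o ∈ octads := (octads_smul_iff hg o).mpr ho

/-- transitivity on the classes of an invariant of octads from word certificates -/
theorem oct_trans_of_cert (K : Subgroup (Equiv.Perm GolayPt)) (inv : Finset GolayPt → ℕ)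
    (invc : ℕ → ℕ) (hinv : ∀ c, inv (fsOf (cw c)) = invc c) (root : ℕ → ℕ) {G n W ww : ℕ}
    (hG : ∀ d < 16, validT (tget G 120 d) = true ∧ gperm (tget G 120 d) ∈ K)
    (h : certM G n 4096 W ww (fun c => c) (fun c => cw (root (invc c))) cw
      (fun c => Nat.beq (pcF (cw c)) 8) = true) :
    ∀ ω ∈ octads, ∀ ω' ∈ octads, inv ω = inv ω' → ∃ g ∈ K, g • ω = ω' := by
  intro ω hω ω' hω' he
  obtain ⟨c, hc, rfl, h8⟩ := (mem_octads_cw ω).mp hω
  obtain ⟨c', hc', rfl, h8'⟩ := (mem_octads_cw ω').mp hω'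
  rw [hinv c, hinv c'] at he
  obtain ⟨g, hg, e⟩ := certM_spec hG h c hc (by rw [h8]; rfl)
  obtain ⟨g', hg', e'⟩ := certM_spec hG h c' hc' (by rw [h8']; rfl)
  refine ⟨g' * g⁻¹, K.mul_mem hg' (K.inv_mem hg), ?_⟩
  rw [mul_smul, ← e, inv_smul_smul, he, e']

theorem oct_ncard_inv_class (inv : Finset GolayPt → ℕ) (invc : ℕ → ℕ)
    (hinv : ∀ c, inv (fsOf (cw c)) = invc c) (v n : ℕ)
    (h : countB 4096 (fun c => Nat.beq (pcF (cw c)) 8 && Nat.beq (invc c) v) = n) :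
    {ω | ω ∈ octads ∧ inv ω = v}.ncard = n := by
  rw [← h]
  apply ncard_octads_filter (fun ω => inv ω = v) (fun c => Nat.beq (invc c) v)
  intro c _
  rw [hinv c]
  exact ⟨fun e => by rw [e]; exact Nat.beq_refl v, Nat.eq_of_beq_eq_true⟩

theorem oct_inv_cases3 (inv : Finset GolayPt → ℕ) (invc : ℕ → ℕ)
    (hinv : ∀ c, inv (fsOf (cw c)) = invc c) (v1 v2 v3 : ℕ)
    (h : allB 4096 (fun c => !Nat.beq (pcF (cw c)) 8 ||
      (Nat.beq (invc c) v1 || Nat.beq (invc c) v2 || Nat.beq (invc c) v3)) = true) :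
    ∀ ω ∈ octads, inv ω = v1 ∨ inv ω = v2 ∨ inv ω = v3 := by
  intro ω hω
  obtain ⟨c, hc, rfl, h8⟩ := (mem_octads_cw ω).mp hω
  have h1 := (allB_iff _ _).mp h c hc
  rw [hinv c]
  rw [h8] at h1
  simp only [Nat.beq_refl, Bool.not_true, Bool.false_or, Bool.or_eq_true] at h1
  rcases h1 with (h1 | h1) | h1
  · exact Or.inl (Nat.eq_of_beq_eq_true h1)
  · exact Or.inr (Or.inl (Nat.eq_of_beq_eq_true h1))
  · exact Or.inr (Or.inr (Nat.eq_of_beq_eq_true h1))

theorem oct_inv_cases4 (inv : Finset GolayPt → ℕ) (invc : ℕ → ℕ)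
    (hinv : ∀ c, inv (fsOf (cw c)) = invc c) (v1 v2 v3 v4 : ℕ)
    (h : allB 4096 (fun c => !Nat.beq (pcF (cw c)) 8 || (Nat.beq (invc c) v1 ||
      Nat.beq (invc c) v2 || Nat.beq (invc c) v3 || Nat.beq (invc c) v4)) = true) :
    ∀ ω ∈ octads, inv ω = v1 ∨ inv ω = v2 ∨ inv ω = v3 ∨ inv ω = v4 := by
  intro ω hω
  obtain ⟨c, hc, rfl, h8⟩ := (mem_octads_cw ω).mp hω
  have h1 := (allB_iff _ _).mp h c hc
  rw [hinv c]
  rw [h8] at h1
  simp only [Nat.beq_refl, Bool.not_true, Bool.false_or, Bool.or_eq_true] at h1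
  rcases h1 with ((h1 | h1) | h1) | h1
  · exact Or.inl (Nat.eq_of_beq_eq_true h1)
  · exact Or.inr (Or.inl (Nat.eq_of_beq_eq_true h1))
  · exact Or.inr (Or.inr (Or.inl (Nat.eq_of_beq_eq_true h1)))
  · exact Or.inr (Or.inr (Or.inr (Nat.eq_of_beq_eq_true h1)))

end Cfsg.Agent.Lib.Helper93.OrbOct
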