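import Cfsg.Agent.Lib.Helper93.Rigid
import Cfsg.Agent.Lib.Helper93.OrbOct
import Cfsg.Agent.Lib.Helper7.M24Octad
/-!
# Normal forms of elements of the group of the length-24 code

Ordered 5-transitivity and the rigidity on seven base points (from `Lib.Helper7`) in the table
language of `Lib.Helper27`: an element with prescribed images of the base points 23, 0, 1, 2, 3, 5
and an image of the base point 4 (or 5) in a known set is one of finitely many explicit tables
(`cand_spec`); conjugacy of tables (`conj_of_conjB`), fixed points and orders of tables.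
-/
set_option autoImplicit false
open scoped Pointwise
open Cfsg

namespace Cfsg.Agent.Lib.Helper93.NForm

open Cfsg.Agent.Lib.Helper27.Bits Cfsg.Agent.Lib.Helper27.Golay Cfsg.Agent.Lib.Helper27.M24
  Cfsg.Agent.Lib.Helper27.Cert Cfsg.Agent.Lib.Helper27.Trans Cfsg.Agent.Lib.Helper27.Fast
  Cfsg.Agent.Lib.Helper93.Fam Cfsg.Agent.Lib.Helper93.Rigid

/-! ### the two index conventions agree -/

theorem idx7 (p : GolayPt) : Cfsg.Agent.Lib.Helper7.GolayBase.idx p = idx p := by
  cases p <;> rfl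

theorem pt7 {i : ℕ} (hi : i < 24) : Cfsg.Agent.Lib.Helper7.GolayBase.pt i = pt i := by
  apply idx_injective
  rw [← idx7, Cfsg.Agent.Lib.Helper7.GolayBase.idx_pt hi, idx_pt i hi]

theorem pt_inj {i j : ℕ} (hi : i < 24) (hj : j < 24) (h : pt i = pt j) : i = j := by
  rw [← idx_pt i hi, ← idx_pt j hj, h]

/-! ### moving points to the base -/

/-- five distinct points can be moved to the base points 23, 0, 1, 2, 3, in this order -/
theorem map5 {x1 x2 x3 x4 x5 : GolayPt} (h : [x1, x2, x3, x4, x5].Nodup) :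
    ∃ g ∈ M24, g x1 = pt 23 ∧ g x2 = pt 0 ∧ g x3 = pt 1 ∧ g x4 = pt 2 ∧ g x5 = pt 3 := by
  obtain ⟨g, hg, e⟩ := Cfsg.Agent.Lib.Helper7.M24Main.exists_map_base5 [x1, x2, x3, x4, x5] h
    (by simp)
  refine ⟨g, hg, ?_⟩
  simp only [List.map_cons, List.map_nil, List.length_cons, List.length_nil,
    Cfsg.Agent.Lib.Helper7.M24Main.base5, List.take, List.cons.injEq, and_true] at e
  obtain ⟨e1, e2, e3, e4, e5⟩ := e
  rw [pt7 (by norm_num)] at e1 e2 e3 e4 e5
  exact ⟨e1, e2, e3, e4, e5⟩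

theorem t67 : ∀ i, i < 24 → i ≠ 23 → i ≠ 0 → i ≠ 1 → i ≠ 2 → i ≠ 3 →
    i ∈ Cfsg.Agent.Lib.Helper7.M24Core.T6 ∨ i ∈ Cfsg.Agent.Lib.Helper7.M24Core.T7 := by
  intro i hi
  interval_cases i <;>
    simp [Cfsg.Agent.Lib.Helper7.M24Core.T6, Cfsg.Agent.Lib.Helper7.M24Core.T7]

theorem t6_lt : ∀ i ∈ Cfsg.Agent.Lib.Helper7.M24Core.T6, i < 24 := by decide

theorem t7_lt : ∀ i ∈ Cfsg.Agent.Lib.Helper7.M24Core.T7, i < 24 := by decide

/-- six distinct points: the first five can be moved to the base points 23, 0, 1, 2, 3 and the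
sixth to the point 5 or to the point 4 -/
theorem map6 {x1 x2 x3 x4 x5 y : GolayPt} (h : [x1, x2, x3, x4, x5, y].Nodup) :
    ∃ g ∈ M24, g x1 = pt 23 ∧ g x2 = pt 0 ∧ g x3 = pt 1 ∧ g x4 = pt 2 ∧ g x5 = pt 3 ∧
      (g y = pt 5 ∨ g y = pt 4) := by
  have h5 : [x1, x2, x3, x4, x5].Nodup := by
    simp only [List.nodup_cons, List.mem_cons, List.not_mem_nil, or_false, not_or,
      List.nodup_nil, and_true, not_false_eq_true] at h ⊢
    tauto
  have hy : y ≠ x1 ∧ y ≠ x2 ∧ y ≠ x3 ∧ y ≠ x4 ∧ y ≠ x5 := by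
    simp only [List.nodup_cons, List.mem_cons, List.not_mem_nil, or_false, not_or,
      List.nodup_nil, and_true, not_false_eq_true] at h
    refine ⟨?_, ?_, ?_, ?_, ?_⟩ <;> intro e <;> simp [e] at h
  obtain ⟨g, hg, e1, e2, e3, e4, e5⟩ := map5 h5
  have hne : ∀ {x : GolayPt} {b : ℕ}, b < 24 → g x = pt b → y ≠ x → idx (g y) ≠ b := by
    intro x b hb hx hyx e
    apply hyx
    apply g.injective
    rw [hx, ← e, pt_idx]
  rcases t67 (idx (g y)) (idx_lt _) (hne (by norm_num) e1 hy.1) (hne (by norm_num) e2 hy.2.1)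
    (hne (by norm_num) e3 hy.2.2.1) (hne (by norm_num) e4 hy.2.2.2.1)
    (hne (by norm_num) e5 hy.2.2.2.2) with h6 | h7
  · obtain ⟨k, hk, hky⟩ := Cfsg.Agent.Lib.Helper7.M24Core.wit6 _ h6
    rw [pt7 (by norm_num), pt7 (t6_lt _ h6), pt_idx] at hky
    have hkfix : ∀ b ∈ [3, 2, 1, 0, 23], k⁻¹ (pt b) = pt b := by
      intro b hb
      rw [Equiv.Perm.inv_eq_iff_eq]
      have hb24 : b < 24 := by
        simp only [List.mem_cons, List.not_mem_nil, or_false] at hb
        omega
      have := hk.2 b hb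
      rw [pt7 hb24] at this
      exact this.symm
    refine ⟨k⁻¹ * g, M24.mul_mem (M24.inv_mem (Cfsg.Agent.Lib.Helper7.M24Core.H_le_M24 hk.1)) hg,
      ?_, ?_, ?_, ?_, ?_, Or.inl ?_⟩
    · show k⁻¹ (g x1) = pt 23
      rw [e1]; exact hkfix 23 (by simp)
    · show k⁻¹ (g x2) = pt 0
      rw [e2]; exact hkfix 0 (by simp)
    · show k⁻¹ (g x3) = pt 1
      rw [e3]; exact hkfix 1 (by simp)
    · show k⁻¹ (g x4) = pt 2
      rw [e4]; exact hkfix 2 (by simp)
    · show k⁻¹ (g x5) = pt 3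
      rw [e5]; exact hkfix 3 (by simp)
    · show k⁻¹ (g y) = pt 5
      rw [Equiv.Perm.inv_eq_iff_eq, hky]
  · obtain ⟨k, hk, hky⟩ := Cfsg.Agent.Lib.Helper7.M24Core.wit7 _ h7
    rw [pt7 (by norm_num), pt7 (t7_lt _ h7), pt_idx] at hky
    have hkfix : ∀ b ∈ [5, 3, 2, 1, 0, 23], k⁻¹ (pt b) = pt b := by
      intro b hb
      rw [Equiv.Perm.inv_eq_iff_eq]
      have hb24 : b < 24 := by
        simp only [List.mem_cons, List.not_mem_nil, or_false] at hb
        omega
      have := hk.2 b hb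
      rw [pt7 hb24] at this
      exact this.symm
    refine ⟨k⁻¹ * g, M24.mul_mem (M24.inv_mem (Cfsg.Agent.Lib.Helper7.M24Core.H_le_M24 hk.1)) hg,
      ?_, ?_, ?_, ?_, ?_, Or.inr ?_⟩
    · show k⁻¹ (g x1) = pt 23
      rw [e1]; exact hkfix 23 (by simp)
    · show k⁻¹ (g x2) = pt 0
      rw [e2]; exact hkfix 0 (by simp)
    · show k⁻¹ (g x3) = pt 1
      rw [e3]; exact hkfix 1 (by simp)
    · show k⁻¹ (g x4) = pt 2
      rw [e4]; exact hkfix 2 (by simp)
    · show k⁻¹ (g x5) = pt 3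
      rw [e5]; exact hkfix 3 (by simp)
    · show k⁻¹ (g y) = pt 4
      rw [Equiv.Perm.inv_eq_iff_eq, hky]

/-- the seven base points -/
def base7 : List ℕ := [4, 5, 3, 2, 1, 0, 23]

theorem base7_lt : ∀ b ∈ base7, b < 24 := by decide

/-- an element of the group fixing the seven base points is trivial -/
theorem rigid_base {h : Equiv.Perm GolayPt} (hh : h ∈ M24) (hfix : ∀ b ∈ base7, h (pt b) = pt b) :
    h = 1 := by
  have hmem : h ∈ M24 ⊓ Cfsg.Agent.Lib.Helper7.ChainGen.FixL [4, 5, 3, 2, 1, 0, 23] := by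
    refine ⟨hh, fun f hf => ?_⟩
    rw [pt7 (base7_lt f hf)]
    exact hfix f hf
  rw [Cfsg.Agent.Lib.Helper7.M24Core.rigid7, Subgroup.mem_bot] at hmem
  exact hmem

/-! ### tables -/

theorem gperm_inv_apply {T : ℕ} (hv : validT T = true) (p : GolayPt) :
    (gperm T)⁻¹ p = pt (tget T 5 (idx p)) := by
  rw [Equiv.Perm.inv_def, gperm_symm_apply hv]
  rfl

theorem gperm_inv_pt {T : ℕ} (hv : validT T = true) {j : ℕ} (hj : j < 24) :
    (gperm T)⁻¹ (pt j) = pt (tget T 5 j) := by
  rw [gperm_inv_apply hv, idx_pt j hj]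

/-- `gperm D * gperm C = gperm C0 * gperm D`, on tables -/
noncomputable def conjB (D C C0 : ℕ) : Bool :=
  allB 24 (fun j => Nat.beq (tget C 5 (tget D 5 j)) (tget D 5 (tget C0 5 j)))

theorem conj_of_conjB {D C C0 : ℕ} (hD : validT D = true) (hC : validT C = true)
    (hC0 : validT C0 = true) (h : conjB D C C0 = true) :
    gperm D * gperm C * (gperm D)⁻¹ = gperm C0 := by
  have key : gperm D * gperm C = gperm C0 * gperm D := by
    apply inv_injective
    refine Equiv.ext fun p => ?_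
    rw [mul_inv_rev, mul_inv_rev]
    show (gperm C)⁻¹ ((gperm D)⁻¹ p) = (gperm D)⁻¹ ((gperm C0)⁻¹ p)
    rw [gperm_inv_apply hD p, gperm_inv_pt hC (validT_lt hD _ (idx_lt p)),
      gperm_inv_apply hC0 p, gperm_inv_pt hD (validT_lt hC0 _ (idx_lt p))]
    exact congrArg pt (Nat.eq_of_beq_eq_true ((allB_iff _ _).mp h (idx p) (idx_lt p)))
  rw [key, mul_inv_cancel_right]

/-- the table is the identity -/
noncomputable def idB (C : ℕ) : Bool := allB 24 (fun j => Nat.beq (tget C 5 j) j)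

theorem gperm_eq_one_of_idB {C : ℕ} (hv : validT C = true) (h : idB C = true) : gperm C = 1 := by
  apply inv_injective
  refine Equiv.ext fun p => ?_
  rw [gperm_inv_apply hv, Nat.eq_of_beq_eq_true ((allB_iff _ _).mp h (idx p) (idx_lt p)), pt_idx]
  rfl

/-- the table is an involution or the identity -/
noncomputable def invB (C : ℕ) : Bool := allB 24 (fun j => Nat.beq (tget C 5 (tget C 5 j)) j)

theorem invB_of_sq {C : ℕ} (hv : validT C = true) (h : gperm C * gperm C = 1) : invB C = true := by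
  rw [invB, allB_iff]
  intro j hj
  have h1 : (gperm C * gperm C)⁻¹ (pt j) = pt j := by rw [h]; rfl
  rw [mul_inv_rev] at h1
  have h2 : (gperm C)⁻¹ ((gperm C)⁻¹ (pt j)) = pt j := h1
  rw [gperm_inv_pt hv hj, gperm_inv_pt hv (validT_lt hv j hj)] at h2
  rw [pt_inj (validT_lt hv _ (validT_lt hv j hj)) hj h2]
  exact Nat.beq_refl j

/-- the cube of the table is the identity -/
noncomputable def cubeB (C : ℕ) : Bool :=
  allB 24 (fun j => Nat.beq (tget C 5 (tget C 5 (tget C 5 j))) j)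

theorem cubeB_of_cube {C : ℕ} (hv : validT C = true) (h : gperm C * gperm C * gperm C = 1) :
    cubeB C = true := by
  rw [cubeB, allB_iff]
  intro j hj
  have h1 : (gperm C * gperm C * gperm C)⁻¹ (pt j) = pt j := by rw [h]; rfl
  rw [mul_inv_rev, mul_inv_rev] at h1
  have h2 : (gperm C)⁻¹ ((gperm C)⁻¹ ((gperm C)⁻¹ (pt j))) = pt j := h1
  rw [gperm_inv_pt hv hj, gperm_inv_pt hv (validT_lt hv j hj),
    gperm_inv_pt hv (validT_lt hv _ (validT_lt hv j hj))] at h2
  rw [pt_inj (validT_lt hv _ (validT_lt hv _ (validT_lt hv j hj))) hj h2]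
  exact Nat.beq_refl j

/-- the number of fixed points of a table -/
noncomputable def fixN (C : ℕ) : ℕ := countB 24 (fun j => Nat.beq (tget C 5 j) j)

theorem gperm_fix_iff {C : ℕ} (hv : validT C = true) (p : GolayPt) :
    gperm C p = p ↔ tget C 5 (idx p) = idx p := by
  constructor
  · intro h
    have h1 : (gperm C)⁻¹ p = p := by rw [Equiv.Perm.inv_eq_iff_eq, h]
    rw [gperm_inv_apply hv] at h1
    have := congrArg idx h1
    rw [idx_pt _ (validT_lt hv _ (idx_lt p))] at this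
    exact this
  · intro h
    have h1 : (gperm C)⁻¹ p = p := by rw [gperm_inv_apply hv, h, pt_idx]
    rw [Equiv.Perm.inv_eq_iff_eq] at h1
    exact h1.symm

theorem card_fix_gperm {C : ℕ} (hv : validT C = true) :
    (Finset.univ.filter fun p => gperm C p = p).card = fixN C := by
  rw [fixN, countB_eq]
  apply Finset.card_nbij' (fun p => idx p) (fun i => pt i)
  · intro p hp
    simp only [Finset.coe_filter, Finset.mem_univ, true_and, Set.mem_ofPred_eq, Finset.mem_range] at hp ⊢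
    refine ⟨idx_lt p, ?_⟩
    rw [(gperm_fix_iff hv p).mp hp]
    exact Nat.beq_refl _
  · intro i hi
    simp only [Finset.coe_filter, Finset.mem_univ, true_and, Set.mem_ofPred_eq, Finset.mem_range] at hi ⊢
    rw [gperm_fix_iff hv, idx_pt i hi.1]
    exact Nat.eq_of_beq_eq_true hi.2
  · intro p _
    exact pt_idx p
  · intro i hi
    simp only [Finset.coe_filter, Finset.mem_range, Set.mem_ofPred_eq] at hi
    exact idx_pt i hi.1

/-! ### images of octads -/

/-- `t` maps the point `i` to the point `j` for the pairs `(i, j)` of the list -/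
def Maps (t : Equiv.Perm GolayPt) (l : List (ℕ × ℕ)) : Prop := ∀ ij ∈ l, t (pt ij.1) = pt ij.2

/-- the mask of the images `j` of the points `i` of the mask `A` in the list of pairs -/
def imgMask (A : ℕ) : List (ℕ × ℕ) → ℕ
  | [] => 0
  | ij :: l => cond (A.testBit ij.1 && Nat.blt ij.1 24 && Nat.blt ij.2 24)
      (imgMask A l ||| 2 ^ ij.2) (imgMask A l)

theorem imgMask_sub {t : Equiv.Perm GolayPt} {A : ℕ} :
    ∀ {l : List (ℕ × ℕ)}, Maps t l → fsOf (imgMask A l) ⊆ t • fsOf A := by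
  intro l
  induction l with
  | nil =>
    intro _
    rw [imgMask, setOf_zero]
    exact Finset.empty_subset _
  | cons ij l ih =>
    intro hm
    have hl : Maps t l := fun x hx => hm x (List.mem_cons_of_mem _ hx)
    rw [imgMask]
    cases hb : (A.testBit ij.1 && Nat.blt ij.1 24 && Nat.blt ij.2 24)
    · exact ih hl
    · rw [Bool.and_eq_true, Bool.and_eq_true, Nat.blt_eq, Nat.blt_eq] at hb
      obtain ⟨⟨h1, h2⟩, h3⟩ := hb
      show fsOf (imgMask A l ||| 2 ^ ij.2) ⊆ t • fsOf A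
      rw [setOf_or, setOf_two_pow _ h3]
      apply Finset.union_subset (ih hl)
      rw [Finset.singleton_subset_iff, ← hm ij List.mem_cons_self, ← Equiv.Perm.smul_def]
      exact Finset.smul_mem_smul_finset ((mem_setOf_pt h2).mpr h1)

/-- `A` and `B` are octads and at least five points of `A` are mapped into `B` by the list -/
noncomputable def octChk (l : List (ℕ × ℕ)) (A B : ℕ) : Bool :=
  isCw A && Nat.beq (pcF A) 8 && isCw B && Nat.beq (pcF B) 8 &&
    Nat.ble 5 (pcF (imgMask A l &&& B))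

theorem octad_image {t : Equiv.Perm GolayPt} (ht : t ∈ M24) {l : List (ℕ × ℕ)} {A B : ℕ}
    (hm : Maps t l) (h : octChk l A B = true) : t • fsOf A = fsOf B := by
  unfold octChk at h
  rw [Bool.and_eq_true, Bool.and_eq_true, Bool.and_eq_true, Bool.and_eq_true] at h
  obtain ⟨⟨⟨⟨h1, h2⟩, h3⟩, h4⟩, h5⟩ := h
  have hA : fsOf A ∈ octads := isCw_octad h1 (Nat.eq_of_beq_eq_true h2)
  have hB : fsOf B ∈ octads := isCw_octad h3 (Nat.eq_of_beq_eq_true h4)
  apply Cfsg.Agent.Lib.Helper7.M24Octad.octad_unique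
    (Cfsg.Agent.Lib.Helper93.OrbOct.smul_mem_octads ht hA) hB
  have hsub : fsOf (imgMask A l &&& B) ⊆ t • fsOf A ∩ fsOf B := by
    rw [setOf_and]
    exact Finset.inter_subset_inter (imgMask_sub hm) (Finset.Subset.refl _)
  have := Finset.card_le_card hsub
  rw [card_setOf_F] at this
  exact le_trans (Nat.le_of_ble_eq_true h5) this

theorem image_mem_iff {t : Equiv.Perm GolayPt} {A B : ℕ} (h : t • fsOf A = fsOf B) {i : ℕ}
    (hi : i < 24) : t (pt i) ∈ fsOf B ↔ A.testBit i = true := by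
  rw [← h, ← Equiv.Perm.smul_def, Finset.smul_mem_smul_finset_iff, mem_setOf_pt hi]

/-! ### candidates -/

/-- candidate certificate: the pairs of `imgs` and the point `u` cover the seven base points and,
for every point `q` of the mask `R` that is not an image in `imgs`, lane `q` of `CT` is a table of
an element of the group with the images of `imgs`, mapping `u` to `q`, and satisfying `post q` -/
noncomputable def candB (imgs : List (ℕ × ℕ)) (u R CT : ℕ) (post : ℕ → Bool) : Bool :=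
  base7.all (fun b => Nat.beq b u || imgs.any (fun ij => Nat.beq ij.1 b)) &&
    imgs.all (fun ij => Nat.blt ij.2 24 && !Nat.beq ij.1 u && Nat.blt ij.1 24) && Nat.blt u 24 &&
    allB 24 (fun q => !R.testBit q || imgs.any (fun ij => Nat.beq ij.2 q) ||
      (inM24 (tget CT 120 q) &&
        imgs.all (fun ij => Nat.beq (tget (tget CT 120 q) 5 ij.2) ij.1) &&
        Nat.beq (tget (tget CT 120 q) 5 q) u && post q))

theorem cand_spec {t : Equiv.Perm GolayPt} (ht : t ∈ M24) {imgs : List (ℕ × ℕ)} {u R CT : ℕ}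
    {post : ℕ → Bool} (hm : Maps t imgs) (hu : t (pt u) ∈ fsOf R)
    (hc : candB imgs u R CT post = true) :
    ∃ q < 24, inM24 (tget CT 120 q) = true ∧ t = gperm (tget CT 120 q) ∧ post q = true := by
  unfold candB at hc
  rw [Bool.and_eq_true, Bool.and_eq_true, Bool.and_eq_true, Nat.blt_eq] at hc
  obtain ⟨⟨⟨hbase, himgs⟩, hu24⟩, hall⟩ := hc
  rw [List.all_eq_true] at hbase himgs
  have hq24 : idx (t (pt u)) < 24 := idx_lt _
  have hR : R.testBit (idx (t (pt u))) = true := (mem_setOf _ _).mp hu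
  have h1 := (allB_iff _ _).mp hall _ hq24
  rw [hR, Bool.not_true, Bool.false_or, Bool.or_eq_true] at h1
  rcases h1 with h1 | h1
  · exfalso
    obtain ⟨ij, hij, e⟩ := List.any_eq_true.mp h1
    have e' := Nat.eq_of_beq_eq_true e
    have h2 := himgs ij hij
    rw [Bool.and_eq_true, Bool.and_eq_true, Nat.blt_eq, Nat.blt_eq] at h2
    obtain ⟨⟨_, h3⟩, h4⟩ := h2
    have h5 : t (pt ij.1) = t (pt u) := by rw [hm ij hij, e', pt_idx]
    have h6 := pt_inj h4 hu24 (t.injective h5)
    rw [h6, Nat.beq_refl] at h3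
    exact absurd h3 (by decide)
  · rw [Bool.and_eq_true, Bool.and_eq_true, Bool.and_eq_true] at h1
    obtain ⟨⟨⟨hM, hag⟩, hqu⟩, hpost⟩ := h1
    rw [List.all_eq_true] at hag
    refine ⟨_, hq24, hM, ?_, hpost⟩
    have hv := inM24_valid hM
    have key : (gperm (tget CT 120 (idx (t (pt u)))))⁻¹ * t = 1 := by
      refine rigid_base (M24.mul_mem (M24.inv_mem (gperm_mem_M24 hM)) ht) ?_
      intro b hb
      have h2 := hbase b hb
      rw [Bool.or_eq_true] at h2
      rcases h2 with h2 | h2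
      · have e := Nat.eq_of_beq_eq_true h2
        show (gperm (tget CT 120 (idx (t (pt u)))))⁻¹ (t (pt b)) = pt b
        rw [e, gperm_inv_apply hv, Nat.eq_of_beq_eq_true hqu]
      · obtain ⟨ij, hij, e⟩ := List.any_eq_true.mp h2
        have e' := Nat.eq_of_beq_eq_true e
        have h3 := himgs ij hij
        rw [Bool.and_eq_true, Bool.and_eq_true, Nat.blt_eq, Nat.blt_eq] at h3
        show (gperm (tget CT 120 (idx (t (pt u)))))⁻¹ (t (pt b)) = pt b
        rw [← e', hm ij hij, gperm_inv_pt hv h3.1.1, Nat.eq_of_beq_eq_true (hag ij hij)]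
    rw [← mul_one (gperm (tget CT 120 (idx (t (pt u))))), ← key, mul_inv_cancel_left]

/-! ### conjugates -/

theorem conj_apply (g t : Equiv.Perm GolayPt) (x : GolayPt) :
    (g * t * g⁻¹) (g x) = g (t x) := by
  show g (t (g⁻¹ (g x))) = g (t x)
  rw [show g⁻¹ (g x) = x from Equiv.symm_apply_apply g x]

/-- images under a conjugate -/
theorem conj_maps {g t : Equiv.Perm GolayPt} {x y : GolayPt} {i j : ℕ} (hx : g x = pt i)
    (hy : g y = pt j) (hxy : t x = y) : (g * t * g⁻¹) (pt i) = pt j := by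
  rw [← hx, conj_apply, hxy, hy]

theorem card_fix_conj {d t t0 : Equiv.Perm GolayPt} (h : d * t * d⁻¹ = t0) :
    (Finset.univ.filter fun p => t p = p).card = (Finset.univ.filter fun p => t0 p = p).card := by
  apply Finset.card_nbij' (fun p => d p) (fun p => d⁻¹ p)
  · intro p hp
    simp only [Finset.coe_filter, Finset.mem_univ, true_and, Set.mem_ofPred_eq] at hp ⊢
    rw [← h, conj_apply, hp]
  · intro p hp
    simp only [Finset.coe_filter, Finset.mem_univ, true_and, Set.mem_ofPred_eq] at hp ⊢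
    rw [← h] at hp
    have hp' : d (t (d⁻¹ p)) = p := hp
    exact Equiv.Perm.eq_inv_iff_eq.mpr hp'
  · intro p _
    exact Equiv.symm_apply_apply d p
  · intro p _
    exact Equiv.apply_symm_apply d p

/-- candidate certificate with two unknown images (of `u1` in `R1` and of `u2` in `R2`); the
table for the images `q1`, `q2` is lane `24 * q1 + q2` of `CT` -/
noncomputable def cand2B (imgs : List (ℕ × ℕ)) (u1 R1 u2 R2 CT : ℕ) (post : ℕ → Bool) : Bool :=
  base7.all (fun b => Nat.beq b u1 || Nat.beq b u2 || imgs.any (fun ij => Nat.beq ij.1 b)) &&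
    imgs.all (fun ij => Nat.blt ij.2 24 && !Nat.beq ij.1 u1 && !Nat.beq ij.1 u2 &&
      Nat.blt ij.1 24) && Nat.blt u1 24 && Nat.blt u2 24 && !Nat.beq u1 u2 &&
    allB 24 (fun q1 => !R1.testBit q1 || imgs.any (fun ij => Nat.beq ij.2 q1) ||
      allB 24 (fun q2 => !R2.testBit q2 || Nat.beq q2 q1 || imgs.any (fun ij => Nat.beq ij.2 q2) ||
        (inM24 (tget CT 120 (24 * q1 + q2)) &&
          imgs.all (fun ij => Nat.beq (tget (tget CT 120 (24 * q1 + q2)) 5 ij.2) ij.1) &&
          Nat.beq (tget (tget CT 120 (24 * q1 + q2)) 5 q1) u1 &&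
          Nat.beq (tget (tget CT 120 (24 * q1 + q2)) 5 q2) u2 && post (24 * q1 + q2))))

theorem not_img {t : Equiv.Perm GolayPt} {imgs : List (ℕ × ℕ)} (hm : Maps t imgs) {u : ℕ}
    (hu24 : u < 24) {ij : ℕ × ℕ} (hij : ij ∈ imgs) (h1 : ij.1 < 24) (h2 : ij.1 ≠ u) :
    Nat.beq ij.2 (idx (t (pt u))) = false := by
  cases e : Nat.beq ij.2 (idx (t (pt u)))
  · rfl
  · exfalso
    have e' := Nat.eq_of_beq_eq_true e
    have h5 : t (pt ij.1) = t (pt u) := by rw [hm ij hij, e', pt_idx]
    exact h2 (pt_inj h1 hu24 (t.injective h5))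

theorem beq_false_ne {a b : ℕ} (h : (!Nat.beq a b) = true) : a ≠ b := by
  intro e
  rw [e, Nat.beq_refl] at h
  exact absurd h (by decide)

theorem cand2_spec {t : Equiv.Perm GolayPt} (ht : t ∈ M24) {imgs : List (ℕ × ℕ)}
    {u1 R1 u2 R2 CT : ℕ} {post : ℕ → Bool} (hm : Maps t imgs) (h1 : t (pt u1) ∈ fsOf R1)
    (h2 : t (pt u2) ∈ fsOf R2) (hc : cand2B imgs u1 R1 u2 R2 CT post = true) :
    ∃ k, inM24 (tget CT 120 k) = true ∧ t = gperm (tget CT 120 k) ∧ post k = true := by
  unfold cand2B at hc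
  rw [Bool.and_eq_true, Bool.and_eq_true, Bool.and_eq_true, Bool.and_eq_true, Bool.and_eq_true,
    Nat.blt_eq, Nat.blt_eq] at hc
  obtain ⟨⟨⟨⟨⟨hbase, himgs⟩, hu1⟩, hu2⟩, hne⟩, hall⟩ := hc
  have hne' : u1 ≠ u2 := beq_false_ne hne
  rw [List.all_eq_true] at hbase himgs
  have himgs' : ∀ ij ∈ imgs, ij.2 < 24 ∧ ij.1 ≠ u1 ∧ ij.1 ≠ u2 ∧ ij.1 < 24 := by
    intro ij hij
    have h3 := himgs ij hij
    rw [Bool.and_eq_true, Bool.and_eq_true, Bool.and_eq_true, Nat.blt_eq, Nat.blt_eq] at h3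
    exact ⟨h3.1.1.1, beq_false_ne h3.1.1.2, beq_false_ne h3.1.2, h3.2⟩
  have hR1 : R1.testBit (idx (t (pt u1))) = true := (mem_setOf _ _).mp h1
  have hR2 : R2.testBit (idx (t (pt u2))) = true := (mem_setOf _ _).mp h2
  have hn1 : (imgs.any fun ij => Nat.beq ij.2 (idx (t (pt u1)))) = false := by
    rw [List.any_eq_false]
    intro ij hij
    rw [not_img hm hu1 hij (himgs' ij hij).2.2.2 (himgs' ij hij).2.1]
    exact Bool.false_ne_true
  have hn2 : (imgs.any fun ij => Nat.beq ij.2 (idx (t (pt u2)))) = false := by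
    rw [List.any_eq_false]
    intro ij hij
    rw [not_img hm hu2 hij (himgs' ij hij).2.2.2 (himgs' ij hij).2.2.1]
    exact Bool.false_ne_true
  have hq : Nat.beq (idx (t (pt u2))) (idx (t (pt u1))) = false := by
    cases e : Nat.beq (idx (t (pt u2))) (idx (t (pt u1)))
    · rfl
    · exfalso
      have e' := idx_injective (Nat.eq_of_beq_eq_true e)
      exact hne' (pt_inj hu1 hu2 (t.injective e'.symm))
  have h3 := (allB_iff _ _).mp hall _ (idx_lt (t (pt u1)))
  rw [hR1, hn1, Bool.not_true, Bool.false_or, Bool.false_or] at h3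
  have h4 := (allB_iff _ _).mp h3 _ (idx_lt (t (pt u2)))
  rw [hR2, hq, hn2, Bool.not_true, Bool.false_or, Bool.false_or, Bool.false_or,
    Bool.and_eq_true, Bool.and_eq_true, Bool.and_eq_true, Bool.and_eq_true] at h4
  obtain ⟨⟨⟨⟨hM, hag⟩, hq1⟩, hq2⟩, hpost⟩ := h4
  rw [List.all_eq_true] at hag
  refine ⟨_, hM, ?_, hpost⟩
  have hv := inM24_valid hM
  have key : (gperm (tget CT 120 (24 * idx (t (pt u1)) + idx (t (pt u2)))))⁻¹ * t = 1 := by
    refine rigid_base (M24.mul_mem (M24.inv_mem (gperm_mem_M24 hM)) ht) ?_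
    intro b hb
    have h5 := hbase b hb
    rw [Bool.or_eq_true, Bool.or_eq_true] at h5
    rcases h5 with (h5 | h5) | h5
    · have e := Nat.eq_of_beq_eq_true h5
      show (gperm (tget CT 120 (24 * idx (t (pt u1)) + idx (t (pt u2)))))⁻¹ (t (pt b)) = pt b
      rw [e, gperm_inv_apply hv, Nat.eq_of_beq_eq_true hq1]
    · have e := Nat.eq_of_beq_eq_true h5
      show (gperm (tget CT 120 (24 * idx (t (pt u1)) + idx (t (pt u2)))))⁻¹ (t (pt b)) = pt b
      rw [e, gperm_inv_apply hv, Nat.eq_of_beq_eq_true hq2]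
    · obtain ⟨ij, hij, e⟩ := List.any_eq_true.mp h5
      have e' := Nat.eq_of_beq_eq_true e
      show (gperm (tget CT 120 (24 * idx (t (pt u1)) + idx (t (pt u2)))))⁻¹ (t (pt b)) = pt b
      rw [← e', hm ij hij, gperm_inv_pt hv (himgs' ij hij).1, Nat.eq_of_beq_eq_true (hag ij hij)]
  rw [← mul_one (gperm (tget CT 120 (24 * idx (t (pt u1)) + idx (t (pt u2))))), ← key,
    mul_inv_cancel_left]

/-! ### conjugacy to one of two representatives -/

/-- a candidate with the property `ok` is conjugate, by lane `q` of `DT`, to `CA` or to `CB` -/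
noncomputable def postB (ok : ℕ → Bool) (CT DT CA CB : ℕ) (q : ℕ) : Bool :=
  !ok (tget CT 120 q) || (inM24 (tget DT 120 q) &&
    (conjB (tget DT 120 q) (tget CT 120 q) CA || conjB (tget DT 120 q) (tget CT 120 q) CB))

theorem finish {t g : Equiv.Perm GolayPt} (hg : g ∈ M24) {ok : ℕ → Bool}
    {CT DT CA CB q : ℕ} (hCA : validT CA = true) (hCB : validT CB = true)
    (hM : inM24 (tget CT 120 q) = true) (e : g * t * g⁻¹ = gperm (tget CT 120 q))
    (hok : ok (tget CT 120 q) = true) (hpost : postB ok CT DT CA CB q = true) :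
    (∃ d ∈ M24, d * t * d⁻¹ = gperm CA) ∨ (∃ d ∈ M24, d * t * d⁻¹ = gperm CB) := by
  unfold postB at hpost
  rw [hok, Bool.not_true, Bool.false_or, Bool.and_eq_true, Bool.or_eq_true] at hpost
  obtain ⟨hD, hcj⟩ := hpost
  have hmem : gperm (tget DT 120 q) * g ∈ M24 := M24.mul_mem (gperm_mem_M24 hD) hg
  have e2 : ∀ X : Equiv.Perm GolayPt, gperm (tget DT 120 q) * gperm (tget CT 120 q) *
      (gperm (tget DT 120 q))⁻¹ = X →
      (gperm (tget DT 120 q) * g) * t * (gperm (tget DT 120 q) * g)⁻¹ = X := by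
    intro X hX
    rw [← hX, ← e]
    group
  rcases hcj with hcj | hcj
  · exact Or.inl ⟨_, hmem, e2 _ (conj_of_conjB (inM24_valid hD) (inM24_valid hM) hCA hcj)⟩
  · exact Or.inr ⟨_, hmem, e2 _ (conj_of_conjB (inM24_valid hD) (inM24_valid hM) hCB hcj)⟩

/-- the table is an involution -/
noncomputable def ok2 (C : ℕ) : Bool := invB C && !idB C

theorem ok2_of {C : ℕ} (hv : validT C = true) (h1 : gperm C * gperm C = 1) (h2 : gperm C ≠ 1) :
    ok2 C = true := by
  unfold ok2
  rw [invB_of_sq hv h1]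
  cases h : idB C
  · rfl
  · exact absurd (gperm_eq_one_of_idB hv h) h2

/-- the table has order 3 -/
noncomputable def ok3 (C : ℕ) : Bool := cubeB C && !idB C

theorem ok3_of {C : ℕ} (hv : validT C = true) (h1 : gperm C * gperm C * gperm C = 1)
    (h2 : gperm C ≠ 1) : ok3 C = true := by
  unfold ok3
  rw [cubeB_of_cube hv h1]
  cases h : idB C
  · rfl
  · exact absurd (gperm_eq_one_of_idB hv h) h2

theorem exists_notMem (S : Finset GolayPt) (h : S.card < 24) : ∃ e, e ∉ S := by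
  by_contra hcon
  simp only [not_exists, not_not] at hcon
  have : S = Finset.univ := Finset.eq_univ_iff_forall.mpr hcon
  rw [this, Finset.card_univ] at h
  have h24 : Fintype.card GolayPt = 24 := by decide
  omega

end Cfsg.Agent.Lib.Helper93.NForm
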