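import Cfsg.Agent.Lib.Helper75.NDStmt
import Cfsg.Agent.Lib.Helper16.QuotDefect
import Cfsg.Agent.Lib.Helper16.MinMax
import Cfsg.Agent.Lib.Helper16.Defect
import Cfsg.Agent.S4653

/-!
# S4890 piece DG (helper93)

The image of the normal defect group `D` of `B` in `G ⧸ ⁅D, D⁆` is a defect group of the quotient
block.
-/

set_option autoImplicit false

namespace Cfsg.Agent.Lib.Helper93.NdDG

open Cfsg Cfsg.Agent.Lib.Helper75.NDStmt Cfsg.Agent.Lib.Helper16.MinMax
  Cfsg.Agent.Lib.Helper16.Defect Cfsg.Agent.Lib.Helper16.QuotDefect Cfsg.Agent.Lib.Helper33.Conj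

universe u

/-- A normal `p`-subgroup lies in every defect group of every block. -/
theorem normal_le_defectGroup {H : Type u} [Group H] [Finite H] (p : ℕ) [Fact p.Prime]
    (M : Ideal AlgInt) (hM : IsPModular p M) (Bq : Set (IrrCharacter H)) (hBq : IsPBlock M Bq)
    (P : Subgroup H) [hPn : P.Normal] (hP : IsPGroup p P) (D1 : Subgroup H)
    (hD1 : IsDefectGroup p M Bq D1) : P ≤ D1 := by
  classical
  have : Fintype H := Fintype.ofFinite H
  obtain ⟨g, hg, hSyl⟩ := isDefectGroup_iff.1 hD1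
  have hgc : g ∈ Subgroup.centralizer (P : Set H) := by
    by_contra hgn
    have h0 := Cfsg.Agent.S4653.result p M hM P hP Bq hBq g hgn
    apply hg.2.1
    rw [h0]
    exact ⟨0, 1, M.zero_mem, (Ideal.ne_top_iff_one M).1 hM.2.1.ne_top, by simp⟩
  have hPc : P ≤ Subgroup.centralizer ({g} : Set H) := by
    intro x hx
    rw [Subgroup.mem_centralizer_iff]
    intro y hy
    rw [Set.mem_singleton_iff] at hy
    subst hy
    rw [Subgroup.mem_centralizer_iff] at hgc
    exact (hgc x hx).symm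
  obtain ⟨t, -, ht⟩ := hSyl.exists_cj_le hPc hP
  intro x hx
  apply ht
  rw [mem_cj]
  have h := hPn.conj_mem x hx t⁻¹
  simpa using h

theorem main (hQB : QB.{u}) : DG.{u} := by
  intro G _ _ p _ M hM B hB D _ hD
  classical
  have hDp : IsPGroup p D := IsPGroup.of_card (card_defectGroup p hM B hB D hD)
  have hQ : IsPBlock M (quotBlock D B) := hQB G p M hM D hDp B hB
  obtain ⟨D1, hD1⟩ := exists_defectGroup hM (quotBlock D B) hQ
  have hsub : ∀ χ ∈ quotBlock D B, ∀ ψ : IrrCharacter G,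
      (ψ : G → ℂ) = (χ : G ⧸ ⁅D, D⁆ → ℂ) ∘ QuotientGroup.mk → ψ ∈ B := by
    rintro χ ⟨χ0, hχ0, hχ0e⟩ ψ hψ
    have e : ψ = χ0 := Subtype.ext (hψ.trans hχ0e.symm)
    rw [e]
    exact hχ0
  obtain ⟨P, hP, hle⟩ :=
    exists_defectGroup_quot p hM ⁅D, D⁆ (quotBlock D B) hQ B hB hsub D1 hD1
  obtain ⟨x, hx⟩ := defectGroup_conj hM B hB hD hP
  have hPD : P = D := by
    rw [hx]
    exact cj_eq_of_mem_normalizer (by rw [Subgroup.normalizer_eq_top]; trivial)
  rw [hPD] at hle
  have : (Dbar D).Normal :=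
    Subgroup.Normal.map inferInstance _ (QuotientGroup.mk'_surjective _)
  have hge : Dbar D ≤ D1 :=
    normal_le_defectGroup p M hM (quotBlock D B) hQ (Dbar D) (hDp.map _) D1 hD1
  have e : D1 = Dbar D := le_antisymm hle hge
  rw [← e]
  exact hD1

end Cfsg.Agent.Lib.Helper93.NdDG
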