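import Mathlib
import Cfsg.Agent.Lib.Helper17.FixCount
import Cfsg.Agent.Lib.Helper17.Sylow2

/-!
Tools for the "no simple group of order N" arguments: elements of order prime to
`|N(P) : C(P)|` in `N(P)` centralize `P`; uniqueness of a Sylow subgroup of a group with a
large central subgroup; a bound for the number of conjugates of an element of prime order
inside `N(P)`.
-/

set_option autoImplicit false

namespace Cfsg.Agent.Lib.Helper93.OrdTools

open Subgroup MulAction
open Cfsg.Agent.Lib.Helper17.Sylow Cfsg.Agent.Lib.Helper17.Sylow2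

/-- An element `s` of `N(H)` with `s ^ q = 1`, where `q` is prime to `|N(H) : C(H)|`,
centralizes `H`. -/
theorem mem_centralizer_of_pow_eq_one {G : Type*} [Group G] [Finite G] (H : Subgroup G) (s : G)
    (q r : ℕ) (hsN : s ∈ normalizer (H : Set G)) (hs : s ^ q = 1)
    (hr : Nat.card (centralizer (H : Set G)) * r = Nat.card (normalizer (H : Set G)))
    (hrq : Nat.Coprime r q) : s ∈ centralizer (H : Set G) := by
  have hCN : centralizer (H : Set G) ≤ normalizer (H : Set G) := centralizer_le_normalizer _
  have hnorm : ((centralizer (H : Set G)).subgroupOf (normalizer (H : Set G))).Normal := by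
    constructor
    intro n hn g
    rw [mem_subgroupOf] at hn ⊢
    have := Cfsg.Agent.Lib.Helper17.FixCount.conj_mem_centralizer H g.1 n.1 g.2 hn
    simpa using this
  have hidx : (centralizer (H : Set G)).relIndex (normalizer (H : Set G)) = r := by
    have e := card_mul_relIndex hCN
    have hpos : 0 < Nat.card (centralizer (H : Set G)) := Nat.card_pos
    exact Nat.eq_of_mul_eq_mul_left hpos (e.trans hr.symm)
  have h1 := Subgroup.pow_index_mem
    ((centralizer (H : Set G)).subgroupOf (normalizer (H : Set G)))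
    (⟨s, hsN⟩ : normalizer (H : Set G))
  have h2 : s ^ r ∈ centralizer (H : Set G) := by
    have e : ((centralizer (H : Set G)).subgroupOf (normalizer (H : Set G))).index = r := hidx
    rw [e, mem_subgroupOf] at h1
    simpa using h1
  have hord : orderOf s ∣ q := orderOf_dvd_of_pow_eq_one hs
  have hcop : Nat.Coprime r (orderOf s) := Nat.Coprime.coprime_dvd_right hord hrq
  obtain ⟨m, hm⟩ := exists_pow_eq_self_of_coprime hcop
  rw [← hm]
  exact pow_mem h2 m

/-- A group `C` with a central subgroup `P` and a Sylow `q`-subgroup `Q` of coprime orders,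
with `|C| = |P| |Q| m` and `m ≤ q`, has only one Sylow `q`-subgroup. -/
theorem card_sylow_eq_one_of_central {C : Type*} [Group C] [Finite C] (q : ℕ) [Fact q.Prime]
    (P : Subgroup C) (hP : P ≤ center C) (Q : Sylow q C) (m : ℕ)
    (hcard : Nat.card C = Nat.card P * Nat.card (Q : Subgroup C) * m)
    (hcop : Nat.Coprime (Nat.card P) (Nat.card (Q : Subgroup C))) (hm : m ≤ q) :
    Nat.card (Sylow q C) = 1 := by
  have hn := card_normalizer_mul_card_sylow Q
  have hmod := card_sylow_mod (G := C) q
  have hPN : P ≤ normalizer ((Q : Subgroup C) : Set C) := by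
    intro z hz
    have hzc := mem_center_iff.mp (hP hz)
    rw [mem_normalizer_iff]
    intro g
    have e : z * g * z⁻¹ = g := by rw [← hzc g, mul_inv_cancel_right]
    rw [e]
  have hQN : (Q : Subgroup C) ≤ normalizer ((Q : Subgroup C) : Set C) := le_normalizer
  have d1 := card_dvd_of_le hPN
  have d2 := card_dvd_of_le hQN
  have d3 : Nat.card P * Nat.card (Q : Subgroup C) ∣
      Nat.card (normalizer ((Q : Subgroup C) : Set C)) := hcop.mul_dvd_of_dvd_of_dvd d1 d2
  obtain ⟨d, hd⟩ := d3
  rw [hd, hcard] at hn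
  have hpos : 0 < Nat.card P * Nat.card (Q : Subgroup C) := Nat.mul_pos Nat.card_pos Nat.card_pos
  have h3 : d * Nat.card (Sylow q C) = m := by
    apply Nat.eq_of_mul_eq_mul_left hpos
    rw [← mul_assoc]; exact hn
  have hm0 : m ≠ 0 := by
    rintro rfl
    rw [mul_zero] at hcard
    exact (Nat.card_pos (α := C)).ne' hcard
  have hle : Nat.card (Sylow q C) ≤ m :=
    Nat.le_of_dvd (Nat.pos_of_ne_zero hm0) (Dvd.intro_left _ h3)
  have hnq : Nat.card (Sylow q C) ≤ q := hle.trans hm
  have hdm := Nat.div_add_mod (Nat.card (Sylow q C)) q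
  rw [hmod] at hdm
  rcases Nat.eq_zero_or_pos (Nat.card (Sylow q C) / q) with h0 | h0
  · rw [h0, mul_zero, zero_add] at hdm; exact hdm.symm
  · have : q * 1 ≤ q * (Nat.card (Sylow q C) / q) := Nat.mul_le_mul_left q h0
    omega

/-- If there is only one Sylow `q`-subgroup, it contains every `x` with `x ^ q = 1`. -/
theorem mem_sylow_of_unique {C : Type*} [Group C] [Finite C] (q : ℕ) [Fact q.Prime]
    (Q : Sylow q C) (h1 : Nat.card (Sylow q C) = 1) (x : C) (hx : x ^ q = 1) :
    x ∈ (Q : Subgroup C) := by
  have hxp : IsPGroup q (zpowers x) := by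
    intro g
    refine ⟨1, ?_⟩
    obtain ⟨g, hg⟩ := g
    obtain ⟨i, rfl⟩ := Subgroup.mem_zpowers_iff.mp hg
    apply Subtype.ext
    simp only [pow_one, Subgroup.coe_pow, Subgroup.coe_one]
    rw [← zpow_natCast, ← zpow_mul, mul_comm, zpow_mul, zpow_natCast, hx, one_zpow]
  obtain ⟨Q', hQ'⟩ := hxp.exists_le_sylow
  have hsub : Subsingleton (Sylow q C) := (Finite.card_le_one_iff_subsingleton).mp h1.le
  have e : Q' = Q := Subsingleton.elim _ _
  rw [← e]; exact hQ' (mem_zpowers x)

/-- The number of conjugates in `N(P)` of an element `u` with `u ^ q = 1` is at most the order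
`q ^ a` of a Sylow `q`-subgroup of `C(P)`, provided `P` is abelian, `q` is prime to
`|N(P) : C(P)|` and `|C(P)| = |P| q ^ a m` with `q ∤ |P|`, `q ∤ m`, `m ≤ q`. -/
theorem conj_count_le {G : Type*} [Group G] [Finite G] (P : Subgroup G) (q : ℕ) [Fact q.Prime]
    (u : G) (hu : u ^ q = 1) (r a m : ℕ)
    (hr : Nat.card (centralizer (P : Set G)) * r = Nat.card (normalizer (P : Set G)))
    (hrq : Nat.Coprime r q) (hPc : P ≤ centralizer (P : Set G))
    (hC : Nat.card (centralizer (P : Set G)) = Nat.card P * q ^ a * m)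
    (hPq : ¬ q ∣ Nat.card P) (hmq : ¬ q ∣ m) (hm : m ≤ q) :
    {s : G | s ∈ normalizer (P : Set G) ∧ ∃ g : G, g * u * g⁻¹ = s}.ncard ≤ q ^ a := by
  have hqp : q.Prime := Fact.out
  obtain ⟨Q⟩ : Nonempty (Sylow q (centralizer (P : Set G))) := inferInstance
  have hQ : Nat.card (Q : Subgroup (centralizer (P : Set G))) = q ^ a := by
    refine card_sylow_subgroup (k := a) (m := Nat.card P * m) ?_ ?_ Q
    · rw [hC]; ring
    · intro h
      rcases (Nat.Prime.dvd_mul hqp).mp h with h | h
      · exact hPq h
      · exact hmq h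
  have hP' : P.subgroupOf (centralizer (P : Set G)) ≤ center (centralizer (P : Set G)) := by
    intro z hz
    rw [mem_subgroupOf] at hz
    rw [mem_center_iff]
    intro g
    apply Subtype.ext
    have := (mem_centralizer_iff.mp g.2) z.1 hz
    simpa using this.symm
  have hP'card : Nat.card (P.subgroupOf (centralizer (P : Set G))) = Nat.card P :=
    Nat.card_congr (subgroupOfEquivOfLe hPc).toEquiv
  have h1 : Nat.card (Sylow q (centralizer (P : Set G))) = 1 := by
    apply card_sylow_eq_one_of_central q (P.subgroupOf (centralizer (P : Set G))) hP' Q m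
    · rw [hP'card, hQ]; exact hC
    · rw [hP'card, hQ]
      exact Nat.Coprime.pow_right a ((Nat.Prime.coprime_iff_not_dvd hqp).mpr hPq).symm
    · exact hm
  have hsub : {s : G | s ∈ normalizer (P : Set G) ∧ ∃ g : G, g * u * g⁻¹ = s} ⊆
      Subtype.val '' ((Q : Subgroup (centralizer (P : Set G))) : Set (centralizer (P : Set G))) := by
    rintro s ⟨hsN, g, rfl⟩
    have hsq : (g * u * g⁻¹) ^ q = 1 := by
      rw [conj_pow, hu]; group
    have hsC : g * u * g⁻¹ ∈ centralizer (P : Set G) :=
      mem_centralizer_of_pow_eq_one P _ q r hsN hsq hr hrq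
    refine ⟨⟨_, hsC⟩, ?_, rfl⟩
    apply mem_sylow_of_unique q Q h1
    apply Subtype.ext
    simpa using hsq
  have h2 := Set.ncard_le_ncard hsub (Set.toFinite _)
  have h3 : (Subtype.val ''
      ((Q : Subgroup (centralizer (P : Set G))) : Set (centralizer (P : Set G)))).ncard = q ^ a := by
    rw [Set.ncard_image_of_injective _ Subtype.val_injective, ← hQ, ← Nat.card_coe_set_eq]; rfl
  rw [h3] at h2
  exact h2

end Cfsg.Agent.Lib.Helper93.OrdTools
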