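import Mathlib
import Cfsg.Agent.Lib.Helper17.CentFix
import Cfsg.Agent.Lib.Helper17.FixedPoints
import Cfsg.Agent.Lib.Helper17.FixCount
import Cfsg.Agent.Lib.Helper93.OrdTools

set_option autoImplicit false

namespace Cfsg.Agent.Lib.Helper93.O5940

open Subgroup MulAction
open Cfsg.Agent.Lib.Helper17.Sylow Cfsg.Agent.Lib.Helper17.Sylow2
open Cfsg.Agent.Lib.Helper17.CentFix Cfsg.Agent.Lib.Helper17.Commuting
open Cfsg.Agent.Lib.Helper17.FixedPoints
open Cfsg.Agent.Lib.Helper93.OrdTools

theorem key11 : ∀ n ∈ Nat.divisors 540, n % 11 = 1 → n ≠ 1 → n = 12 ∨ n = 45 ∨ n = 540 := by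
  decide +kernel

theorem keyr10 : ∀ r ∈ Nat.divisors 10, r = 1 ∨ r = 2 ∨ r = 5 ∨ r = 10 := by
  decide

/-- No finite simple group has order 5940 = 2^2 * 3^3 * 5 * 11. -/
theorem no_simple {G : Type*} [Group G] [Finite G] [IsSimpleGroup G] : Nat.card G ≠ 5940 := by
  intro h
  have hG : ¬ IsMulCommutative G := not_comm_of_not_prime (by rw [h]; norm_num)
  have : Fact (Nat.Prime 11) := ⟨by norm_num⟩
  have : Fact (Nat.Prime 3) := ⟨by norm_num⟩
  have h11 : 11 ∣ Nat.card G := by rw [h]; norm_num
  have hd : Nat.card (Sylow 11 G) ∣ 540 :=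
    card_sylow_dvd (k := 1) (h.trans (by norm_num)) (by norm_num)
  have hm := card_sylow_mod (G := G) 11
  have hne := card_sylow_ne_one hG h11
  obtain ⟨P⟩ : Nonempty (Sylow 11 G) := inferInstance
  have hP : Nat.card (P : Subgroup G) = 11 := by
    simpa using card_sylow_subgroup (k := 1) (m := 540) (h.trans (by norm_num)) (by norm_num) P
  have hNn := card_normalizer_mul_card_sylow P
  rw [h] at hNn
  have hidx : (normalizer ((P : Subgroup G) : Set G)).index = Nat.card (Sylow 11 G) :=
    (P.card_eq_index_normalizer).symm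
  obtain ⟨r, hr1, hr10, hCr, hC11⟩ := sylow_prime_centralizer hG P hP
  have hr := keyr10 r (Nat.mem_divisors.mpr ⟨hr10, by norm_num⟩)
  rcases key11 _ (Nat.mem_divisors.mpr ⟨hd, by norm_num⟩) hm hne with hn | hn | hn
  · -- n = 12, |N| = 495, 3 ∣ |C|
    rw [hn] at hNn
    have hC3 : 3 ∣ Nat.card (centralizer ((P : Subgroup G) : Set G)) := by
      rcases hr with rfl | rfl | rfl | rfl <;> omega
    obtain ⟨u, huC, hu⟩ :=
      exists_mem_orderOf_eq_prime (centralizer ((P : Subgroup G) : Set G)) 3 hC3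
    have h1 := card_fixedBy_mod_of_mem_centralizer P hP u huC
    have hu3 : u ^ (3 ^ 1) = 1 := by rw [pow_one, ← hu]; exact pow_orderOf_eq_one u
    have h2 := card_modEq_card_fixedBy
      (X := G ⧸ normalizer ((P : Subgroup G) : Set G)) u hu3
    have hu1 : u ≠ 1 := by
      rintro rfl
      rw [orderOf_one] at hu
      omega
    have h3 := card_fixedBy_lt_index _ (normalizer_sylow_ne_top hG h11 P) u hu1
    have hX : Nat.card (G ⧸ normalizer ((P : Subgroup G) : Set G)) = 12 := hidx.trans hn
    rw [hidx, hn] at h3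
    rw [hX, Nat.ModEq] at h2
    omega
  · -- n = 45, |N| = 132, r = 2, |C| = 66
    rw [hn] at hNn
    have hN132 : Nat.card (normalizer ((P : Subgroup G) : Set G)) = 132 := by omega
    have hr2 : r = 2 ∧ Nat.card (centralizer ((P : Subgroup G) : Set G)) = 66 := by
      rcases hr with rfl | rfl | rfl | rfl <;> omega
    obtain ⟨rfl, hC66⟩ := hr2
    obtain ⟨u, huC, hu⟩ :=
      exists_mem_orderOf_eq_prime (centralizer ((P : Subgroup G) : Set G)) 3
        (by rw [hC66]; norm_num)
    have h1 := card_fixedBy_mod_of_mem_centralizer P hP u huC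
    have hu3' : u ^ 3 = 1 := by rw [← hu]; exact pow_orderOf_eq_one u
    have hu3 : u ^ (3 ^ 1) = 1 := by rw [pow_one]; exact hu3'
    have h2 := card_modEq_card_fixedBy
      (X := G ⧸ normalizer ((P : Subgroup G) : Set G)) u hu3
    have hu1 : u ≠ 1 := by
      rintro rfl
      rw [orderOf_one] at hu
      omega
    have h3 := card_fixedBy_lt_index _ (normalizer_sylow_ne_top hG h11 P) u hu1
    have hX : Nat.card (G ⧸ normalizer ((P : Subgroup G) : Set G)) = 45 := hidx.trans hn
    rw [hidx, hn] at h3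
    rw [hX, Nat.ModEq] at h2
    have hF : Nat.card (fixedBy (G ⧸ normalizer ((P : Subgroup G) : Set G)) u) = 12 := by omega
    have hfc := Cfsg.Agent.Lib.Helper17.FixCount.card_mul_card_fixedBy
      (normalizer ((P : Subgroup G) : Set G)) u
    rw [hN132, hF] at hfc
    have hk := conj_count_le (P : Subgroup G) 3 u hu3' 2 1 2 hCr (by norm_num)
      (le_centralizer_of_card_prime (P : Subgroup G) hP) (by rw [hC66, hP]; norm_num)
      (by rw [hP]; norm_num) (by norm_num) (by norm_num)
    have hcG : Nat.card (centralizer ({u} : Set G)) ∣ 5940 := by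
      rw [← h]; exact Subgroup.card_subgroup_dvd_card _
    obtain ⟨d, hd⟩ := hcG
    generalize Nat.card (centralizer ({u} : Set G)) = c at hfc hd
    generalize {s : G | s ∈ normalizer ((P : Subgroup G) : Set G) ∧
      ∃ g : G, g * u * g⁻¹ = s}.ncard = k at hfc hk
    simp only [pow_one] at hk
    have hc : c = 1584 ∨ c = 792 ∨ c = 528 := by interval_cases k <;> omega
    rcases hc with rfl | rfl | rfl <;> omega
  · -- n = 540, |N| = 11
    rw [hn] at hNn
    rcases hr with rfl | rfl | rfl | rfl <;> omega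

end Cfsg.Agent.Lib.Helper93.O5940
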