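import Cfsg.Agent.Lib.Helper88.ORStmt
import Cfsg.Agent.H85.ResLimit
import Cfsg.Agent.S5120
import Cfsg.Agent.S5199

/-!
# S5202 / S5201 piece PSTEP (helper93): the `p`-step (assembly)

`S'' = {x ∈ S' | c_x on T lies in Γ}`, `F''` = the saturated subsystem of `p`-power index of `F'`
over `S''`.
-/

set_option autoImplicit false

namespace Cfsg.Agent.Lib.Helper93.ORPSTEP

open Cfsg Cfsg.FusionSystem Cfsg.Agent.Lib.Helper88.ORStmt

universe u

/-- The subgroup `{x ∈ S' | c_x on T lies in Γ}`. -/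
def preSub {Ω : Type u} [Group Ω] (T S' : Subgroup Ω) (Γ : Subgroup (MulAut T)) : Subgroup Ω where
  carrier := {x | x ∈ S' ∧ ∃ g ∈ Γ, ConjOn T g x}
  mul_mem' := by
    rintro x y ⟨hx, g, hg, cg⟩ ⟨hy, h, hh, ch⟩
    refine ⟨S'.mul_mem hx hy, g * h, Γ.mul_mem hg hh, fun t => ?_⟩
    rw [MulAut.mul_apply, cg, ch]
    group
  one_mem' := ⟨S'.one_mem, 1, Γ.one_mem, fun t => by simp⟩
  inv_mem' := by
    rintro x ⟨hx, g, hg, cg⟩
    refine ⟨S'.inv_mem hx, g⁻¹, Γ.inv_mem hg, fun t => ?_⟩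
    have h := cg (g⁻¹ t)
    rw [MulAut.apply_inv_self] at h
    rw [h]
    group

theorem mem_preSub {Ω : Type u} [Group Ω] (T S' : Subgroup Ω) (Γ : Subgroup (MulAut T)) (x : Ω) :
    x ∈ preSub T S' Γ ↔ x ∈ S' ∧ ∃ g ∈ Γ, ConjOn T g x := Iff.rfl

theorem main (hPP : PPEx.{u}) (hSC : StrClosedPre.{u}) (hHYPS : HypAct.{u})
    (hINVP : InvPPower.{u}) (hWNT : WNTrans.{u}) (hNT : NormalTrans.{u}) (hINVE : InvSub.{u})
    (hEXTP : ExtPStep.{u}) (hAUTP : AutPStep.{u}) (hRLEX : RLEx.{u}) : PStep.{u} := by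
  intro Ω _ S _ p _ hS F hF T E hE S' F' hInter Γ hNorm hEΓ hΓ'
  obtain ⟨hF'F, hEF', hTC, hRL⟩ := hInter
  have hF'sat : F'.IsSaturated p := hF'F.1.1
  have hF'inv : F'.IsInvariantIn F := hF'F.1.2.2
  have hF'sub : F'.IsSubsystemOf F := hF'inv.1
  have hS'cl : F.StronglyClosed S' := hF'inv.2.1
  have hS'S : S' ≤ S := hS'cl.1
  have hEsat : E.IsSaturated p := hE.1.1
  have hTcl : F.StronglyClosed T := hE.1.2.2.2.1
  have hTcl' : F'.StronglyClosed T := hEF'.1.2.2.2.1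
  have hTS' : T ≤ S' := hTcl'.1
  have hfinS' : Finite S' :=
    Finite.of_injective (Subgroup.inclusion hS'S) (Subgroup.inclusion_injective hS'S)
  have hS'p : IsPGroup p S' := hS.to_le hS'S
  -- inner automorphisms of `T` lie in `Γ`
  have hInnΓ : ∀ t ∈ T, ∃ g ∈ Γ, ConjOn T g t := by
    intro t ht
    refine ⟨MulAut.conj (⟨t, ht⟩ : T), hEΓ (Subgroup.subset_closure ?_), fun x => rfl⟩
    have h := E.conj_mem (P := T) (g := t) le_rfl ht
    have e : T.subtype.comp (MulAut.conj (⟨t, ht⟩ : T)).toMonoidHom = conjHom T t := by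
      ext x
      rfl
    show T.subtype.comp (MulAut.conj (⟨t, ht⟩ : T)).toMonoidHom ∈ E.Hom T
    rw [e]
    exact h
  -- the subgroup `S''`
  have hS''S' : preSub T S' Γ ≤ S' := fun x hx => hx.1
  have hTS'' : T ≤ preSub T S' Γ := fun t ht => ⟨hTS' ht, hInnΓ t ht⟩
  have hCS'' : centralizerIn S T ≤ preSub T S' Γ := by
    intro c hc
    refine ⟨hTC (Subgroup.mem_sup_right hc), 1, Γ.one_mem, fun t => ?_⟩
    have h2 := (Subgroup.mem_inf.1 hc).2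
    rw [Subgroup.mem_centralizer_iff] at h2
    rw [MulAut.one_apply, ← h2 (t : Ω) t.2, mul_inv_cancel_right]
  have hhyp : F'.hyperfocalSubgroup p ≤ preSub T S' Γ := fun x hx =>
    ⟨Cfsg.Agent.Lib.Helper87.FSHyp.hyperfocal_le F' p hx,
      hHYPS p hS'p F' hF'sat T Γ hTcl' hΓ' hInnΓ x hx⟩
  obtain ⟨F'', hF''sat, hF''idx⟩ := hPP p hS'p F' hF'sat (preSub T S' Γ) hS''S' hhyp
  have hS''cl : F.StronglyClosed (preSub T S' Γ) :=
    hSC p hS F hF T S' (preSub T S' Γ) Γ hTcl hS'cl hTS' hNorm hInnΓ (mem_preSub T S' Γ)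
  have hS''n : ((preSub T S' Γ).subgroupOf S').Normal := by
    refine ⟨fun n hn g => ?_⟩
    rw [Subgroup.mem_subgroupOf] at hn ⊢
    exact hS''cl.2 (preSub T S' Γ) le_rfl (conjHom (preSub T S' Γ) (g : Ω))
      (F.conj_mem hS''cl.1 (hS'S g.2)) ⟨(n : Ω), hn⟩
  have hF''F' : F''.IsNormalIn F' p :=
    Cfsg.Agent.S5120.result p hS'p F' hF'sat (preSub T S' Γ) hS''S' hS''n hhyp F'' hF''sat hF''idx
  have hInv : Cfsg.Agent.H85.InvCond F'' F := hINVP p hS F hF F' F'' hF'F hS''cl hF''sat hF''idx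
  have hWN : F''.IsWeaklyNormalIn F p := hWNT p hS F hF F' F'' hF'F hF''F' hS''cl hInv
  have hcent : centralizerIn S (preSub T S' Γ) ≤ S' := by
    intro c hc
    have h1 := Subgroup.mem_inf.1 hc
    exact hTC (Subgroup.mem_sup_right
      (Subgroup.mem_inf.2 ⟨h1.1, Subgroup.centralizer_le hTS'' h1.2⟩))
  have hF''F : F''.IsNormalIn F p := hNT p F F' F'' hF'sub hWN hF''F' hcent
  have hEsub : E.IsSubsystemOf F'' :=
    Cfsg.Agent.S5199.result p hS'p F' hF'sat E hEF' F'' hF''F' (sup_le hTS'' hhyp) hF''idx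
  have hExt : ExtCl E F'' :=
    hEXTP p hS'p F' hF'sat E F'' hEF' hF''sat hF''idx
      (sup_le hTS'' (fun c hc => hCS'' (Subgroup.mem_inf.2
        ⟨hS'S (Subgroup.mem_inf.1 hc).1, (Subgroup.mem_inf.1 hc).2⟩)))
  have hEF'' : E.IsNormalIn F'' p :=
    ⟨⟨hEsat, hF''sat, hINVE p hS'p F' hF'sat E F'' hEF' hF''sat hF''idx.1 hEsub⟩, hExt⟩
  have hRL'' : RLSame p F'' F := by
    intro U V Xinf Yinf hX hY P
    obtain ⟨U', L, hL⟩ := hRLEX p hS'p F' hF'sat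
    have h1 := Cfsg.Agent.H85.resLimit_ppower p hS'p F' F'' hF''sat hF''idx L hL Xinf hX P
    have h2 := hRL L Yinf hL hY P
    exact h1.symm.trans h2
  exact ⟨preSub T S' Γ, F'', ⟨hF''F, hEF'', sup_le hTS'' hCS'', hRL''⟩,
    hAUTP p hS'p F' hF'sat T F'' Γ hTcl' hTS'' hF''sat hF''idx hΓ' (fun x hx => hx.2)⟩

end Cfsg.Agent.Lib.Helper93.ORPSTEP
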