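import Cfsg.Agent.Lib.Helper93.OrbOct
import Cfsg.Agent.Lib.Helper27.Oct
import Cfsg.Agent.Lib.Helper7.M24Main
import Cfsg.Agent.Lib.Helper7.GolayCount

/-!
Orders of stabilisers in the group of the length-24 code from orbit lengths.
-/

set_option autoImplicit false

namespace Cfsg.Agent.Lib.Helper93.OrbCard

open Cfsg Cfsg.Agent.Lib.Helper27.Bits Cfsg.Agent.Lib.Helper27.Golay Cfsg.Agent.Lib.Helper27.M24
  Cfsg.Agent.Lib.Helper27.Cert Cfsg.Agent.Lib.Helper27.Trans Cfsg.Agent.Lib.Helper27.Fast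
  Cfsg.Agent.Lib.Helper27.Oct
  Cfsg.Agent.Lib.Helper93.Fam Cfsg.Agent.Lib.Helper93.OrbTools Cfsg.Agent.Lib.Helper93.OrbOct
open scoped Pointwise

/-- orbit-stabiliser theorem with `Nat.card` and `Set.ncard` -/
theorem card_stab_mul_ncard_orbit {G : Type*} [Group G] {X : Type*} [MulAction G X]
    (b : X) : Nat.card ↥(MulAction.stabilizer G b) * (MulAction.orbit G b).ncard = Nat.card G := by
  have e := MulAction.orbitEquivQuotientStabilizer G b
  rw [← Nat.card_coe_set_eq, Nat.card_congr e, mul_comm]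
  exact (Subgroup.card_eq_card_quotient_mul_card_subgroup (MulAction.stabilizer G b)).symm

section

variable {A B : Type*} [MulAction (Equiv.Perm GolayPt) A] [MulAction (Equiv.Perm GolayPt) B]

/-- a class of the invariant on which the stabiliser is transitive is the orbit of each of its
members -/
theorem Orb_eq_class (o : A) (Ω : Set B) (inv : B → ℕ)
    (hinv : ∀ g ∈ M24, g • o = o → ∀ ω, inv (g • ω) = inv ω)
    (hΩ : ∀ g ∈ M24, ∀ ω ∈ Ω, g • ω ∈ Ω)
    (htr : ∀ ω ∈ Ω, ∀ ω' ∈ Ω, inv ω = inv ω' → ∃ g ∈ M24, g • o = o ∧ g • ω = ω')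
    {X : B} (hX : X ∈ Ω) : Orb o X = {ω | ω ∈ Ω ∧ inv ω = inv X} := by
  ext Y
  constructor
  · rintro ⟨g, hg, ho, rfl⟩
    exact ⟨hΩ g hg X hX, hinv g hg ho X⟩
  · rintro ⟨hY, hYv⟩
    obtain ⟨g, hg, ho, h⟩ := htr X hX Y hY hYv.symm
    exact ⟨g, hg, ho, h⟩

/-- the order of the joint stabiliser of `o` and `X` times the length of the orbit of `X` under
the stabiliser of `o` is the order of the stabiliser of `o` -/
theorem card_inf_mul_ncard_Orb (o : A) (X : B) :
    Nat.card ↥(MulAction.stabilizer ↥M24 o ⊓ MulAction.stabilizer ↥M24 X) * (Orb o X).ncard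
      = Nat.card ↥(MulAction.stabilizer ↥M24 o) := by
  have h2 := card_stab_mul_ncard_orbit (G := ↥(MulAction.stabilizer ↥M24 o)) X
  rw [orbit_eq_Orb] at h2
  have e : MulAction.stabilizer ↥(MulAction.stabilizer ↥M24 o) X =
      (MulAction.stabilizer ↥M24 X).subgroupOf (MulAction.stabilizer ↥M24 o) := by
    ext x
    rfl
  rw [e, ← Subgroup.inf_subgroupOf_left] at h2
  rw [← h2]
  congr 1
  exact Nat.card_congr (Subgroup.subgroupOfEquivOfLe inf_le_left).toEquiv.symm

end

/-- the orbit of an octad under the group of the code is the set of octads -/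
theorem orbit_octad {o : Finset GolayPt} (ho : o ∈ octads) :
    MulAction.orbit ↥M24 o = octads := by
  ext y
  constructor
  · rintro ⟨⟨g, hg⟩, rfl⟩
    exact smul_mem_octads hg ho
  · intro hy
    obtain ⟨g, hg, rfl⟩ := octad_trans o ho
    obtain ⟨g', hg', rfl⟩ := octad_trans y hy
    refine ⟨⟨g' * g⁻¹, M24.mul_mem hg' (M24.inv_mem hg)⟩, ?_⟩
    show (g' * g⁻¹) • g • fsOf m0 = g' • fsOf m0
    rw [mul_smul, inv_smul_smul]

/-- the stabiliser of an octad has order 322560 -/
theorem card_stab_octad {o : Finset GolayPt} (ho : o ∈ octads) :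
    Nat.card ↥(MulAction.stabilizer ↥M24 o) = 322560 := by
  have h := card_stab_mul_ncard_orbit (G := ↥M24) o
  rw [orbit_octad ho, Cfsg.Agent.Lib.Helper7.GolayCount.ncard_octads,
    Cfsg.Agent.Lib.Helper7.M24Main.card_M24] at h
  omega

end Cfsg.Agent.Lib.Helper93.OrbCard
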