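import Cfsg.Agent.Lib.Helper93.Sext
import Cfsg.Agent.Lib.Helper93.Trio

/-!
Glue between word certificates and orbit statements for stabilisers in the group of the
length-24 code acting on octads, trios and sextets.
-/

set_option autoImplicit false

namespace Cfsg.Agent.Lib.Helper93.OrbTools

open Cfsg Cfsg.Agent.Lib.Helper27.Bits Cfsg.Agent.Lib.Helper27.Golay Cfsg.Agent.Lib.Helper27.M24
  Cfsg.Agent.Lib.Helper27.Cert Cfsg.Agent.Lib.Helper27.Trans Cfsg.Agent.Lib.Helper27.Fast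
  Cfsg.Agent.Lib.Helper93.Fam Cfsg.Agent.Lib.Helper93.Sext Cfsg.Agent.Lib.Helper93.Trio
open scoped Pointwise

theorem mem_stabF_single {m : ℕ} {g : Equiv.Perm GolayPt} :
    g ∈ stabF [m] ↔ g ∈ M24 ∧ g • fsOf m = fsOf m := by
  rw [mem_stabF, fam_singleton, Finset.smul_finset_singleton, Finset.singleton_inj]

theorem stabF_le (l : List ℕ) : stabF l ≤ M24 := fun _ hg => hg.1

/-- the invariant against a fixed family is preserved by the stabiliser of that family -/
theorem inv2_stab {g : Equiv.Perm GolayPt} {X : Finset (Finset GolayPt)} (hX : g • X = X)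
    (ω : Finset (Finset GolayPt)) : inv2 X (g • ω) = inv2 X ω := by
  conv_lhs => rw [← hX]
  exact inv2_smul g X ω

theorem inv2_stab_single {g : Equiv.Perm GolayPt} {o : Finset GolayPt} (ho : g • o = o)
    (ω : Finset (Finset GolayPt)) : inv2 {o} (g • ω) = inv2 {o} ω :=
  inv2_stab (by rw [Finset.smul_finset_singleton, ho]) ω

/-- transitivity on the classes of an invariant from word certificates -/
theorem trans_of_cert {Ω : Set (Finset (Finset GolayPt))} {N : ℕ} {cond : ℕ → Bool}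
    {rep : ℕ → List ℕ} (hE : IsEnum Ω N cond rep) (K : Subgroup (Equiv.Perm GolayPt))
    (inv : Finset (Finset GolayPt) → ℕ) (invc : ℕ → ℕ)
    (hinv : ∀ c < N, cond c = true → inv (fam (rep c)) = invc c) (root : ℕ → ℕ)
    (hcert : ∀ c < N, cond c = true → ∃ g ∈ K, g • fam (rep (root (invc c))) = fam (rep c)) :
    ∀ ω ∈ Ω, ∀ ω' ∈ Ω, inv ω = inv ω' → ∃ g ∈ K, g • ω = ω' := by
  intro ω hω ω' hω' h
  obtain ⟨c, hc, hcond, rfl⟩ := hE.surj ω hω
  obtain ⟨c', hc', hcond', rfl⟩ := hE.surj ω' hω'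
  rw [hinv c hc hcond, hinv c' hc' hcond'] at h
  obtain ⟨g, hg, e⟩ := hcert c hc hcond
  obtain ⟨g', hg', e'⟩ := hcert c' hc' hcond'
  refine ⟨g' * g⁻¹, K.mul_mem hg' (K.inv_mem hg), ?_⟩
  rw [mul_smul, ← e, inv_smul_smul, h, e']

/-- the size of a class of the invariant, by counting indices -/
theorem ncard_inv_class {Ω : Set (Finset (Finset GolayPt))} {N : ℕ} {cond : ℕ → Bool}
    {rep : ℕ → List ℕ} (hE : IsEnum Ω N cond rep) (inv : Finset (Finset GolayPt) → ℕ)
    (invc : ℕ → ℕ) (hinv : ∀ c < N, cond c = true → inv (fam (rep c)) = invc c) (v n : ℕ)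
    (h : countB N (fun c => cond c && Nat.beq (invc c) v) = n) :
    {ω | ω ∈ Ω ∧ inv ω = v}.ncard = n := by
  rw [← h]
  apply hE.ncard_filter (fun ω => inv ω = v) (fun c => Nat.beq (invc c) v)
  intro c hc hcond
  rw [hinv c hc hcond]
  exact ⟨fun e => by rw [e]; exact Nat.beq_refl v, Nat.eq_of_beq_eq_true⟩

theorem inv_cases3 {Ω : Set (Finset (Finset GolayPt))} {N : ℕ} {cond : ℕ → Bool}
    {rep : ℕ → List ℕ} (hE : IsEnum Ω N cond rep) (inv : Finset (Finset GolayPt) → ℕ)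
    (invc : ℕ → ℕ) (hinv : ∀ c < N, cond c = true → inv (fam (rep c)) = invc c) (v1 v2 v3 : ℕ)
    (h : allB N (fun c => !cond c ||
      (Nat.beq (invc c) v1 || Nat.beq (invc c) v2 || Nat.beq (invc c) v3)) = true) :
    ∀ ω ∈ Ω, inv ω = v1 ∨ inv ω = v2 ∨ inv ω = v3 := by
  intro ω hω
  obtain ⟨c, hc, hcond, rfl⟩ := hE.surj ω hω
  have h1 := (allB_iff _ _).mp h c hc
  rw [hinv c hc hcond]
  rw [hcond] at h1
  simp only [Bool.not_true, Bool.false_or, Bool.or_eq_true] at h1
  rcases h1 with (h1 | h1) | h1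
  · exact Or.inl (Nat.eq_of_beq_eq_true h1)
  · exact Or.inr (Or.inl (Nat.eq_of_beq_eq_true h1))
  · exact Or.inr (Or.inr (Nat.eq_of_beq_eq_true h1))

theorem inv_cases4 {Ω : Set (Finset (Finset GolayPt))} {N : ℕ} {cond : ℕ → Bool}
    {rep : ℕ → List ℕ} (hE : IsEnum Ω N cond rep) (inv : Finset (Finset GolayPt) → ℕ)
    (invc : ℕ → ℕ) (hinv : ∀ c < N, cond c = true → inv (fam (rep c)) = invc c)
    (v1 v2 v3 v4 : ℕ)
    (h : allB N (fun c => !cond c || (Nat.beq (invc c) v1 || Nat.beq (invc c) v2 ||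
      Nat.beq (invc c) v3 || Nat.beq (invc c) v4)) = true) :
    ∀ ω ∈ Ω, inv ω = v1 ∨ inv ω = v2 ∨ inv ω = v3 ∨ inv ω = v4 := by
  intro ω hω
  obtain ⟨c, hc, hcond, rfl⟩ := hE.surj ω hω
  have h1 := (allB_iff _ _).mp h c hc
  rw [hinv c hc hcond]
  rw [hcond] at h1
  simp only [Bool.not_true, Bool.false_or, Bool.or_eq_true] at h1
  rcases h1 with ((h1 | h1) | h1) | h1
  · exact Or.inl (Nat.eq_of_beq_eq_true h1)
  · exact Or.inr (Or.inl (Nat.eq_of_beq_eq_true h1))
  · exact Or.inr (Or.inr (Or.inl (Nat.eq_of_beq_eq_true h1)))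
  · exact Or.inr (Or.inr (Or.inr (Nat.eq_of_beq_eq_true h1)))

/-! ### sextets -/

theorem sext_smul_eq {g : Equiv.Perm GolayPt} (hg : g ∈ M24) {c c' : ℕ} (hc : c < 1771)
    (hc' : c' < 1771) (h : g • fsOf (tet c 0) ∈ fam (sextRep c')) :
    g • fam (sextRep c) = fam (sextRep c') :=
  sextet_unique (smul_mem_sextets hg (sextRep_mem hc)) (sextRep_mem hc')
    (Finset.smul_mem_smul_finset (tet0_mem c)) h

/-- word certificates for sextets (the first tetrad of the root is carried into the target) -/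
theorem sext_hcert {K : Subgroup (Equiv.Perm GolayPt)} (hK : K ≤ M24) {G : ℕ}
    (hG : ∀ d < 16, validT (tget G 120 d) = true ∧ gperm (tget G 120 d) ∈ K)
    {n W ww : ℕ} {root : ℕ → ℕ} (hroot : ∀ v, root v < 1771) {invc : ℕ → ℕ}
    (h : certS G n 1771 W ww (fun c => c) (fun c => [tet (root (invc c)) 0]) sextRep
      (fun _ => true) = true) :
    ∀ c < 1771, (fun _ : ℕ => true) c = true →
      ∃ g ∈ K, g • fam (sextRep (root (invc c))) = fam (sextRep c) := by
  intro c hc _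
  obtain ⟨g, hg, hm⟩ := certS_spec hG h c hc rfl
  exact ⟨g, hg, sext_smul_eq (hK hg) (hroot _) hc (hm _ (by simp))⟩

theorem sext_inv (lX : List ℕ) (hX : (lX.map fsOf).Nodup) :
    ∀ c < 1771, (fun _ : ℕ => true) c = true →
      inv2 (fam lX) (fam (sextRep c)) = invL lX (sextRep c) :=
  fun c hc _ => inv2_fam lX (sextRep c) hX (sextRep_nodup hc)

/-! ### trios -/

theorem trio_smul_eq {g : Equiv.Perm GolayPt} (hg : g ∈ M24) {c c' : ℕ} (hc : c < 3795)
    (hc' : c' < 3795) (h0 : g • fsOf (tri c 0) ∈ fam (trioRep c'))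
    (h1 : g • fsOf (tri c 1) ∈ fam (trioRep c')) :
    g • fam (trioRep c) = fam (trioRep c') := by
  have m0 : fsOf (tri c 0) ∈ fam (trioRep c) := fsOf_mem_fam (by simp [trioRep])
  have m1 : fsOf (tri c 1) ∈ fam (trioRep c) := fsOf_mem_fam (by simp [trioRep])
  have hne : g • fsOf (tri c 0) ≠ g • fsOf (tri c 1) := by
    intro he
    have he' : tri c 0 = tri c 1 :=
      setOf_injOn (tget_lt _ _ _) (tget_lt _ _ _) (MulAction.injective g he)
    have := (trioRep_spec hc).2.2.1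
    omega
  exact trio_unique2 (smul_mem_trios hg (trioRep_mem hc)) (trioRep_mem hc')
    (Finset.smul_mem_smul_finset m0) (Finset.smul_mem_smul_finset m1) h0 h1 hne

/-- word certificates for trios (two octads of the root are carried into the target) -/
theorem trio_hcert {K : Subgroup (Equiv.Perm GolayPt)} (hK : K ≤ M24) {G : ℕ}
    (hG : ∀ d < 16, validT (tget G 120 d) = true ∧ gperm (tget G 120 d) ∈ K)
    {n W ww : ℕ} {root : ℕ → ℕ} (hroot : ∀ v, root v < 3795) {invc : ℕ → ℕ}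
    (h : certS G n 3795 W ww (fun c => c)
      (fun c => [tri (root (invc c)) 0, tri (root (invc c)) 1]) trioRep (fun _ => true) = true) :
    ∀ c < 3795, (fun _ : ℕ => true) c = true →
      ∃ g ∈ K, g • fam (trioRep (root (invc c))) = fam (trioRep c) := by
  intro c hc _
  obtain ⟨g, hg, hm⟩ := certS_spec hG h c hc rfl
  exact ⟨g, hg, trio_smul_eq (hK hg) (hroot _) hc (hm _ (by simp)) (hm _ (by simp))⟩

theorem trio_inv (lX : List ℕ) (hX : (lX.map fsOf).Nodup) :
    ∀ c < 3795, (fun _ : ℕ => true) c = true →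
      inv2 (fam lX) (fam (trioRep c)) = invL lX (trioRep c) :=
  fun c hc _ => inv2_fam lX (trioRep c) hX (trioRep_nodup hc)

end Cfsg.Agent.Lib.Helper93.OrbTools
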