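import Cfsg.Agent.Lib.Helper27.OzStmt

/-!
# S5388 piece KER (helper93)

The kernel of the map from the centraliser of `t` to the orthogonal group is `K ∪ n K`.
-/

set_option autoImplicit false

namespace Cfsg.Agent.Lib.Helper93.OzKER

open Cfsg.Agent.Lib.Helper27.OzStmt

/-- The abstract version (any target group `O` with a subgroup `Om` for which the statement of
`Range` holds). -/
theorem ker_abstract {O : Type*} [Group O] (Om : Subgroup O)
    (hRange : ∀ (G : Type) [Group G] [Finite G] (φ : G →* O),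
      174182400 ≤ Nat.card ↥φ.range → IsPGroup 2 ↥φ.ker → 2 ^ 10 ≤ Nat.card ↥φ.ker →
      ¬ 2 ^ 23 ∣ Nat.card G → φ.range = Om ∧ Nat.card ↥φ.ker = 2 ^ 10)
    (A : Type) [Group A] [Finite A] (t n : A) (K : Subgroup A)
    (φ : ↥(Subgroup.centralizer ({t} : Set A)) →* O)
    (hK : Nat.card ↥K = 2 ^ 9) (hnK : n ∉ K) (hnc : ∀ x : A, n * x = x * n)
    (hKt : ∀ k ∈ K, k * t = t * k)
    (hr : 174182400 ≤ Nat.card ↥φ.range)
    (hsq : ∀ g : ↥(Subgroup.centralizer ({t} : Set A)), φ g = 1 → (g : A) * (g : A) ∈ K)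
    (hKφ : ∀ g : ↥(Subgroup.centralizer ({t} : Set A)), (g : A) ∈ K → φ g = 1)
    (hnφ : ∀ g : ↥(Subgroup.centralizer ({t} : Set A)), (g : A) = n → φ g = 1)
    (hA : ¬ 2 ^ 23 ∣ Nat.card A) :
    φ.range = Om ∧
      ∀ g : ↥(Subgroup.centralizer ({t} : Set A)), φ g = 1 ↔ ((g : A) ∈ K ∨ n * (g : A) ∈ K) := by
  classical
  have : Fact (Nat.Prime 2) := ⟨Nat.prime_two⟩
  have hKC : K ≤ Subgroup.centralizer ({t} : Set A) := by
    intro k hk
    rw [Subgroup.mem_centralizer_iff]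
    intro x hx
    rw [Set.mem_singleton_iff] at hx
    subst hx
    exact (hKt k hk).symm
  have hnC : n ∈ Subgroup.centralizer ({t} : Set A) := by
    rw [Subgroup.mem_centralizer_iff]
    intro x _
    exact (hnc x).symm
  have hn'φ : φ ⟨n, hnC⟩ = 1 := hnφ ⟨n, hnC⟩ rfl
  -- the kernel is a 2-group
  have hp : IsPGroup 2 φ.ker := by
    intro g
    refine ⟨10, ?_⟩
    have h1 : ((g : ↥(Subgroup.centralizer ({t} : Set A))) : A) *
        ((g : ↥(Subgroup.centralizer ({t} : Set A))) : A) ∈ K := hsq g (MonoidHom.mem_ker.1 g.2)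
    have h2 : (⟨_, h1⟩ : K) ^ Nat.card K = 1 := pow_card_eq_one'
    rw [hK] at h2
    have h3 : (((g : ↥(Subgroup.centralizer ({t} : Set A))) : A) *
        ((g : ↥(Subgroup.centralizer ({t} : Set A))) : A)) ^ 2 ^ 9 = 1 := by
      have := congrArg (Subtype.val) h2
      simpa using this
    apply Subtype.ext
    apply Subtype.ext
    simp only [Subgroup.coe_pow, Subgroup.coe_one]
    rw [← h3, ← pow_two, ← pow_mul]
    norm_num
  have hK'card : Nat.card (K.subgroupOf (Subgroup.centralizer ({t} : Set A))) = 2 ^ 9 := by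
    rw [← hK]; exact Nat.card_congr (Subgroup.subgroupOfEquivOfLe hKC).toEquiv
  have hK'le : K.subgroupOf (Subgroup.centralizer ({t} : Set A)) ≤ φ.ker := by
    intro g hg
    rw [MonoidHom.mem_ker]
    exact hKφ g (Subgroup.mem_subgroupOf.1 hg)
  have hn'K : (⟨n, hnC⟩ : ↥(Subgroup.centralizer ({t} : Set A))) ∉
      K.subgroupOf (Subgroup.centralizer ({t} : Set A)) :=
    fun h => hnK (Subgroup.mem_subgroupOf.1 h)
  have hn'ker : (⟨n, hnC⟩ : ↥(Subgroup.centralizer ({t} : Set A))) ∈ φ.ker :=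
    MonoidHom.mem_ker.2 hn'φ
  obtain ⟨a, ha⟩ := hp.exists_card_eq
  have hk10 : 2 ^ 10 ≤ Nat.card φ.ker := by
    by_contra h
    have ha9 : a ≤ 9 := by
      by_contra h9
      exact h (by rw [ha]; exact Nat.pow_le_pow_right (by norm_num) (by omega))
    have : K.subgroupOf (Subgroup.centralizer ({t} : Set A)) = φ.ker :=
      Subgroup.eq_of_le_of_card_ge hK'le
        (by rw [ha, hK'card]; exact Nat.pow_le_pow_right (by norm_num) ha9)
    exact hn'K (this ▸ hn'ker)
  have hC23 : ¬ 2 ^ 23 ∣ Nat.card ↥(Subgroup.centralizer ({t} : Set A)) :=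
    fun h => hA (h.trans (Subgroup.card_subgroup_dvd_card _))
  obtain ⟨hrange, hkc⟩ := hRange _ φ hr hp hk10 hC23
  refine ⟨hrange, fun g => ⟨fun hg => ?_, fun hg => ?_⟩⟩
  · have hHcard : Nat.card ((K.subgroupOf (Subgroup.centralizer ({t} : Set A))).subgroupOf φ.ker)
        = 2 ^ 9 := by
      rw [← hK'card]; exact Nat.card_congr (Subgroup.subgroupOfEquivOfLe hK'le).toEquiv
    have hidx : ((K.subgroupOf (Subgroup.centralizer ({t} : Set A))).subgroupOf φ.ker).index
        = 2 := by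
      have h := Subgroup.card_mul_index
        ((K.subgroupOf (Subgroup.centralizer ({t} : Set A))).subgroupOf φ.ker)
      rw [hHcard, hkc] at h
      exact Nat.eq_of_mul_eq_mul_left (by norm_num : 0 < 2 ^ 9) (by rw [h]; norm_num)
    have key := Subgroup.mul_mem_iff_of_index_two hidx
      (a := (⟨⟨n, hnC⟩, hn'ker⟩ : φ.ker)) (b := (⟨g, MonoidHom.mem_ker.2 hg⟩ : φ.ker))
    by_cases hgK : (g : A) ∈ K
    · exact Or.inl hgK
    · right
      have h1 : (⟨⟨n, hnC⟩, hn'ker⟩ : φ.ker) ∉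
          (K.subgroupOf (Subgroup.centralizer ({t} : Set A))).subgroupOf φ.ker :=
        fun h => hn'K (Subgroup.mem_subgroupOf.1 h)
      have h2 : (⟨g, MonoidHom.mem_ker.2 hg⟩ : φ.ker) ∉
          (K.subgroupOf (Subgroup.centralizer ({t} : Set A))).subgroupOf φ.ker :=
        fun h => hgK (Subgroup.mem_subgroupOf.1 (Subgroup.mem_subgroupOf.1 h))
      have h3 := key.2 ⟨fun h => absurd h h1, fun h => absurd h h2⟩
      exact Subgroup.mem_subgroupOf.1 (Subgroup.mem_subgroupOf.1 h3)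
  · rcases hg with hg | hg
    · exact hKφ g hg
    · have h1 : φ (⟨n, hnC⟩ * g) = 1 := hKφ (⟨n, hnC⟩ * g) hg
      rw [map_mul, hn'φ, one_mul] at h1
      exact h1

theorem main : Ker := by
  intro hRange hO A _ _ t n K φ hK hnK _ hnc hKt hr hsq hKφ hnφ hA
  exact ker_abstract Om8 (hRange hO) A t n K φ hK hnK hnc hKt hr hsq hKφ hnφ hA

end Cfsg.Agent.Lib.Helper93.OzKER
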