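import Cfsg.Agent.Lib.Helper27.OzStmt

/-!
# S5388 piece RANGE (helper93)

A homomorphism to the orthogonal group `O8+(2)` with image of order at least half of the group,
whose kernel is a 2-group of order at least `2 ^ 10`, from a group of order not divisible by
`2 ^ 23`, has image the commutator subgroup and kernel of order `2 ^ 10`.
-/

set_option autoImplicit false

namespace Cfsg.Agent.Lib.Helper93.OzRANGE

open Cfsg.Agent.Lib.Helper27.OzStmt

/-- The abstract counting argument. -/
theorem range_eq_commutator {O : Type*} [Group O] {G : Type*} [Group G] [Finite G] (φ : G →* O)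
    (N : ℕ) (hO : Nat.card O = 2 * N) (hidx : (commutator O).index = 2)
    (hN : N = 2 ^ 12 * 42525)
    (hr : N ≤ Nat.card φ.range) (hp : IsPGroup 2 φ.ker) (hk : 2 ^ 10 ≤ Nat.card φ.ker)
    (hG : ¬ 2 ^ 23 ∣ Nat.card G) : φ.range = commutator O ∧ Nat.card φ.ker = 2 ^ 10 := by
  have hNpos : 0 < N := by rw [hN]; norm_num
  have : Finite O := Nat.finite_of_card_ne_zero (by rw [hO]; omega)
  have : Fact (Nat.Prime 2) := ⟨Nat.prime_two⟩
  obtain ⟨a, ha⟩ := hp.exists_card_eq
  have ha10 : 10 ≤ a := by
    by_contra h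
    have : 2 ^ a < 2 ^ 10 := Nat.pow_lt_pow_right (by norm_num) (by omega)
    omega
  have hGc : Nat.card φ.ker * Nat.card φ.range = Nat.card G := by
    rw [← Subgroup.index_ker]; exact Subgroup.card_mul_index _
  have hrd : Nat.card φ.range ∣ 2 * N := hO ▸ Subgroup.card_subgroup_dvd_card _
  have hrN : Nat.card φ.range = N := by
    obtain ⟨c, hc⟩ := hrd
    have hc2 : c = 1 ∨ c = 2 := by
      have h0 : c ≠ 0 := by rintro rfl; omega
      have h2 : c ≤ 2 := by
        by_contra h
        have h3 : 3 ≤ c := by omega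
        nlinarith
      omega
    rcases hc2 with rfl | rfl
    · exfalso
      apply hG
      rw [← hGc, ha, (by omega : Nat.card φ.range = 2 * N), hN]
      obtain ⟨b, rfl⟩ : ∃ b, a = 10 + b := ⟨a - 10, by omega⟩
      exact ⟨2 ^ b * 42525, by ring⟩
    · omega
  have hidxr : φ.range.index = 2 := by
    have h := Subgroup.card_mul_index φ.range
    rw [hrN, hO] at h
    exact Nat.eq_of_mul_eq_mul_left hNpos (by rw [h]; ring)
  have hle : commutator O ≤ φ.range := by
    rw [commutator_def, Subgroup.commutator_le]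
    intro g₁ _ g₂ _
    rw [commutatorElement_def]
    simp only [Subgroup.mul_mem_iff_of_index_two hidxr, inv_mem_iff]
    tauto
  have hcc : Nat.card (commutator O) = N := by
    have h := Subgroup.card_mul_index (commutator O)
    rw [hidx, hO] at h
    omega
  refine ⟨(Subgroup.eq_of_le_of_card_ge hle (by rw [hcc, hrN])).symm, ?_⟩
  rw [ha]
  congr 1
  by_contra hne
  apply hG
  rw [← hGc, ha, hrN, hN]
  obtain ⟨b, rfl⟩ : ∃ b, a = 11 + b := ⟨a - 11, by omega⟩
  exact ⟨2 ^ b * 42525, by ring⟩

theorem main : Range := by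
  intro hO G _ _ φ hr hp hk hG
  obtain ⟨h1, h2, -, -⟩ := hO
  exact range_eq_commutator φ 174182400 (by rw [h1]) h2 (by norm_num) hr hp hk hG

end Cfsg.Agent.Lib.Helper93.OzRANGE
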