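import Mathlib

/-!
Helper93: invariant uniform partitions for permutations of prime order (for S3575).
-/

namespace Cfsg.Agent.Lib.Helper93.PartElusive


/-- covering arithmetic: the numeric condition implies that every `j` is covered -/
theorem cover (a b r : ℕ) (hr : 2 ≤ r)
    (h : a % r = 0 ∨ (b % r = 0 ∧ a % r = 1) ∨ (a % r ≠ 0 ∧ b % r ≠ 0 ∧ (b % r) * (a % r) < r ∧
      (b < r ∨ (b % r + r) * (a % r) ≤ (b % r) * a + r)))
    (j : ℕ) (hj : r * j ≤ a * b) :
    ∃ u, u * r ≤ b ∧ u * a ≤ j ∧ j ≤ b * (a / r) + u * (a % r) := by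
  obtain ⟨A, ℓ, hA, hℓ, hadef⟩ : ∃ A ℓ, a / r = A ∧ a % r = ℓ ∧ a = r * A + ℓ :=
    ⟨_, _, rfl, rfl, (Nat.div_add_mod a r).symm⟩
  obtain ⟨K, k, hK, hk, hbdef⟩ : ∃ K k, b / r = K ∧ b % r = k ∧ b = r * K + k :=
    ⟨_, _, rfl, rfl, (Nat.div_add_mod b r).symm⟩
  have hℓr : ℓ < r := hℓ ▸ Nat.mod_lt _ (by omega)
  have hkr : k < r := hk ▸ Nat.mod_lt _ (by omega)
  rw [hA, hℓ]; rw [hℓ, hk] at h
  have c1 : k * ℓ < r := by
    rcases h with h | ⟨h1, h2⟩ | ⟨_, _, h3, _⟩
    · rw [h]; omega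
    · rw [h1]; omega
    · exact h3
  have c2 : K = 0 ∨ ℓ ≤ k * A + 1 := by
    rcases h with h | ⟨h1, h2⟩ | ⟨_, _, h3, h4⟩
    · right; omega
    · right; omega
    · rcases h4 with h4 | h4
      · left
        by_contra hK0
        have : r * 1 ≤ r * K := Nat.mul_le_mul_left r (by omega)
        omega
      · right
        have : r * ℓ ≤ r * (k * A + 1) := by rw [hadef] at h4; nlinarith
        exact Nat.le_of_mul_le_mul_left this (by omega)
  have key : ∀ u, u ≤ K → ∀ j, j ≤ b * A + u * ℓ →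
      ∃ u', u' ≤ u ∧ u' * a ≤ j ∧ j ≤ b * A + u' * ℓ := by
    intro u
    induction u with
    | zero => intro _ j hj; exact ⟨0, le_rfl, by simp, by simpa using hj⟩
    | succ u ih =>
      intro hu j hj
      by_cases hj' : j ≤ b * A + u * ℓ
      · obtain ⟨u', h1, h2, h3⟩ := ih (by omega) j hj'
        exact ⟨u', by omega, h2, h3⟩
      · refine ⟨u + 1, le_rfl, ?_, hj⟩
        have hK0 : ℓ ≤ k * A + 1 := by
          rcases c2 with c2 | c2
          · omega
          · exact c2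
        have : (u + 1) * a ≤ b * A + u * ℓ + 1 := by
          have h1 : (u + 1) * (r * A) ≤ K * (r * A) := Nat.mul_le_mul_right _ hu
          rw [hadef, hbdef]
          nlinarith
        omega
  have hjK : j ≤ b * A + K * ℓ := by
    by_contra hcon
    push Not at hcon
    have h1 : r * (b * A + K * ℓ + 1) ≤ r * j := Nat.mul_le_mul_left r hcon
    rw [hadef, hbdef] at hj
    rw [hbdef] at h1
    nlinarith
  obtain ⟨u', h1, h2, h3⟩ := key K le_rfl j hjK
  refine ⟨u', ?_, h2, h3⟩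
  have : u' * r ≤ K * r := Nat.mul_le_mul_right r h1
  have : K * r = r * K := mul_comm _ _
  omega

/-- covering arithmetic, converse -/
theorem conv (a b r : ℕ) (hr : 2 ≤ r) (ha : 2 ≤ a) (hb : 2 ≤ b) (hrab : r ≤ a * b)
    (H : ∀ j, 1 ≤ j → r * j ≤ a * b →
      ∃ u, u * r ≤ b ∧ u * a ≤ j ∧ j ≤ b * (a / r) + u * (a % r)) :
    r ≤ a ∧ (a % r = 0 ∨ (b % r = 0 ∧ a % r = 1) ∨ (a % r ≠ 0 ∧ b % r ≠ 0 ∧
      (b % r) * (a % r) < r ∧ (b < r ∨ (b % r + r) * (a % r) ≤ (b % r) * a + r))) := by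
  obtain ⟨A, ℓ, hA, hℓ, hadef⟩ : ∃ A ℓ, a / r = A ∧ a % r = ℓ ∧ a = r * A + ℓ :=
    ⟨_, _, rfl, rfl, (Nat.div_add_mod a r).symm⟩
  obtain ⟨K, k, hK, hk, hbdef⟩ : ∃ K k, b / r = K ∧ b % r = k ∧ b = r * K + k :=
    ⟨_, _, rfl, rfl, (Nat.div_add_mod b r).symm⟩
  have hℓr : ℓ < r := hℓ ▸ Nat.mod_lt _ (by omega)
  have hkr : k < r := hk ▸ Nat.mod_lt _ (by omega)
  rw [hA, hℓ] at H; rw [hℓ, hk]
  have hA1 : 1 ≤ A := by
    obtain ⟨u, h1, h2, h3⟩ := H 1 le_rfl (by omega)
    have hu : u = 0 := by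
      by_contra hu
      have : 1 * a ≤ u * a := Nat.mul_le_mul_right a (by omega)
      omega
    subst hu
    by_contra hA0
    have : A = 0 := by omega
    subst this
    simp at h3
  have hra : r ≤ a := by
    have : r * 1 ≤ r * A := Nat.mul_le_mul_left r hA1
    omega
  have c1 : k * ℓ < r := by
    by_contra hcon
    push Not at hcon
    obtain ⟨u, h1, h2, h3⟩ := H (b * A + K * ℓ + 1) (by omega) (by
      rw [hadef, hbdef]; nlinarith)
    have huK : u ≤ K := by
      by_contra hu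
      push Not at hu
      have h4 : (K + 1) * r ≤ u * r := Nat.mul_le_mul_right r hu
      have h5 : (K + 1) * r = r * K + r := by ring
      omega
    have : u * ℓ ≤ K * ℓ := Nat.mul_le_mul_right ℓ huK
    omega
  have c2 : K = 0 ∨ ℓ ≤ k * A + 1 := by
    by_contra hcon
    push Not at hcon
    obtain ⟨hK0, hℓ2⟩ := hcon
    obtain ⟨K', rfl⟩ : ∃ K', K = K' + 1 := ⟨K - 1, by omega⟩
    have hjlt : b * A + K' * ℓ + 1 < (K' + 1) * a := by
      rw [hadef, hbdef]; nlinarith
    have h6 : r * ((K' + 1) * a) ≤ a * b := by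
      rw [hbdef]; nlinarith
    obtain ⟨u, h1, h2, h3⟩ := H (b * A + K' * ℓ + 1) (by omega) (by
      have : r * (b * A + K' * ℓ + 1) ≤ r * ((K' + 1) * a) := Nat.mul_le_mul_left r hjlt.le
      omega)
    have huK : u ≤ K' := by
      by_contra hu
      push Not at hu
      have : (K' + 1) * a ≤ u * a := Nat.mul_le_mul_right a hu
      omega
    have : u * ℓ ≤ K' * ℓ := Nat.mul_le_mul_right ℓ huK
    omega
  refine ⟨hra, ?_⟩
  by_cases hℓ0 : ℓ = 0
  · left; exact hℓ0
  · right
    by_cases hk0 : k = 0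
    · left
      refine ⟨hk0, ?_⟩
      subst hk0
      have hK1 : K ≠ 0 := by rintro rfl; omega
      rcases c2 with c2 | c2
      · exact absurd c2 hK1
      · omega
    · right
      refine ⟨hℓ0, hk0, c1, ?_⟩
      rcases c2 with c2 | c2
      · left; subst c2; omega
      · right
        have : r * ℓ ≤ r * (k * A + 1) := Nat.mul_le_mul_left r c2
        rw [hadef]; nlinarith



/-- number of fixed points of a permutation -/
def fx {α : Type*} [Fintype α] [DecidableEq α] (σ : Equiv.Perm α) : ℕ :=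
  Fintype.card {x // σ x = x}

theorem fx_le {α : Type*} [Fintype α] [DecidableEq α] (σ : Equiv.Perm α) :
    fx σ ≤ Fintype.card α := Fintype.card_subtype_le _

theorem fx_compl {α : Type*} [Fintype α] [DecidableEq α] (σ : Equiv.Perm α) :
    σ.supportᶜ.card = fx σ := by
  unfold fx
  rw [Fintype.card_subtype]
  congr 1
  ext x
  simp [Equiv.Perm.mem_support]

theorem fx_support {α : Type*} [Fintype α] [DecidableEq α] (σ : Equiv.Perm α) :
    σ.support.card + fx σ = Fintype.card α := by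
  rw [← fx_compl, Finset.card_compl]
  have := Finset.card_le_univ σ.support
  omega

theorem fx_modEq {α : Type*} [Fintype α] [DecidableEq α] {r : ℕ} (hr : r.Prime)
    (σ : Equiv.Perm α) (hσ : σ ^ r = 1) : fx σ ≡ Fintype.card α [MOD r] := by
  have : Fact r.Prime := ⟨hr⟩
  have h := Equiv.Perm.card_compl_support_modEq (p := r) (n := 1) (σ := σ) (by simpa using hσ)
  rwa [fx_compl] at h

theorem fx_exists {α : Type*} [Fintype α] [DecidableEq α] {r : ℕ} (hr : r.Prime)
    (σ : Equiv.Perm α) (hσ : σ ^ r = 1) : ∃ j, fx σ + r * j = Fintype.card α := by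
  have h := (Nat.modEq_iff_dvd' (fx_le σ)).mp (fx_modEq hr σ hσ)
  obtain ⟨j, hj⟩ := h
  refine ⟨j, ?_⟩
  have := fx_le σ
  omega

theorem fx_permCongr {α β : Type*} [Fintype α] [DecidableEq α] [Fintype β] [DecidableEq β]
    (e : α ≃ β) (σ : Equiv.Perm α) : fx (e.permCongr σ) = fx σ := by
  unfold fx
  refine (Fintype.card_congr (e.subtypeEquiv fun x => ?_)).symm
  simp [Equiv.permCongr_def]

theorem fx_lt_of_ne_one {α : Type*} [Fintype α] [DecidableEq α] (σ : Equiv.Perm α)
    (h : σ ≠ 1) : fx σ < Fintype.card α := by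
  have : ∃ x, σ x ≠ x := by
    by_contra hcon
    push Not at hcon
    exact h (Equiv.ext hcon)
  obtain ⟨x, hx⟩ := this
  exact Fintype.card_subtype_lt hx

/-- permutations with `σ ^ r = 1` and the same number of fixed points are conjugate -/
theorem conj_of_fx {α : Type*} [Fintype α] [DecidableEq α] {r : ℕ} (hr : r.Prime)
    (σ τ : Equiv.Perm α) (hσ : σ ^ r = 1) (hτ : τ ^ r = 1) (h : fx σ = fx τ) : IsConj σ τ := by
  have key : ∀ ρ : Equiv.Perm α, ρ ^ r = 1 →
      ρ.cycleType = Multiset.replicate (Multiset.card ρ.cycleType) r ∧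
        Multiset.card ρ.cycleType * r + fx ρ = Fintype.card α := by
    intro ρ hρ
    have h1 : ρ.cycleType = Multiset.replicate (Multiset.card ρ.cycleType) r := by
      rw [Multiset.eq_replicate]
      refine ⟨rfl, fun n hn => ?_⟩
      have h2 := Equiv.Perm.dvd_of_mem_cycleType hn
      have h3 := Equiv.Perm.two_le_of_mem_cycleType hn
      have h4 : n ∣ r := h2.trans (orderOf_dvd_of_pow_eq_one hρ)
      rcases (Nat.dvd_prime hr).mp h4 with h5 | h5
      · omega
      · exact h5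
    refine ⟨h1, ?_⟩
    have h2 := Equiv.Perm.sum_cycleType ρ
    rw [h1, Multiset.sum_replicate, smul_eq_mul] at h2
    have h3 := fx_support ρ
    omega
  obtain ⟨h1, h2⟩ := key σ hσ
  obtain ⟨h3, h4⟩ := key τ hτ
  rw [Equiv.Perm.isConj_iff_cycleType_eq, h1, h3]
  congr 1
  have : Multiset.card σ.cycleType * r = Multiset.card τ.cycleType * r := by omega
  exact Nat.eq_of_mul_eq_mul_right hr.pos this

/-- analysis of an invariant partition -/
theorem analysis (a b r : ℕ) (hr : r.Prime) (ha : 0 < a) (σ : Equiv.Perm (Fin (a * b)))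
    (hσ : σ ^ r = 1) (f : Fin (a * b) → Fin b) (hf : ∀ c, Fintype.card {x // f x = c} = a)
    (π : Equiv.Perm (Fin b)) (hπ : ∀ x, f (σ x) = π (f x))
    (j : ℕ) (hj : fx σ + r * j = a * b) :
    ∃ u, u * r ≤ b ∧ u * a ≤ j ∧ j ≤ b * (a / r) + u * (a % r) := by
  have hpow : ∀ n x, f ((σ ^ n) x) = (π ^ n) (f x) := by
    intro n
    induction n with
    | zero => intro x; simp
    | succ n ih =>
      intro x
      rw [pow_succ, pow_succ, Equiv.Perm.mul_apply, Equiv.Perm.mul_apply, ih, hπ]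
  have hπr : π ^ r = 1 := by
    ext c
    have hne : Nonempty {x // f x = c} := by
      rw [← Fintype.card_pos_iff, hf]; exact ha
    obtain ⟨⟨x, rfl⟩⟩ := hne
    rw [← hpow, hσ]
    simp
  -- number of fixed blocks
  obtain ⟨u, hu⟩ := fx_exists hr π hπr
  rw [Fintype.card_fin] at hu
  -- fibrewise count
  have hsum : fx σ = ∑ c : Fin b, Fintype.card {x // σ x = x ∧ f x = c} := by
    unfold fx
    rw [Fintype.card_subtype]
    rw [Finset.card_eq_sum_card_fiberwise (f := f) (t := Finset.univ)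
      (fun x _ => Finset.mem_univ _)]
    refine Finset.sum_congr rfl fun c _ => ?_
    rw [Fintype.card_subtype, Finset.filter_filter]
  have hzero : ∀ c, π c ≠ c → Fintype.card {x // σ x = x ∧ f x = c} = 0 := by
    intro c hc
    rw [Fintype.card_eq_zero_iff]
    refine ⟨fun ⟨x, hx1, hx2⟩ => hc ?_⟩
    rw [← hx2, ← hπ, hx1]
  have hfix : ∀ c, π c = c → a % r ≤ Fintype.card {x // σ x = x ∧ f x = c} ∧
      Fintype.card {x // σ x = x ∧ f x = c} ≤ a := by
    intro c hc
    have hinv : ∀ x, (fun x => f x = c) (σ x) ↔ (fun x => f x = c) x := by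
      intro x
      show f (σ x) = c ↔ f x = c
      rw [hπ]
      constructor
      · intro h; exact π.injective (h.trans hc.symm)
      · intro h; rw [h, hc]
    have hpw : ∀ n (x : {x // f x = c}),
        (((σ.subtypePerm (p := fun x => f x = c) hinv) ^ n) x).1 = (σ ^ n) x.1 := by
      intro n
      induction n with
      | zero => intro x; simp
      | succ n ih =>
        intro x
        rw [pow_succ, pow_succ, Equiv.Perm.mul_apply, Equiv.Perm.mul_apply, ih]
        rfl
    have h1 : (σ.subtypePerm (p := fun x => f x = c) hinv) ^ r = 1 := by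
      ext x
      rw [hpw, hσ]
      simp
    have h2 := fx_modEq hr _ h1
    have hfc : Fintype.card {x // (fun x => f x = c) x} = a := hf c
    rw [hfc] at h2
    have h3 : fx (σ.subtypePerm (p := fun x => f x = c) hinv) =
        Fintype.card {x // σ x = x ∧ f x = c} := by
      unfold fx
      refine Fintype.card_congr ?_
      exact (Equiv.subtypeEquivRight (fun x => by
          rw [Subtype.ext_iff]; rfl)).trans
        ((Equiv.subtypeSubtypeEquivSubtypeInter (fun x => f x = c) (fun x => σ x = x)).trans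
          (Equiv.subtypeEquivRight fun x => and_comm))
    have h4 := fx_le (σ.subtypePerm (p := fun x => f x = c) hinv)
    rw [hfc] at h4
    rw [h3] at h2 h4
    refine ⟨?_, h4⟩
    have h5 : Fintype.card {x // σ x = x ∧ f x = c} % r = a % r := h2
    rw [← h5]
    exact Nat.mod_le _ _
  have hP : ∀ t : ℕ, ∑ c : Fin b, (if π c = c then t else 0) = fx π * t := by
    intro t
    rw [← Finset.sum_filter, Finset.sum_const, smul_eq_mul]
    unfold fx
    rw [Fintype.card_subtype]
  have hup : fx σ ≤ fx π * a := by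
    rw [hsum, ← hP]
    refine Finset.sum_le_sum fun c _ => ?_
    by_cases hc : π c = c
    · rw [if_pos hc]; exact (hfix c hc).2
    · rw [if_neg hc, hzero c hc]
  have hlo : fx π * (a % r) ≤ fx σ := by
    rw [hsum, ← hP]
    refine Finset.sum_le_sum fun c _ => ?_
    by_cases hc : π c = c
    · rw [if_pos hc]; exact (hfix c hc).1
    · rw [if_neg hc]; exact Nat.zero_le _
  obtain ⟨P, hPdef⟩ : ∃ P, fx π = P := ⟨_, rfl⟩
  obtain ⟨F, hFdef⟩ : ∃ F, fx σ = F := ⟨_, rfl⟩
  rw [hPdef] at hu hup hlo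
  rw [hFdef] at hup hlo hj
  obtain ⟨A, ℓ, hA, hℓ, hadef⟩ : ∃ A ℓ, a / r = A ∧ a % r = ℓ ∧ a = r * A + ℓ :=
    ⟨_, _, rfl, rfl, (Nat.div_add_mod a r).symm⟩
  rw [hℓ] at hlo
  rw [hA, hℓ]
  refine ⟨u, by rw [mul_comm]; omega, ?_, ?_⟩
  · have e0 : a * b = a * P + a * (r * u) := by rw [← hu]; ring
    have : r * (u * a) ≤ r * j := by nlinarith
    exact Nat.le_of_mul_le_mul_left this hr.pos
  · have e1 : a * b = r * (A * b) + ℓ * b := by rw [hadef]; ring
    have e2 : ℓ * b = ℓ * P + ℓ * (r * u) := by rw [← hu]; ring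
    have : r * j ≤ r * (b * A + u * ℓ) := by nlinarith
    exact Nat.le_of_mul_le_mul_left this hr.pos

section model
variable (r : ℕ) [Fact r.Prime]

/-- the standard permutation on `(Fin n × ZMod r) ⊕ β` -/
def rot (n : ℕ) (β : Type*) : Equiv.Perm ((Fin n × ZMod r) ⊕ β) :=
  Equiv.sumCongr (Equiv.prodCongr (Equiv.refl _) (Equiv.addRight 1)) (Equiv.refl _)

theorem rot_inl (n : ℕ) (β : Type*) (i : Fin n) (z : ZMod r) :
    rot r n β (Sum.inl (i, z)) = Sum.inl (i, z + 1) := rfl

theorem rot_inr (n : ℕ) (β : Type*) (x : β) : rot r n β (Sum.inr x) = Sum.inr x := rfl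

theorem rot_pow_inl (n : ℕ) (β : Type*) (k : ℕ) (i : Fin n) (z : ZMod r) :
    (rot r n β ^ k) (Sum.inl (i, z)) = Sum.inl (i, z + k) := by
  induction k with
  | zero => simp
  | succ k ih =>
    rw [pow_succ', Equiv.Perm.mul_apply, ih, rot_inl]; push_cast; rw [add_assoc]

theorem rot_pow_inr (n : ℕ) (β : Type*) (k : ℕ) (x : β) :
    (rot r n β ^ k) (Sum.inr x) = Sum.inr x := by
  induction k with
  | zero => simp
  | succ k ih => rw [pow_succ', Equiv.Perm.mul_apply, ih, rot_inr]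

theorem rot_pow_r (n : ℕ) (β : Type*) : rot r n β ^ r = 1 := by
  ext x
  rcases x with ⟨i, z⟩ | x
  · rw [rot_pow_inl]; simp
  · rw [rot_pow_inr]; simp

theorem one_ne_zero_zmod : (1 : ZMod r) ≠ 0 := one_ne_zero

theorem fx_rot (n : ℕ) (β : Type*) [Fintype β] [DecidableEq β] :
    fx (rot r n β) = Fintype.card β := by
  unfold fx
  rw [Fintype.card_subtype, Finset.card_filter, Fintype.sum_sum_type]
  have h1 : ∀ p : Fin n × ZMod r, rot r n β (Sum.inl p) ≠ Sum.inl p := by
    rintro ⟨i, z⟩ h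
    rw [rot_inl] at h
    have h' : z + 1 = z := by simpa using h
    exact one_ne_zero_zmod r (by simpa using h')
  simp [h1, rot_inr]

theorem rotFin (N n : ℕ) (h : r * n ≤ N) :
    ∃ ρ : Equiv.Perm (Fin N), ρ ^ r = 1 ∧ fx ρ + r * n = N := by
  have hcard : Fintype.card ((Fin n × ZMod r) ⊕ Fin (N - r * n)) = N := by
    simp only [Fintype.card_sum, Fintype.card_prod, Fintype.card_fin, ZMod.card]
    have : n * r = r * n := mul_comm _ _
    omega
  let e := Fintype.equivFinOfCardEq hcard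
  refine ⟨e.permCongr (rot r n _), ?_, ?_⟩
  · have : e.permCongr (rot r n (Fin (N - r * n))) = e.permCongrHom (rot r n _) := rfl
    rw [this, ← map_pow, rot_pow_r, map_one]
  · rw [fx_permCongr, fx_rot, Fintype.card_fin]; omega

theorem distrib (A : ℕ) : ∀ (B m : ℕ), m ≤ B * A →
    ∃ i : Fin B → ℕ, (∀ c, i c ≤ A) ∧ ∑ c, i c = m := by
  intro B
  induction B with
  | zero =>
    intro m hm
    exact ⟨fun _ => 0, fun c => c.elim0, by simp at hm; simp [hm]⟩
  | succ B ih =>
    intro m hm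
    obtain ⟨i, hi1, hi2⟩ := ih (m - min A m) (by
      have : (B + 1) * A = B * A + A := by ring
      omega)
    refine ⟨Fin.cons (min A m) i, ?_, ?_⟩
    · intro c
      refine Fin.cases ?_ (fun c' => ?_) c
      · simp
      · simpa using hi1 c'
    · rw [Fin.sum_univ_succ]
      simp only [Fin.cons_zero, Fin.cons_succ]
      rw [hi2]; omega

/-- the model permutation -/
def shear (u B a : ℕ) (ρ : Fin B → Equiv.Perm (Fin a)) :
    Equiv.Perm (((Fin u × ZMod r) ⊕ Fin B) × Fin a) :=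
  Equiv.prodShear (rot r u (Fin B)) (Sum.elim (fun _ => 1) ρ)

theorem shear_inl (u B a : ℕ) (ρ : Fin B → Equiv.Perm (Fin a)) (w : Fin u) (z : ZMod r)
    (x : Fin a) : shear r u B a ρ (Sum.inl (w, z), x) = (Sum.inl (w, z + 1), x) := rfl

theorem shear_inr (u B a : ℕ) (ρ : Fin B → Equiv.Perm (Fin a)) (c : Fin B)
    (x : Fin a) : shear r u B a ρ (Sum.inr c, x) = (Sum.inr c, ρ c x) := rfl

theorem shear_fst (u B a : ℕ) (ρ : Fin B → Equiv.Perm (Fin a))
    (p : ((Fin u × ZMod r) ⊕ Fin B) × Fin a) :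
    (shear r u B a ρ p).1 = rot r u (Fin B) p.1 := rfl

theorem shear_pow_inl (u B a : ℕ) (ρ : Fin B → Equiv.Perm (Fin a)) (k : ℕ) (w : Fin u)
    (z : ZMod r) (x : Fin a) :
    (shear r u B a ρ ^ k) (Sum.inl (w, z), x) = (Sum.inl (w, z + k), x) := by
  induction k with
  | zero => simp
  | succ k ih =>
    rw [pow_succ', Equiv.Perm.mul_apply, ih, shear_inl]; push_cast; rw [add_assoc]

theorem shear_pow_inr (u B a : ℕ) (ρ : Fin B → Equiv.Perm (Fin a)) (k : ℕ) (c : Fin B)
    (x : Fin a) :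
    (shear r u B a ρ ^ k) (Sum.inr c, x) = (Sum.inr c, (ρ c ^ k) x) := by
  induction k with
  | zero => simp
  | succ k ih =>
    rw [pow_succ', Equiv.Perm.mul_apply, ih, shear_inr, pow_succ', Equiv.Perm.mul_apply]

theorem shear_pow_r (u B a : ℕ) (ρ : Fin B → Equiv.Perm (Fin a)) (hρ : ∀ c, ρ c ^ r = 1) :
    shear r u B a ρ ^ r = 1 := by
  ext1 p
  obtain ⟨i, x⟩ := p
  rcases i with ⟨w, z⟩ | c
  · rw [shear_pow_inl]; simp
  · rw [shear_pow_inr, hρ]; simp

theorem fx_shear (u B a : ℕ) (ρ : Fin B → Equiv.Perm (Fin a)) :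
    fx (shear r u B a ρ) = ∑ c, fx (ρ c) := by
  unfold fx
  rw [Fintype.card_subtype, Finset.card_filter, Fintype.sum_prod_type, Fintype.sum_sum_type]
  have h1 : ∀ (p : Fin u × ZMod r) (x : Fin a),
      shear r u B a ρ (Sum.inl p, x) ≠ (Sum.inl p, x) := by
    rintro ⟨w, z⟩ x h
    rw [shear_inl] at h
    have h' : z + 1 = z := by simpa using h
    exact one_ne_zero_zmod r (by simpa using h')
  have h2 : ∀ (c : Fin B) (x : Fin a),
      shear r u B a ρ (Sum.inr c, x) = (Sum.inr c, x) ↔ ρ c x = x := by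
    intro c x; rw [shear_inr]; simp
  simp only [h1, h2, if_false, Finset.sum_const_zero, zero_add]
  refine Finset.sum_congr rfl fun c _ => ?_
  rw [Fintype.card_subtype, Finset.card_filter]

theorem card_fst_fibre (I X : Type*) [Fintype I] [DecidableEq I] [Fintype X] (i₀ : I) :
    Fintype.card {p : I × X // p.1 = i₀} = Fintype.card X := by
  refine Fintype.card_congr
    { toFun := fun p => p.1.2
      invFun := fun x => ⟨(i₀, x), rfl⟩
      left_inv := ?_
      right_inv := fun x => rfl }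
  rintro ⟨⟨i, x⟩, h⟩
  simp only at h
  subst h
  rfl

theorem model (a b u j : ℕ) (hu : u * r ≤ b) (h1 : u * a ≤ j)
    (h2 : j ≤ b * (a / r) + u * (a % r)) :
    ∃ τ : Equiv.Perm (Fin (a * b)), τ ^ r = 1 ∧ fx τ + r * j = a * b ∧
      ∃ f : Fin (a * b) → Fin b, (∀ c, Fintype.card {x // f x = c} = a) ∧
        ∃ π : Equiv.Perm (Fin b), ∀ x, f (τ x) = π (f x) := by
  obtain ⟨B, hB⟩ : ∃ B, B + u * r = b := ⟨b - u * r, by omega⟩
  obtain ⟨m, hm⟩ : ∃ m, m + u * a = j := ⟨j - u * a, by omega⟩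
  have hmB : m ≤ B * (a / r) := by
    have e1 := Nat.div_add_mod a r
    have e2 : u * a = u * r * (a / r) + u * (a % r) := by
      conv_lhs => rw [← e1]
      ring
    have e3 : b * (a / r) = B * (a / r) + u * r * (a / r) := by rw [← hB]; ring
    omega
  obtain ⟨i, hi1, hi2⟩ := distrib (a / r) B m hmB
  have hρ : ∀ c, ∃ ρ : Equiv.Perm (Fin a), ρ ^ r = 1 ∧ fx ρ + r * i c = a := fun c =>
    rotFin r a (i c) ((Nat.mul_le_mul_left r (hi1 c)).trans (Nat.mul_div_le a r))
  choose ρ hρ1 hρ2 using hρ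
  have hcI : Fintype.card ((Fin u × ZMod r) ⊕ Fin B) = b := by
    simp only [Fintype.card_sum, Fintype.card_prod, Fintype.card_fin, ZMod.card]
    omega
  have hcM : Fintype.card (((Fin u × ZMod r) ⊕ Fin B) × Fin a) = a * b := by
    rw [Fintype.card_prod, hcI, Fintype.card_fin, mul_comm]
  have hsumfx : ∑ c, fx (ρ c) + r * m = B * a := by
    have : ∑ c : Fin B, (fx (ρ c) + r * i c) = ∑ c : Fin B, a :=
      Finset.sum_congr rfl fun c _ => hρ2 c
    rw [Finset.sum_add_distrib, ← Finset.mul_sum, hi2] at this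
    rw [this]; simp
  let eI := Fintype.equivFinOfCardEq hcI
  let eM := Fintype.equivFinOfCardEq hcM
  refine ⟨eM.permCongr (shear r u B a ρ), ?_, ?_, fun x => eI (eM.symm x).1, ?_,
    eI.permCongr (rot r u (Fin B)), ?_⟩
  · have : eM.permCongr (shear r u B a ρ) = eM.permCongrHom (shear r u B a ρ) := rfl
    rw [this, ← map_pow, shear_pow_r r u B a ρ hρ1, map_one]
  · rw [fx_permCongr, fx_shear]
    have e4 : a * b = B * a + r * (u * a) := by rw [← hB]; ring
    have e5 : r * j = r * m + r * (u * a) := by rw [← hm]; ring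
    omega
  · intro c
    have : Fintype.card {x : Fin (a * b) // eI (eM.symm x).1 = c} =
        Fintype.card {p : ((Fin u × ZMod r) ⊕ Fin B) × Fin a // p.1 = eI.symm c} := by
      refine Fintype.card_congr (eM.symm.subtypeEquiv fun x => ?_)
      rw [Equiv.eq_symm_apply]
    rw [this, card_fst_fibre, Fintype.card_fin]
  · intro x
    simp only [Equiv.permCongr_def, Equiv.trans_apply, Equiv.symm_apply_apply]
    rw [shear_fst]

end model

end Cfsg.Agent.Lib.Helper93.PartElusive
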