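import Cfsg.Agent.Lib.Helper93.Fam
/-!
# Rigidity certificates for the group of the length-24 code

If an element `g` of `M24` maps each of the sets of a list `L` (bit masks) onto itself, then it
maps onto itself every code word that is the only one with its numbers of points in some of these
sets; when the sets found this way separate the 24 points, `g = 1`.
-/
set_option autoImplicit false
open scoped Pointwise
open Cfsg

namespace Cfsg.Agent.Lib.Helper93.Rigid

open Cfsg.Agent.Lib.Helper27.Bits Cfsg.Agent.Lib.Helper27.Golay Cfsg.Agent.Lib.Helper27.M24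
  Cfsg.Agent.Lib.Helper27.Cert Cfsg.Agent.Lib.Helper27.Trans Cfsg.Agent.Lib.Helper27.Fast
  Cfsg.Agent.Lib.Helper93.Fam

/-- the permutation maps the set of the mask onto itself -/
def Fx (g : Equiv.Perm GolayPt) (m : ℕ) : Prop := g • fsOf m = fsOf m

theorem Fx_full (g : Equiv.Perm GolayPt) : Fx g 16777215 := by
  have h : fsOf 16777215 = Finset.univ := by
    ext p
    simp only [mem_setOf, Finset.mem_univ, iff_true]
    have := idx_lt p
    generalize idx p = i at this
    interval_cases i <;> decide
  unfold Fx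
  rw [h]
  exact Finset.smul_finset_univ

theorem Fx_pow (g : Equiv.Perm GolayPt) {i : ℕ} (hi : i < 24) (h : g (pt i) = pt i) :
    Fx g (2 ^ i) := by
  unfold Fx
  rw [setOf_two_pow i hi, Finset.smul_finset_singleton, Equiv.Perm.smul_def, h]

theorem Fx_mem_iff {g : Equiv.Perm GolayPt} {m : ℕ} (h : Fx g m) (x : GolayPt) :
    g x ∈ fsOf m ↔ x ∈ fsOf m := by
  unfold Fx at h
  conv_lhs => rw [← h]
  rw [← Equiv.Perm.smul_def]
  exact Finset.smul_mem_smul_finset_iff g

/-- the mask has the prescribed numbers of points in the masks of `K` -/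
noncomputable def matchK (K : List (ℕ × ℕ)) (x : ℕ) : Bool := K.all (fun sk => Nat.beq (pcF (x &&& sk.1)) sk.2)

/-- one step: the code word `c` is the only one with the numbers `K`, on masks of `L` -/
noncomputable def stepOK (L : List ℕ) (c : ℕ) (K : List (ℕ × ℕ)) : Bool :=
  Nat.blt c 4096 && K.all (fun sk => memB sk.1 L) && matchK K (cw c) &&
    allB 4096 (fun d => Nat.beq d c || !matchK K (cw d))

/-- the masks of `L` separate the 24 points -/
noncomputable def sepB (L : List ℕ) : Bool :=
  allB 24 (fun p => allB p (fun q => L.any (fun s => s.testBit p != s.testBit q)))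

/-- the certificate: code word steps, then separation -/
noncomputable def certR : List (ℕ × List (ℕ × ℕ)) → List ℕ → Bool
  | [], L => sepB L
  | (c, K) :: r, L => stepOK L c K && certR r (cw c :: L)

theorem card_inter_Fx {g : Equiv.Perm GolayPt} {s : ℕ} (hs : Fx g s) (X : Finset GolayPt) :
    (g • X ∩ fsOf s).card = (X ∩ fsOf s).card := by
  unfold Fx at hs
  conv_lhs => rw [← hs]
  rw [← Finset.smul_finset_inter, Finset.card_smul_finset]

theorem step_fixed {g : Equiv.Perm GolayPt} (hg : g ∈ M24) {L : List ℕ} {c : ℕ}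
    {K : List (ℕ × ℕ)} (hL : ∀ m ∈ L, Fx g m) (h : stepOK L c K = true) : Fx g (cw c) := by
  unfold stepOK at h
  simp only [Bool.and_eq_true, Nat.blt_eq, List.all_eq_true] at h
  obtain ⟨⟨⟨hc, hK⟩, hm⟩, hu⟩ := h
  have h1 : fsOf (cw c) ∈ supports (golayCode : Set (GolayPt → ZMod 2)) :=
    (mem_supports_cw _).mpr ⟨c, hc, rfl⟩
  have h2 := (supports_smul_iff hg (fsOf (cw c))).mpr h1
  obtain ⟨d, hd, e⟩ := (mem_supports_cw _).mp h2
  have hmd : matchK K (cw d) = true := by
    unfold matchK at hm ⊢
    simp only [List.all_eq_true] at hm ⊢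
    intro sk hsk
    have hF : Fx g sk.1 := hL _ (memB_iff.mp (hK sk hsk))
    have h3 := hm sk hsk
    have e2 : pcF (cw d &&& sk.1) = pcF (cw c &&& sk.1) := by
      rw [← card_setOf_F, ← card_setOf_F, setOf_and, setOf_and, ← e, card_inter_Fx hF]
    rw [e2]
    exact h3
  have h4 := (allB_iff _ _).mp hu d hd
  rw [hmd] at h4
  simp only [Bool.not_true, Bool.or_false] at h4
  unfold Fx
  rw [e, Nat.eq_of_beq_eq_true h4]

theorem eq_one_of_sep {g : Equiv.Perm GolayPt} {L : List ℕ} (hL : ∀ m ∈ L, Fx g m)
    (h : sepB L = true) : g = 1 := by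
  have hbit : ∀ s ∈ L, ∀ x : GolayPt, s.testBit (idx (g x)) = s.testBit (idx x) := by
    intro s hs x
    have := Fx_mem_iff (hL s hs) x
    rw [mem_setOf, mem_setOf] at this
    exact Bool.eq_iff_iff.mpr this
  have key : ∀ p q : ℕ, p < 24 → q < p → ∃ s ∈ L, s.testBit p ≠ s.testBit q := by
    intro p q hp hq
    have := (allB_iff _ _).mp ((allB_iff _ _).mp h p hp) q hq
    simp only [List.any_eq_true, bne_iff_ne] at this
    exact this
  refine Equiv.ext fun x => ?_
  rw [Equiv.Perm.coe_one, id_eq]
  by_contra hne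
  have hne' : idx (g x) ≠ idx x := fun e => hne (idx_injective e)
  rcases Nat.lt_or_gt_of_ne hne' with hlt | hgt
  · obtain ⟨s, hs, hb⟩ := key (idx x) (idx (g x)) (idx_lt x) hlt
    exact hb (hbit s hs x).symm
  · obtain ⟨s, hs, hb⟩ := key (idx (g x)) (idx x) (idx_lt _) hgt
    exact hb (hbit s hs x)

/-- rigidity from a certificate -/
theorem rigid {g : Equiv.Perm GolayPt} (hg : g ∈ M24) :
    ∀ (steps : List (ℕ × List (ℕ × ℕ))) (L : List ℕ), (∀ m ∈ L, Fx g m) →
      certR steps L = true → g = 1 := by
  intro steps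
  induction steps with
  | nil => intro L hL h; exact eq_one_of_sep hL h
  | cons a r ih =>
    intro L hL h
    obtain ⟨c, K⟩ := a
    simp only [certR, Bool.and_eq_true] at h
    refine ih (cw c :: L) ?_ h.2
    intro m hm
    rcases List.mem_cons.mp hm with rfl | hm
    · exact step_fixed hg hL h.1
    · exact hL m hm

end Cfsg.Agent.Lib.Helper93.Rigid
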