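import Mathlib

/-!
# The centraliser of a transvection in `SL(5, 2)` has at most 21504 elements

A matrix commuting with `1 + E₀₁` has first column `e₀` and second row `e₁`; it is determined by
the rest of its first row, the rest of its second column and its lower right `3 × 3` block, and
the block is multiplicative on the centraliser, hence invertible.
-/
set_option autoImplicit false

namespace Cfsg.Agent.Lib.Helper93.TransvCent

/-- the entries forced by commuting with the transvection -/
theorem cent_entries {s g : Matrix.SpecialLinearGroup (Fin 5) (ZMod 2)}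
    (hs : (s : Matrix (Fin 5) (Fin 5) (ZMod 2)) = Matrix.transvection 0 1 1)
    (hg : g ∈ Subgroup.centralizer ({s} : Set (Matrix.SpecialLinearGroup (Fin 5) (ZMod 2)))) :
    (∀ i : Fin 5, i ≠ 0 → g.1 i 0 = 0) ∧ (∀ j : Fin 5, j ≠ 1 → g.1 1 j = 0) ∧
      g.1 0 0 = 1 ∧ g.1 1 1 = 1 := by
  have h := Subgroup.mem_centralizer_singleton_iff.mp hg
  have h2 : g.1 * s.1 = s.1 * g.1 := congrArg Subtype.val h
  have hs' : s.1 = Matrix.transvection 0 1 1 := hs
  rw [hs', Matrix.transvection, mul_add, add_mul, mul_one, one_mul] at h2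
  have h1 : g.1 * Matrix.single 0 1 1 = Matrix.single 0 1 1 * g.1 := add_left_cancel h2
  have hA : ∀ i : Fin 5, i ≠ 0 → g.1 i 0 = 0 := by
    intro i hi
    have := congrFun (congrFun h1 i) 1
    rw [Matrix.mul_single_apply_same, Matrix.single_mul_apply_of_ne _ _ _ _ _ hi, mul_one] at this
    exact this
  have hB : ∀ j : Fin 5, j ≠ 1 → g.1 1 j = 0 := by
    intro j hj
    have := congrFun (congrFun h1 0) j
    rw [Matrix.mul_single_apply_of_ne _ _ _ _ _ hj, Matrix.single_mul_apply_same, one_mul] at this
    exact this.symm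
  have hC : g.1 0 0 = g.1 1 1 := by
    have := congrFun (congrFun h1 0) 1
    rw [Matrix.mul_single_apply_same, Matrix.single_mul_apply_same, mul_one, one_mul] at this
    exact this
  have hD : g.1 0 0 = 1 := by
    by_contra hne
    have h0 : g.1 0 0 = 0 := by
      have h3 : ∀ a : ZMod 2, a ≠ 1 → a = 0 := by decide
      exact h3 _ hne
    have hdet : g.1.det = 0 := Matrix.det_eq_zero_of_column_eq_zero 0 (fun i => by
      by_cases hi : i = 0
      · rw [hi]; exact h0
      · exact hA i hi)
    rw [g.2] at hdet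
    exact one_ne_zero hdet
  exact ⟨hA, hB, hD, hC ▸ hD⟩

/-- the lower right block -/
def blk (g : Matrix (Fin 5) (Fin 5) (ZMod 2)) : Matrix (Fin 3) (Fin 3) (ZMod 2) :=
  Matrix.of fun i j => g i.succ.succ j.succ.succ

theorem blk_mul {A A' : Matrix (Fin 5) (Fin 5) (ZMod 2)} (hA : ∀ i : Fin 5, i ≠ 0 → A i 0 = 0)
    (hB : ∀ j : Fin 5, j ≠ 1 → A' 1 j = 0) : blk (A * A') = blk A * blk A' := by
  ext i j
  simp only [blk, Matrix.of_apply, Matrix.mul_apply]
  rw [Fin.sum_univ_succ, Fin.sum_univ_succ]
  have h1 : A i.succ.succ 0 = 0 := hA _ (Fin.succ_ne_zero _)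
  have h2 : A' (Fin.succ 0) j.succ.succ = 0 := by
    apply hB
    intro h
    have := congrArg Fin.val h
    simp at this
  rw [h1, h2, zero_mul, mul_zero, zero_add, zero_add]

theorem blk_one : blk 1 = 1 := by
  ext i j
  simp [blk, Matrix.one_apply]

/-- the block, as a homomorphism on the centraliser -/
noncomputable def blkHom {s : Matrix.SpecialLinearGroup (Fin 5) (ZMod 2)}
    (hs : (s : Matrix (Fin 5) (Fin 5) (ZMod 2)) = Matrix.transvection 0 1 1) :
    ↥(Subgroup.centralizer ({s} : Set (Matrix.SpecialLinearGroup (Fin 5) (ZMod 2)))) →*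
      Matrix (Fin 3) (Fin 3) (ZMod 2) where
  toFun g := blk g.1.1
  map_one' := blk_one
  map_mul' g g' := blk_mul (cent_entries hs g.2).1 (cent_entries hs g'.2).2.1

theorem card_GL3 : Nat.card (GL (Fin 3) (ZMod 2)) = 168 := by
  rw [Matrix.card_GL_field (𝔽 := ZMod 2) 3]
  simp [Fin.prod_univ_three, ZMod.card]

/-- the centraliser of the transvection has at most 21504 elements -/
theorem card_cent_le {s : Matrix.SpecialLinearGroup (Fin 5) (ZMod 2)}
    (hs : (s : Matrix (Fin 5) (Fin 5) (ZMod 2)) = Matrix.transvection 0 1 1) :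
    Nat.card ↥(Subgroup.centralizer ({s} : Set (Matrix.SpecialLinearGroup (Fin 5) (ZMod 2))))
      ≤ 21504 := by
  classical
  let f : ↥(Subgroup.centralizer ({s} : Set (Matrix.SpecialLinearGroup (Fin 5) (ZMod 2)))) →
      (Fin 4 → ZMod 2) × (Fin 3 → ZMod 2) × GL (Fin 3) (ZMod 2) :=
    fun g => (fun j => g.1.1 0 j.succ, fun i => g.1.1 i.succ.succ 1, (blkHom hs).toHomUnits g)
  have hf : Function.Injective f := by
    intro g g' h
    simp only [f, Prod.mk.injEq] at h
    obtain ⟨h1, h2, h3⟩ := h
    have h3' : blk g.1.1 = blk g'.1.1 :=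
      congrArg (fun u : GL (Fin 3) (ZMod 2) => (u : Matrix (Fin 3) (Fin 3) (ZMod 2))) h3
    obtain ⟨a1, a2, a3, a4⟩ := cent_entries hs g.2
    obtain ⟨b1, b2, b3, b4⟩ := cent_entries hs g'.2
    apply Subtype.ext
    apply Subtype.ext
    ext i j
    induction i using Fin.cases with
    | zero =>
      induction j using Fin.cases with
      | zero => rw [a3, b3]
      | succ j => exact congrFun h1 j
    | succ i =>
      induction i using Fin.cases with
      | zero =>
        by_cases hj : j = 1
        · subst hj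
          exact a4.trans b4.symm
        · exact (a2 j hj).trans (b2 j hj).symm
      | succ i =>
        induction j using Fin.cases with
        | zero => rw [a1 _ (Fin.succ_ne_zero _), b1 _ (Fin.succ_ne_zero _)]
        | succ j =>
          induction j using Fin.cases with
          | zero => exact congrFun h2 i
          | succ j => exact congrFun (congrFun h3' i) j
  have hc := Nat.card_le_card_of_injective f hf
  rw [Nat.card_prod, Nat.card_prod, card_GL3] at hc
  have h4 : Nat.card (Fin 4 → ZMod 2) = 16 := by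
    rw [Nat.card_eq_fintype_card]
    simp [ZMod.card]
  have h3 : Nat.card (Fin 3 → ZMod 2) = 8 := by
    rw [Nat.card_eq_fintype_card]
    simp [ZMod.card]
  rw [h4, h3] at hc
  exact hc

end Cfsg.Agent.Lib.Helper93.TransvCent
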